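/-
Thompson's class square property for the split groups over fields with at least nine elements, type `G₂` excepted.
-/
import Cfsg.Agent.Chev.EGExc
import Cfsg.Agent.Chev.RealAll
import Cfsg.Agent.Chev.RealAut
import Cfsg.Agent.Known.StbSpin
import Cfsg.Agent.Known.StbData
import Cfsg.Agent.S2522

set_option autoImplicit false

namespace CL.Chev

open Cfsg Cfsg.Lie CL.Cls QuadraticMap

variable {F : Type*} [Field F] [Fintype F]

theorem inSq_jor (hF : 4 ≤ Fintype.card F) (n : ℕ) (hn : 2 ≤ n) (g : GL (Fin (n + 1)) F) (hg : g ∉ Subgroup.center _)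
    (h : g.val.det = 1) : InSq (GLv.jor n F) g := by
  obtain ⟨J, hJ⟩ := GLv.exists_jordan n F
  refine InSq.congr (GLv.isConj_jordan hJ (τ := id) Function.injective_id (fun _ => one_ne_zero) (.refl _)).symm
    (Cfsg.Agent.S2522.result (by rw [Cardinal.mk_fintype]; exact_mod_cast hF) _ (by omega) J g hJ ?_ h)
  rintro ⟨c, hc⟩
  exact hg (Subgroup.mem_center_iff.2 fun x => Units.ext (by simp [hc]))

theorem InSq.forall_equiv {G G' : Type*} [Group G] [Group G'] (e : G' ≃* G) (h : ∃ c : G, ∀ g, InSq c g) :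
    ∃ c : G', ∀ g, InSq c g :=
  h.elim fun c hc => ⟨e.symm c, fun g => by simpa using (hc (e g)).map e.symm.toMonoidHom⟩

theorem StSys.Faithful.thompson_quot {ι Φ : Type} [Fintype ι] [DecidableEq ι] [Finite Φ] {R : RS ι Φ} {G : Type*}
    [Group G] {S : StSys R F G} (hS : S.Faithful) (hG : S.grp = ⊤) (hN : R.NoG2) (hR : R.Chain) (hT : R.Thomp)
    (hF : 9 ≤ Fintype.card F) {G' : Type*} [Group G'] (e : G' ≃* G) : ∃ c : G' ⧸ Subgroup.center G', ∀ g, InSq c g :=
  hS.thompson hG hN hR hT hF (inSq_jor (by omega)) (π := (QuotientGroup.mk' _).comp e.symm.toMonoidHom)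
    ((QuotientGroup.mk'_surjective _).comp e.symm.surjective) fun z hz => (QuotientGroup.eq_one_iff _).2
      (Subgroup.mem_center_iff.2 fun x => e.injective (by simpa using Subgroup.mem_center_iff.1 hz (e x)))

theorem thompson_PSL (hF : 9 ≤ Fintype.card F) (n : ℕ) :
    ∃ c : Matrix.ProjectiveSpecialLinearGroup (Fin (n + 2)) F, ∀ g, InSq c g :=
  (SysA.faithful (n + 1) F).thompson_quot (SysA.grp _ F) EuclA.simplyLaced.noG2 EuclA.chain (EuclA.thomp n) hF (.refl _)

theorem thompson_PSp (hF : 9 ≤ Fintype.card F) (n : ℕ) : ∃ c : PSp (n + 2) F, ∀ g, InSq c g :=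
  (SysC.faithful F n).thompson_quot (SysC.grp F n) (EuclK.noG2 _) (EuclK.chain _ (by simp)) (EuclK.thomp _ (by simp)) hF
    (CL.Sp.spEquiv _ F)

theorem OFrame.thompson {k : ℤ} (hk : k = 0 ∨ k = 1 ∨ k = 2) {n : ℕ} {τ : Type} [DecidableEq τ] [Fintype τ]
    {Q : QuadraticForm F (τ → F)} (O : OFrame k (n + 2) Q) (hQ : (polarBilin Q).Nondegenerate) (hn : n ≠ 0)
    (hn' : k = 0 → 2 ≤ n) (hF : 9 ≤ Fintype.card F) : ∃ c : POmega F Q, ∀ g, InSq c g := by
  have h5 : 5 ≤ Module.finrank F (τ → F) := by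
    have := Fintype.card_le_of_injective O.i fun a b => O.i_inj.1
    simp at this ⊢; omega
  let π : SpG Q →* OG Q := (MonoidHom.snd _ _).comp (SpG Q).subtype
  let S := (O.cover hk).sys
  have h1 : S.grp ≤ (commutator (OG Q)).comap π := S.XS_le_iff.2 fun r _ t => by
    change (Y Q _ _).1.2 ∈ commutator (OG Q)
    rw [Y_snd]; exact eich_mem_commutator hQ h5 _ _
  let ρ : S.grp →* commutator (OG Q) := (π.comp S.grp.subtype).codRestrict _ fun g => h1 g.2
  have h2 : ∀ a v, eich Q (Pi.single (O.i a) 1) v ∈ S.grp.map π := fun a =>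
    eich_mem_of_single (O.Q_i a) (O.polar_i a) fun z hz t => by
      by_cases e : z = O.i a
      · rw [e, eich_smul_self]; exact one_mem _
      · exact ⟨_, (O.cover hk).y_mem_grp ⟨(a, z, 1), hz, e⟩ t, by simp [π, OFrame.cover, OFrame.y, OFrame.yv, Y_snd]⟩
  have hρ : Function.Surjective ρ := fun g => by
    obtain ⟨y, hy, e⟩ := commutator_le_of_pair hQ (by omega) (e := Pi.single (O.i (.inl 0)) 1)
      (f := Pi.single (O.i (.inr 0)) 1) ⟨O.Q_i _, O.Q_i _, by simp [O.polar_i]⟩ (h2 _) (h2 _) g.2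
    exact ⟨⟨y, hy⟩, Subtype.ext e⟩
  have hS : (S.res.map ρ).Faithful := StSys.Faithful.of_map (f := ((CL.Sp.glEquiv _ F).symm.toMonoidHom.comp
    ((OG Q).subtype.comp (commutator (OG Q)).subtype))) (O.wrep hk).faithful
  have hg : S.res.grp = ⊤ := (StSys.restrict_grp _ _ _).trans (Subgroup.subgroupOf_self _)
  exact InSq.forall_equiv (pomegaEquiv Q) (hS.thompson_quot (by rw [StSys.map_grp, hg, Subgroup.map_top_of_surjective _ hρ])
    (EuclK.noG2 _) (EuclK.chain _ fun _ => hn) (EuclK.thomp _ hn') hF (.refl _))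

theorem Real.thompson {D : ChevalleyDatum} (E : Real D) (hN : E.R.NoG2) (hR : E.R.Chain) (hT : E.R.Thomp)
    (hF : 9 ≤ Fintype.card F) : ∃ c : D.group F, ∀ g, InSq c g :=
  (E.full F).faithful.thompson (E.full F).top hN hR hT hF (inSq_jor (by omega)) (π := .id _) Function.surjective_id
    fun z hz => by simpa [E.center_eq_bot F] using hz

theorem thompson_F4 (hF : 9 ≤ Fintype.card F) : ∃ c : chevF4.group F, ∀ g, InSq c g :=
  realF4.thompson (realF4.noG2 (by decide +kernel)) (chain_F4 _) (thomp_F4 _) hF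

theorem thompson_E6 (hF : 9 ≤ Fintype.card F) : ∃ c : chevE6.group F, ∀ g, InSq c g :=
  realE6.thompson (realE6.noG2 (by decide +kernel)) (chain_E6 _) (thomp_E6 _) hF

theorem thompson_E7 (hF : 9 ≤ Fintype.card F) : ∃ c : chevE7.group F, ∀ g, InSq c g :=
  realE7.thompson (realE7.noG2 (by decide +kernel)) (chain_E7 _) (thomp_E7 _) hF

theorem thompson_E8 (hF : 9 ≤ Fintype.card F) : ∃ c : chevE8.group F, ∀ g, InSq c g :=
  realE8.thompson (realE8.noG2 (by decide +kernel)) (chain_E8 _) (thomp_E8 _) hF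

end CL.Chev
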