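/-
Thompson's class square property for `²F₄(q)`, `q ≥ 8`.
-/
import Cfsg.Agent.Chev.EGOct2
import Cfsg.Agent.Chev.InvCertTw
import Cfsg.Agent.Chev.TwRealF4

set_option autoImplicit false

namespace CL.Chev

open Matrix CL.GL2 GLv Cfsg Cfsg.Lie Cert

theorem GLv.exists_trace_ne' {k : Type*} [Field k] (h2 : (2 : k) = 0) {y y' : GL2 k} (hd : (y * y').val.det = 1) :
    ∃ γ : k, (y * lo 0 γ * y').val.trace ≠ 0 ∨ y * lo 0 γ * y' = 1 := by
  have e : ∀ γ : k, (y * lo 0 γ * y').val.trace = (y' * y).val.trace + γ * (y' * y).val 0 1 := fun γ => by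
    simp only [Units.val_mul, lo_val2, trace_fin_two, mul_apply, Fin.sum_univ_two]; simp; ring
  by_cases h : (y' * y).val 0 1 = 0
  swap
  · by_contra! h0
    have h1 := (h0 0).1
    have h3 := (h0 1).1
    rw [e] at h1 h3
    exact h (by linear_combination h3 - h1)
  refine ⟨(y' * y).val 1 0, or_iff_not_imp_left.2 fun h1 => ?_⟩
  rw [e, h, mul_zero, add_zero, trace_fin_two, not_not] at h1
  rw [Units.val_mul, det_mul_comm, ← Units.val_mul, det_fin_two, h, zero_mul, sub_zero] at hd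
  rw [show y * lo 0 ((y' * y).val 1 0) * y' = y * (lo 0 ((y' * y).val 1 0) * (y' * y)) * y⁻¹ by group,
    show lo 0 ((y' * y).val 1 0) * (y' * y) = 1 from Units.ext ?_, mul_one, mul_inv_cancel]
  generalize y' * y = g at *
  have h3 : g.val 0 0 = 1 := by grind
  have h4 : g.val 1 1 = 1 := by grind
  ext i j
  fin_cases i <;> fin_cases j <;> simp [lo_val2, mul_apply, h, h3, h4]
  linear_combination g.val 1 0 * h2

namespace StSys.GAut.IsF4

variable {Φ : Type} {F : Type*} [Field F] {G : Type*} [Group G] {R : RS (Fin 4) Φ} {S : StSys R F G} {A : S.GAut}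
  {θ : F ≃+* F} {c d : Φ} (h : A.IsF4 θ c d)
include h

theorem eq_one_of_cube {t : F} (e : t ^ 3 = 1) : t = 1 := by
  have h1 : θ t ^ 3 = 1 := by rw [← map_pow, e, map_one]
  have h2 := h.sq t
  rcases show θ t = 1 ∨ θ t = t ∨ θ t = t ^ 2 by grind with h3 | h3 | h3
  · exact θ.injective (by simpa using h3)
  · rw [h3, h3] at h2; grind
  · rw [h3, map_pow, h3] at h2; grind

variable [Finite Φ] [Finite F]

theorem exists_fpf (hF : 2 < Nat.card F) : ∃ b : Fˣ, Fpf (S.UJ (jF4 0)) (h.psi (dia (b ^ 3) (b ^ 3))) ∧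
    Fpf (S.VJ (jF4 0)) (h.psi (dia (b ^ 3) (b ^ 3))) := by
  obtain ⟨a, h1, h2, h3⟩ := h.exists_sep hF 0
  have h4 := h2 (R.simple 3) ⟨R.pos_simple 3, by rw [R.root_simple]; decide +kernel⟩
  have h5 : a 2 / a 3 = a 3 := by
    rw [h.chi_s] at h4
    simp [Cox.cF4] at h4
    rw [inv_mul_eq_one.1 h4, div_eq_iff_eq_mul, pow_two]
  refine ⟨a 3, ?_⟩
  rw [← dia_pow, map_pow, show h.psi (dia (a 3) (a 3)) = _ from h5 ▸ h.psi_torus h1, ← map_pow]
  have h6 : ∀ r, R.Pos r → r ∉ R.PhiJ (jF4 0) → R.chi Fˣ r (a ^ 3) ≠ 1 := fun r hr hJ e =>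
    h3 _ (fun e => hJ fun i hi => (by decide +kernel : ∀ v ∈ posF4, clsF4 v = 0 → ∀ i, i ∉ wF4 0 → v i = 0) _
      (root_mem_F4 h.cartan hr) e i (by rwa [← mem_jF4])) r ⟨hr, rfl⟩
      (Units.ext (h.eq_one_of_cube (by simpa using congrArg Units.val e)))
  refine h.faithful.fpf_torus h.hMul fun r hr => ?_
  by_cases h7 : R.Pos r
  · exact h6 r h7 hr
  · refine fun e => h6 _ ((R.pos_neg_iff r).2 h7) (by simpa using hr) (inv_eq_one.1 (.trans ?_ e))
    simp [R.chi_apply, R.pair_neg_right]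

variable (hG : S.grp = ⊤) {K : Subgroup G} (D : A.TwData jF4 K) (hT : ∀ a, A.τ a = a → h.hMul.torus a ∈ K)
include hG D hT

theorem exists_inSq [IsSimpleGroup K] (hF : 2 < Nat.card F) (h2 : A.TwoF) :
    ∃ x : K, Odd (orderOf x) ∧ ∀ g, InSq x g := by
  have := Fintype.ofFinite F
  have h0 := h.two
  have : CharP F 2 := CharTwo.of_one_ne_zero_of_two_eq_zero one_ne_zero h0
  have := h.faithful.finite_grp_of_hMul h.hMul
  have : Finite G := .of_surjective S.grp.subtype fun g => ⟨⟨g, hG ▸ trivial⟩, rfl⟩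
  let Ψ : GL2 F →* K := h.psi.codRestrict K fun y => h.mem_of_fixed hG D hT (h.σ_psi y)
  obtain ⟨b, hb⟩ := h.exists_fpf hF
  have hU : ∀ a, Ψ a ∈ Subgroup.normalizer (((S.UJ (jF4 0)).comap K.subtype : Subgroup K) : Set K) := fun a =>
    Subgroup.le_normalizer_comap _ (S.LJ_le_normalizer_UJ _ (h.psi_mem_LJ a))
  have hV : ∀ a, Ψ a ∈ Subgroup.normalizer (((S.VJ (jF4 0)).comap K.subtype : Subgroup K) : Set K) := fun a =>
    Subgroup.le_normalizer_comap _ (S.LJ_le_normalizer_VJ _ (h.psi_mem_LJ a))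
  have e1 : (dia b b * lo 0 1 * up 0 1) ^ 3 = dia (b ^ 3) (b ^ 3) := Units.ext (by
    simp only [pow_succ, pow_zero, one_mul, Units.val_mul, lo_val2, up_val2, dia_val]
    ext i j; fin_cases i <;> fin_cases j <;> simp <;> grind)
  have e2 : (dia b b)⁻¹ * up 0 1 * lo 0 1 = (dia b b * lo 0 1 * up 0 1)⁻¹ := by
    rw [eq_inv_iff_mul_eq_one, mul_assoc, mul_assoc, inv_mul_eq_one]
    exact Units.ext (by
      simp only [Units.val_mul, lo_val2, up_val2, dia_val]
      ext i j; fin_cases i <;> fin_cases j <;> simp <;> grind)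
  have hx : Sep (dia b b * lo 0 1 * up 0 1) := fun e => by
    simp only [Units.val_mul, lo_val2, up_val2, dia_val] at e
    simp at e
    have := b.ne_zero
    grind
  have e3 : IsConj (Ψ (dia b b * lo 0 1 * up 0 1)) (Ψ (dia b b * lo 0 1 * up 0 1))⁻¹ := by
    refine isConj_iff.2 ⟨⟨_, h.mem_of_fixed hG D hT h.σ_om⟩, Subtype.ext ?_⟩
    rw [← map_inv, ← e2]
    change _ * h.psi _ * _ = h.psi _
    have h3 := fun i t => S.conj_wprod_two h0 omF4 (R.simple i) t
    have h4 := fun i t => S.conj_wprod_two h0 omF4 (R.neg (R.simple i)) t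
    simp only [RS.aut_neg (S.induces_wprod omF4).1, h.wprod_omF4, R.neg_neg] at h3 h4
    have h5 := h.hMul.conj_eq_inv (S.induces_wprod omF4) h.wprod_omF4 (h.psi_dia_mem_H b b)
    change _ * _ * (wprod S.nS omF4)⁻¹ = _
    simp only [map_mul, map_inv, psi_lo, psi_up, xJ, opp_x]
    rw [← conj_mul, ← conj_mul, ← conj_mul, ← conj_mul, h5, h3, h3, h4, h4]
  generalize dia b b * lo 0 1 * up 0 1 = x at *
  rw [← e1, map_pow] at hb
  have f1 : Fpf ((S.UJ (jF4 0)).comap K.subtype) (Ψ x) := .of_map K.subtype_injective (hU x) (fun _ h => h)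
    (.of_pow (S.LJ_le_normalizer_UJ _ (h.psi_mem_LJ x)) hb.1)
  have f2 : Fpf ((S.VJ (jF4 0)).comap K.subtype) (Ψ x) := .of_map K.subtype_injective (hV x) (fun _ h => h)
    (.of_pow (S.LJ_le_normalizer_VJ _ (h.psi_mem_LJ x)) hb.2)
  refine ⟨Ψ x, ?_, fun g => ?_⟩
  · obtain ⟨N, hN, e⟩ := hx.exists_pow 2
    exact (Nat.not_even_iff_odd.1 fun h => hN h.two_dvd).of_dvd_nat
      (orderOf_dvd_of_pow_eq_one (by rw [← map_pow, e, map_one]))
  by_cases hg : g = 1
  · exact hg ▸ .one e3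
  obtain ⟨k, hk⟩ : ∃ k : K, (k * g * k⁻¹ : K) ∉ (S.P (jF4 0)).subgroupOf K := by
    by_contra! h0
    rcases (Subgroup.normalCore_normal ((S.P (jF4 0)).subgroupOf K)).eq_bot_or_eq_top with h1 | h1
    · exact hg (Subgroup.mem_bot.1 (h1 ▸ h0))
    obtain ⟨v, hv, h2, h3⟩ := D.exV 1
    refine h3 (h.faithful.eq_one_of_mem_P_VJ (Subgroup.normalCore_le _ (h1.ge (Subgroup.mem_top (⟨v, hv⟩ : K))) :)
      (S.XS_mono (fun r hr => And.intro hr.1 fun h4 => R.root_ne_zero r (funext fun i => ?_)) h2))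
    by_cases h5 : i ∈ jF4 0
    exacts [hr.2 i (by rw [mem_jF4] at *; revert i; decide), h4 i h5]
  obtain ⟨y, y', hy, h3⟩ := h.stepA hG D hT h2 (D.fix _ (k * g * k⁻¹).2) hk
  obtain ⟨γ, hγ⟩ := exists_trace_ne' h0 hy
  have h4 : Gd x (y * lo 0 γ * y') := by
    rcases hγ with e | e
    · obtain ⟨a, b, ha, hb, e⟩ := exists_mul_even h0 e hx hx.inv (by simpa [lo_val2, det_GL_ne_zero] using hy)
      exact ⟨a, b, .inl ha, .inr hb, e⟩
    · exact e ▸ gd_one x
  obtain ⟨a, ha, v, hv, u, hu, e⟩ := h3 γ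
  obtain ⟨h5, -, h6⟩ := fixed_VLU h.faithful (h.π_mem 0) hv (h.psi_mem_LJ _) hu (by
    rw [← e]; simp only [map_mul, map_inv, ha, D.fix _ (k * g * k⁻¹).2])
  refine .of_conj (x := k) (.of_conj (x := ⟨a, h.mem_of_fixed hG D hT ha⟩) ?_)
  convert h4.inSq Ψ hU hV f1 f2 e3 (v := ⟨v, h.mem_of_fixed hG D hT h5⟩) (u := ⟨u, h.mem_of_fixed hG D hT h6⟩) hv hu
    using 1
  exact Subtype.ext e

end StSys.GAut.IsF4

open StSys

theorem twoF (E : Real chevF4) {F : Type*} [Field F] (h2 : (2 : F) = 0) {A : (E.S F).res.GAut}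
    (hπ : ∀ i, (A.π i : ℕ) = twPiF4 i) : GAut.TwoF (R := E.R) A := by
  have T := tabF4
  have mem : ∀ (b : Bool) {L : List ℕ}, decide (∀ r ∈ L, r < auxF4.n ∧ auxF4.pos r = b ∧ auxF4.rt r 2 ≠ 0) = true →
      E.px F L ∈ (E.S F).XS {r | (E.R.Pos r ↔ b) ∧ r ∉ E.R.PhiJ (jF4 0)} := fun b L h =>
    list_prod_mem (List.forall_mem_map.2 fun r hr => by
      have h1 := of_decide_eq_true h r hr
      have h3 : E.R.Pos ⟨r, T.lt_nroots h1.1⟩ ↔ b := by rw [← T.pos_iff' E, h1.2.1]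
      have h4 : ⟨r, T.lt_nroots h1.1⟩ ∉ E.R.PhiJ (jF4 0) := fun h3 => h1.2.2
        ((T.mem_PhiJ E _ _).1 h3 (2 : Fin 4) fun h => absurd ((mem_jF4 0 2).1 h) (by decide))
      rw [E.xN_coe ⟨r, T.lt_nroots h1.1⟩ (1 : F)]
      exact (E.S F).x_mem_XS (And.intro h3 h4) _)
  have key : ∀ (o j : List (Fin chevF4.rank)) (a v u m : List ℕ) {g : (E.S F).grp},
      decide (∀ r ∈ a, r < auxF4.n ∧ auxF4.pos r = true ∧ auxF4.rt r 2 ≠ 0) = true →
      decide (∀ r ∈ v, r < auxF4.n ∧ auxF4.pos r = false ∧ auxF4.rt r 2 ≠ 0) = true →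
      decide (∀ r ∈ u, r < auxF4.n ∧ auxF4.pos r = true ∧ auxF4.rt r 2 ≠ 0) = true →
      auxF4.isOne (a.map twRhoF4 ++ a.reverse) = true →
      auxF4.isOne (a ++ auxF4.nword (o.map Fin.val) ++ (v ++ (m ++ auxF4.nword (j.map Fin.val)) ++ u).reverse) = true →
      g = E.px F m → ∃ a ∈ (E.S F).res.UJ (jF4 0), A.σ a = a ∧ ∃ v ∈ (E.S F).res.VJ (jF4 0),
        ∃ u ∈ (E.S F).res.UJ (jF4 0), a * wprod (E.S F).res.nS o = v * (g * wprod (E.S F).res.nS j) * u :=
    fun o j a v u m g h1 h3 h4 h5 h6 h7 =>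
    ⟨⟨_, E.px_mem_grp F a⟩, mem_res_XS.2 (by simpa using mem true h1), Subtype.ext ((T.map_px E h2 hπ twRhoF4_ok
      fun r hr => (of_decide_eq_true h1 r hr).1).trans (T.px_eq_of_isOne E h2 h5)), ⟨_, E.px_mem_grp F v⟩,
      mem_res_XS.2 (by simpa using mem false h3), ⟨_, E.px_mem_grp F u⟩, mem_res_XS.2 (by simpa using mem true h4),
      Subtype.ext (by
        have := T.px_eq_of_isOne E h2 h6
        have e := fun l => (map_wprod (E.S F).grp.subtype (E.S F).res.nS l).trans (T.px_nword E h2 l).symm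
        rw [E.px_append, E.px_append, E.px_append, E.px_append, ← h7] at this
        exact (congrArg (fun z => E.px F a * z) (e o)).trans
          (this.trans (congrArg (fun z => E.px F v * (g.1 * z) * E.px F u) (e j).symm)))⟩
  rintro _ (rfl | rfl)
  · exact key _ _ [39, 45] [8, 2] [39, 45] [] (by decide +kernel) (by decide +kernel)
      (by decide +kernel) (by decide +kernel) (by decide +kernel)
      (by rw [StSys.x_zero, StSys.x_zero, one_mul]; rfl)
  · refine key _ _ [38, 39, 43, 45] [10, 15, 8, 2] [37, 32, 39, 45] [auxF4.sim 0, auxF4.sim 3]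
      (by decide +kernel) (by decide +kernel) (by decide +kernel) (by decide +kernel) (by decide +kernel) ?_
    rw [E.px_cons, E.px_cons, show auxF4.sim 0 = _ from (T.simple E (0 : Fin 4)).symm,
      show auxF4.sim 3 = _ from (T.simple E (3 : Fin 4)).symm, E.xN_coe, E.xN_coe]
    exact congrArg (_ * ·) (mul_one _).symm

theorem exists_inSq_twistedF4 {M : Type*} [Group M] (hM : Iso2F4 M) : ∃ x : M, Odd (orderOf x) ∧ ∀ g, InSq x g := by
  obtain ⟨F, _, _, m, hm, hF, ⟨f⟩⟩ := hM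
  have E := realF4
  have h := isTwF4 E hF
  have hq : 3 < 2 ^ (2 * m + 1) := lt_of_lt_of_le (by norm_num) (Nat.pow_le_pow_right two_pos (show 3 ≤ _ by omega))
  obtain ⟨A, θ, c, d, h1, D, hT⟩ := h.ex'
  have e := (Subgroup.subgroupOfEquivOfLe h.le).trans f.symm
  have := (h.isSimpleGroup hq).1
  have := (Subgroup.subgroupOfEquivOfLe h.le).isSimpleGroup
  obtain ⟨x, hx, h2⟩ := h1.exists_inSq (E.S F).res_grp D hT (by rw [h.card]; omega)
    (twoF E h1.two (by rw [h1.π_eq]; decide))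
  exact ⟨e x, by rwa [e.orderOf_eq], fun g => by simpa using (h2 (e.symm g)).map e.toMonoidHom⟩

end CL.Chev
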