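/-
Certificates for "every non-trivial element is a product of two conjugates of `x`" in permutation models.
-/
import Cfsg.Agent.Spor.PGTop2
import Cfsg.Agent.Spor.PGCov
import Cfsg.Agent.Chev.EGFpf

set_option autoImplicit false

namespace CL.PG
open CL.Chev
variable {G : Type*} [Group G]

/-- the relations `r = u x u⁻¹ v x v⁻¹` -/
noncomputable def sqR (x : List ℕ) (PR : List (List ℕ × List ℕ × List ℕ)) : List (List ℕ × List ℕ) :=
  mapL (fun p => (p.1, app p.2.1 (app x (app (invW p.2.1) (app p.2.2 (app x (invW p.2.2))))))) PR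

theorem inSq_of_sqR {gs : List G} {x : List ℕ} {PR : List (List ℕ × List ℕ × List ℕ)} (h : Rels gs (sqR x PR))
    {R : List (List ℕ)} (hR : [] :: mapL Prod.fst PR = R) {H : Subgroup G} (hc : Cls 0 H ⊤ gs R) {g : G}
    (hg : g ∈ H) (h1 : g ≠ 1) : InSq (wordG gs x) g := by
  obtain ⟨r, hr, y, -, e⟩ := hc g hg (pow_zero g)
  rw [← hR, List.mem_cons] at hr
  rcases hr with rfl | hr
  · exact absurd (by rw [← e, wordG_nil]; simp) h1
  obtain ⟨p, hp, rfl⟩ := of_mem_mapL hr
  have h2 := h _ (mem_mapL (f := fun p : List ℕ × List ℕ × List ℕ =>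
    (p.1, app p.2.1 (app x (app (invW p.2.1) (app p.2.2 (app x (invW p.2.2))))))) hp)
  simp only [wordG_app, wordG_invW] at h2
  refine ⟨y * wordG gs p.2.1, y * wordG gs p.2.2, ?_⟩
  rw [← e, h2]
  group

theorem InSq.conj' {c g : G} (y : G) (h : InSq c (y * g * y⁻¹)) : InSq c g := by
  obtain ⟨u, v, e⟩ := h
  refine ⟨y⁻¹ * u, y⁻¹ * v, ?_⟩
  have : g = y⁻¹ * (y * g * y⁻¹) * y := by group
  rw [this, e]
  group

/-- an element with a power of order `p` lies in a conjugate of the centraliser of a class representative -/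
theorem inSq_of_cent {gs : List G} {p : ℕ} {R : List (List ℕ)} (h : Cls p ⊤ ⊤ gs ([] :: R)) {c : G}
    (hR : ∀ r ∈ R, ∀ g : G, Commute g (wordG gs r) → g ≠ 1 → InSq c g) {g z : G} (hz : z ^ p = 1) (h1 : z ≠ 1)
    (hc : Commute g z) (hg : g ≠ 1) : InSq c g := by
  obtain ⟨r, hr, y, -, e⟩ := h z trivial hz
  rw [List.mem_cons] at hr
  rcases hr with rfl | hr
  · exact absurd (by rw [← e, wordG_nil]; simp) h1
  refine InSq.conj' y⁻¹ (hR r hr _ ?_ ?_)
  · rw [← e] at hc
    have := hc.eq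
    show _ * _ = _ * _
    calc y⁻¹ * g * y⁻¹⁻¹ * wordG gs r = y⁻¹ * (g * (y * wordG gs r * y⁻¹)) * y := by group
      _ = _ := by rw [this]; group
  · intro h2
    exact hg (by simpa [mul_eq_one_iff_eq_inv] using h2)

end CL.PG
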