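/-
Every non-trivial element of the Tits group is a product of two conjugates of an element of order 13.
-/
import Cfsg.Agent.Chev.EGTitsD

set_option autoImplicit false
set_option maxRecDepth 200000

namespace CL.Chev.TitsSq
open CL.PG CL.Chev

theorem prime_cases {p : ℕ} (hp : p.Prime) (h : p ∣ 17971200) : p = 2 ∨ p = 3 ∨ p = 5 ∨ p = 13 := by
  have e : 17971200 = 2 ^ 11 * (3 ^ 3 * (5 ^ 2 * 13)) := by norm_num
  rw [e, hp.dvd_mul, hp.dvd_mul, hp.dvd_mul] at h
  rcases h with h | h | h | h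
  · exact Or.inl ((Nat.prime_dvd_prime_iff_eq hp (by norm_num)).1 (hp.dvd_of_dvd_pow h))
  · exact Or.inr (Or.inl ((Nat.prime_dvd_prime_iff_eq hp (by norm_num)).1 (hp.dvd_of_dvd_pow h)))
  · exact Or.inr (Or.inr (Or.inl ((Nat.prime_dvd_prime_iff_eq hp (by norm_num)).1 (hp.dvd_of_dvd_pow h))))
  · exact Or.inr (Or.inr (Or.inr ((Nat.prime_dvd_prime_iff_eq hp (by norm_num)).1 h)))

theorem mem_of_cent {G : Type*} [Group G] {gs : List G} {w : List ℕ} {K : Subgroup G}
    (h : Subgroup.centralizer (subW gs [w] : Set G) = K) {g : G} (hg : Commute g (wordG gs w)) : g ∈ K := by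
  rw [← h, centralizer_subW_single, Subgroup.mem_centralizer_singleton_iff]
  exact hg.eq

theorem exists_inSq {M : Type*} [Group M] (h : Cfsg.Lie.IsoTits M) :
    ∃ x : M, Odd (orderOf x) ∧ ∀ g : M, g ≠ 1 → InSq x g := by
  obtain ⟨_, cs, t⟩ := xtop (Γ := M) ⟨CL.Std.Tits.iso.some.trans h.some.symm⟩
  have := t.finite
  have hc : Nat.card (subW cs [[0], [2]]) = 17971200 := by rw [t.top, Subgroup.card_top, t.card]
  have hs := xsq t.c
  refine ⟨wordG cs [124], ?_, fun g hg => ?_⟩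
  · have h1 := xx13 t.c
    rw [subW_single, Nat.card_zpowers] at h1
    rw [h1]
    decide
  by_cases h2 : IsPGroup 2 (Subgroup.zpowers g)
  · obtain ⟨y, -, hy⟩ := exists_conj_le (p := 2) (k := 11) (o := 17971200) (Y := ⊤) (by norm_num)
      (by rw [Subgroup.card_top, t.card]) (by decide +kernel) (xP2_card t.c) le_top h2 le_top
    refine InSq.conj' y (inSq_of_sqR hs xPR_fst (xv2_cls t.c) (hy g (Subgroup.mem_zpowers g)) fun h3 => hg ?_)
    simpa [mul_eq_one_iff_eq_inv] using h3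
  obtain ⟨p, hp, hd, hp2⟩ : ∃ p : ℕ, p.Prime ∧ p ∣ orderOf g ∧ p ≠ 2 := by
    by_contra hn
    push Not at hn
    refine h2 (IsPGroup.of_card (n := (orderOf g).primeFactorsList.length) ?_)
    rw [Nat.card_zpowers]
    exact Nat.eq_prime_pow_of_unique_prime_dvd (orderOf_pos g).ne' fun hq hd => hn _ hq hd
  have hz : orderOf (g ^ (orderOf g / p)) = p := orderOf_pow_orderOf_div (orderOf_pos g).ne' hd
  have hz1 : (g ^ (orderOf g / p)) ^ p = 1 := by
    have := pow_orderOf_eq_one (g ^ (orderOf g / p))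
    rwa [hz] at this
  have hz2 : g ^ (orderOf g / p) ≠ 1 := fun e => hp.one_lt.ne' (by rw [← hz, e, orderOf_one])
  have hz3 : Commute g (g ^ (orderOf g / p)) := Commute.self_pow _ _
  rcases prime_cases hp (hd.trans (t.card ▸ orderOf_dvd_natCard g)) with rfl | rfl | rfl | rfl
  · exact absurd rfl hp2
  · refine inSq_of_cent (Cls.top (k := 3) hp t.card (by decide +kernel) (xP3_card t.c) (xw3_cls t.c)) ?_ hz1 hz2 hz3 hg
    simp only [List.forall_mem_cons]
    exact ⟨fun a ha h1 => inSq_of_sqR hs xPR_fst (xv3_cls t.c) (mem_of_cent (t.top_inf (xc3 t.c hc)) ha) h1,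
      fun _ h => by cases h⟩
  · refine inSq_of_cent (Cls.top (k := 2) hp t.card (by decide +kernel) (xP5_card t.c) (xw5_cls t.c)) ?_ hz1 hz2 hz3 hg
    simp only [List.forall_mem_cons]
    exact ⟨fun a ha h1 => inSq_of_sqR hs xPR_fst (xv5_cls t.c) (mem_of_cent (t.top_inf (xc5 t.c hc)) ha) h1,
      fun _ h => by cases h⟩
  · refine inSq_of_cent (Cls.top (k := 1) hp t.card (by decide +kernel) (xP13_card t.c) (xw13_cls t.c)) ?_ hz1 hz2 hz3 hg
    simp only [List.forall_mem_cons]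
    exact ⟨fun a ha h1 => inSq_of_sqR hs xPR_fst (xv13_cls t.c) (mem_of_cent (t.top_inf (xc13 t.c hc)) ha) h1,
      fun a ha h1 => inSq_of_sqR hs xPR_fst (xv13_cls t.c) (mem_of_cent (t.top_inf (xc13b t.c hc)) ha) h1,
      fun _ h => by cases h⟩

end CL.Chev.TitsSq
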