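/-
The square of a semisimple class of `³D₄(q)` which contains all elements.
-/
import Cfsg.Agent.Chev.EGTri2

set_option autoImplicit false

namespace CL.Chev

open Matrix CL.GL2 GLv Cfsg

theorem GLv.exists_trace_ne {k : Type*} [Field k] (hk : ∀ t : k, t = 0 ∨ t = 1) (y y' : GL2 k) : ∃ γ : k,
    (y * lo 0 γ * y').val.trace ≠ 0 ∨ y * lo 0 γ * y' = 1 := by
  have h2 : (1 : k) + 1 = 0 := (hk _).resolve_right (by simp)
  have e : ∀ γ : k, (y * lo 0 γ * y').val.trace = (y' * y).val.trace + γ * (y' * y).val 0 1 := fun γ => by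
    simp only [Units.val_mul, lo_val2, trace_fin_two, mul_apply, Fin.sum_univ_two]; simp; ring
  by_cases h : (y' * y).val 0 1 = 0
  swap
  · by_contra! h0
    have h1 := (h0 0).1
    have h3 := (h0 1).1
    rw [e] at h1 h3
    exact h (by linear_combination h3 - h1)
  have hd := det_GL_ne_zero (y' * y)
  rw [det_fin_two, h, zero_mul, sub_zero, mul_ne_zero_iff] at hd
  refine ⟨(y' * y).val 1 0, .inr ?_⟩
  rw [show y * lo 0 ((y' * y).val 1 0) * y' = y * (lo 0 ((y' * y).val 1 0) * (y' * y)) * y⁻¹ by group,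
    show lo 0 ((y' * y).val 1 0) * (y' * y) = 1 from Units.ext ?_, mul_one, mul_inv_cancel]
  generalize y' * y = g at *
  ext i j
  fin_cases i <;> fin_cases j <;> simp [lo_val2, mul_apply, h, (hk _).resolve_left hd.1, (hk _).resolve_left hd.2]
  linear_combination g.val 1 0 * h2

namespace StSys

variable {Φ : Type} {F : Type*} [Field F] {G : Type*} [Group G] {θ : F ≃+* F}

theorem exists_isConj_gam3 {x : gam3 θ} {y : GL2 (fixK θ)} (h : IsConj x.1.1 y) :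
    ∃ hy : (y, x.1.2) ∈ gam3 θ, IsConj x ⟨_, hy⟩ := by
  obtain ⟨g, rfl⟩ := isConj_iff.1 h
  have e : ∀ y : GL2 (fixK θ), dia (GeneralLinearGroup.det g) (GeneralLinearGroup.det g) * y =
      y * dia (GeneralLinearGroup.det g) (GeneralLinearGroup.det g) := fun y => Units.ext (by
    ext i j; fin_cases i <;> fin_cases j <;> simp [dia_val, mul_apply, mul_comm])
  have e' : θ (g.val.det : F) = g.val.det := g.val.det.2
  refine ⟨mem_gam3.2 (by simpa [mul_right_comm _ _ g.val.det⁻¹, det_GL_ne_zero] using mem_gam3.1 x.2), isConj_iff.2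
    ⟨⟨(dia (GeneralLinearGroup.det g) (GeneralLinearGroup.det g) * g, Units.map (fixK θ).subtype.toMonoidHom
      (GeneralLinearGroup.det g)), mem_gam3.2 (by rw [Units.val_mul, det_mul]; simp [dia_val, e'])⟩, Subtype.ext (Prod.ext ?_ (by simp))⟩⟩
  change _ * g * x.1.1 * (_ * g)⁻¹ = g * x.1.1 * g⁻¹
  rw [mul_assoc _ g, e, e]; group

theorem gd_gam3 {x y : gam3 θ} {a b : GL2 (fixK θ)} (ha : IsConj x.1.1 a) (hb : IsConj x.1.1⁻¹ b) (e : y.1.1 = a * b)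
    (e' : y.1.2 = 1) : Gd x y :=
  ⟨_, _, .inl (exists_isConj_gam3 ha).2, .inr (exists_isConj_gam3 (x := x⁻¹) hb).2,
    Subtype.ext (Prod.ext e (by simp [e']))⟩

theorem gd_gam3' {x y : gam3 θ} (hx : x.1.2⁻¹ = x.1.2) (h : Gd x.1.1 y.1.1) (e' : y.1.2 = 1) : Gd x y := by
  have key : ∀ {a}, IsConj x.1.1 a ∨ IsConj x.1.1⁻¹ a → ∃ a' : gam3 θ, (IsConj x a' ∨ IsConj x⁻¹ a') ∧ a'.1 = (a, x.1.2) := by
    rintro a (h | h)
    exacts [⟨_, .inl (exists_isConj_gam3 h).2, rfl⟩, ⟨_, .inr (exists_isConj_gam3 (x := x⁻¹) h).2, Prod.ext rfl hx⟩]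
  obtain ⟨a, b, ha, hb, e⟩ := h
  obtain ⟨a', h1, h2⟩ := key ha
  obtain ⟨b', h3, h4⟩ := key hb
  exact ⟨a', b', h1, h3, Subtype.ext (by
    rw [Subgroup.coe_mul, h2, h4, Prod.mk_mul_mk, ← e, ← inv_mul_cancel x.1.2, hx] at *; exact Prod.ext rfl e')⟩

namespace GAut.IsD4

variable [Finite Φ] {R : RS (Fin 4) Φ} {S : StSys R F G} {A : S.GAut} (h : A.IsD4 θ)

theorem fpf_psi {Ω G' : Type*} [Field Ω] [IsAlgClosed Ω] [Group G'] {S' : StSys R Ω G'} (hM : S'.HMul)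
    (hS : S'.Faithful) {f : F →+* Ω} {φ : G →* G'} (hφ : ∀ r t, φ (S.x r t) = S'.x r (f t)) (hi : Function.Injective φ)
    {x : gam3 θ} (hx : Sep x.1.1) (hc : ∀ b u v w : Ω, b ^ 2 - f x.1.1.val.trace * b + u * v * w = 0 → u = f x.1.2 →
      v = f (θ x.1.2) → w = f (θ (θ x.1.2)) → u ^ 2 ≠ b ∧ v ^ 2 ≠ b ∧ w ^ 2 ≠ b ∧ u * b ≠ v * w ∧ v * b ≠ u * w ∧
        w * b ≠ u * v ∧ u * v ≠ w ∧ u * w ≠ v ∧ v * w ≠ u ∧ u * v * w ≠ b ∧ b ≠ 1) :
    Fpf (S.UJ {1}) (h.psi x) ∧ Fpf (S.VJ {1}) (h.psi x) := by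
  obtain ⟨⟨y, z⟩, hy⟩ := x
  obtain ⟨B⟩ := h.nonempty_glMap hM
  have e1 : (GeneralLinearGroup.map (fixK θ).subtype y).val.trace = y.val.trace := by simp [trace_fin_two]
  have e2 : (GeneralLinearGroup.map (fixK θ).subtype y).val.det = z * θ z * θ (θ z) :=
    ((fixK θ).subtype.map_det _).symm.trans (mem_gam3.1 hy)
  have := h.glB.fpf_sep B hS hφ hi (x := GeneralLinearGroup.map (fixK θ).subtype y) (fun e => hx (Subtype.ext (by
    rw [e1, e2, ← mem_gam3.1 hy] at e; exact e))) (h.chi_cen3 z) fun a b h1 h2 => ?_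
  · rwa [(h.glB.commute_torus (fun i => by rw [Subsingleton.elim i 0]; exact h.chi_cen3 z) _).eq,
      show Set.range ![(1 : Fin 4)] = {1} by simp] at this
  rw [e1] at h1
  rw [e2, map_mul, map_mul] at h2
  have h3 := hc b _ _ _ (by rw [← h1, ← h2]; ring) rfl rfl rfl
  have key : ∀ r, f (R.chi Fˣ r (cen3 θ z)) * (a * b) ^ R.pairv (Pi.single 0 1) (R.root r) * b ^ R.pair (R.simple 1) r =
      f z ^ (2 * R.root r 0 - R.root r 1) * b ^ (2 * R.root r 1 - R.root r 0 - R.root r 2 - R.root r 3) *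
        f (θ z) ^ (2 * R.root r 2 - R.root r 1) * f (θ (θ z)) ^ (2 * R.root r 3 - R.root r 1) := fun r => by
    simp only [R.chi_apply, R.pair_simple_left, R.pairv_single_left, h.ca, Fin.sum_univ_four, Fin.prod_univ_four, h2]
    simp [cen3, nm3_val, Cox.cD4, div_zpow]
    field_simp
    ring_nf
  have h4 : f z ≠ 0 ∧ f (θ z) ≠ 0 ∧ f (θ (θ z)) ≠ 0 ∧ (b : Ω) ≠ 0 := by simp
  have h5 : ∀ r, R.Pos r → r ∉ R.PhiJ (Set.range ![1]) → f z ^ (2 * R.root r 0 - R.root r 1) * b ^ (2 * R.root r 1 -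
      R.root r 0 - R.root r 2 - R.root r 3) * f (θ z) ^ (2 * R.root r 2 - R.root r 1) *
        f (θ (θ z)) ^ (2 * R.root r 3 - R.root r 1) ≠ 1 := fun r hr hJ => by
    have h6 := h.root_mem hr
    rw [RS.mem_PhiJ] at hJ
    generalize R.root r = ρ, f z = u, f (θ z) = v, f (θ (θ z)) = w, (b : Ω) = b at *
    obtain ⟨_, _, _, _⟩ := h4
    simp only [posD4, List.mem_cons, List.not_mem_nil, or_false] at h6
    rcases h6 with rfl | rfl | rfl | rfl | rfl | rfl | rfl | rfl | rfl | rfl | rfl | rfl <;> intro e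
    rotate_left
    · exact hJ (by decide)
    all_goals simp at e; field_simp at e; grind
  intro r hr
  refine (key r).trans_ne ?_
  by_cases h6 : R.Pos r
  · exact h5 r h6 hr
  · refine fun e => h5 _ ((R.pos_neg_iff r).2 h6) (by simpa using hr) (inv_eq_one.1 (.trans ?_ e))
    simp only [R.root_neg, Pi.neg_apply, mul_inv, ← _root_.zpow_neg]
    ring_nf

variable (hG : S.grp = ⊤) {K : Subgroup G} (D : A.TwData jD4 K)

/-- The Levi subgroup of the twisted group as an image. -/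
noncomputable def Psi : gam3 θ →* K :=
  (h.psi.comp (gam3 θ).subtype).codRestrict K fun γ => h.mem_of_fixed hG D (h.σ_psi γ.2)

theorem isConj_inv_Psi {x : gam3 θ} (hx : Sep x.1.1) : IsConj (h.Psi hG D x) (h.Psi hG D x)⁻¹ := by
  have hn := S.induces_wprod omD4
  have h3 := fun g => h.hMul.conj_eq_inv hn h.wprod_omD4 (g := g)
  have h4 : A.σ (wprod S.nS omD4) = wprod S.nS omD4 := by
    simp only [omD4, wprod_append, map_mul, h.σ_wprod.1, h.σ_wprod.2]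
  obtain ⟨ha, c, h1, h2⟩ := hn
  have h5 : θ (c (R.simple 1)) = c (R.simple 1) := by
    have := congrArg A.σ (h2 (R.simple 1) 1)
    rw [map_mul, map_mul, map_inv, h4, A.fix_single (h.π_eq ▸ piD4_apply.2.1) (map_one _), h2, h.wprod_omD4, A.σ_neg,
      h.π_eq, piD4_apply.2.1, h.φ_eq, mul_one, ← mul_inv_eq_one, ← S.x_neg, ← S.x_add, h.faithful.x_eq_one_iff] at this
    linear_combination -this
  obtain ⟨x₁, x₂, e1, e2, e3⟩ := h.glB.exists_conj_inv (fixK θ).subtype (n := wprod S.nS omD4)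
    (c := .mk0 ⟨_, h5⟩ fun e => left_ne_zero_of_mul_eq_one (h1 _) (congrArg Subtype.val e))
    (fun t => (h2 _ t).trans (by rw [h.wprod_omD4]; rfl)) (fun t => (h2 _ t).trans (by
      rw [RS.aut_neg ha, h.wprod_omD4, R.neg_neg]; simp [inv_eq_of_mul_eq_one_right (h1 _)])) h3 hx
  refine (((h.Psi hG D).map_isConj (exists_isConj_gam3 e1).2).trans (isConj_iff.2 ⟨⟨_, h.mem_of_fixed hG D h4⟩,
    Subtype.ext ?_⟩)).trans (map_inv (h.Psi hG D) x ▸ (h.Psi hG D).map_isConj (exists_isConj_gam3 (x := x⁻¹) e2).2).symm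
  change _ * h.psi (x₁, x.1.2) * _ = h.psi (x₂, x.1.2⁻¹)
  rw [psi_apply, psi_apply, ← e3, map_inv, map_inv, ← h3 _ (h.hMul.torus_mem_H _)]
  simp [mul_assoc]

include hG D in
theorem exists_mv [IsSimpleGroup K] {g : K} (hg : g ≠ 1) : ∃ y y' : GL2 (fixK θ), (y * y').val.det = 1 ∧ ∀ γ : fixK θ,
    γ = 0 ∨ γ = 1 ∧ A.TwoId ∧ (∀ s : Fˣ, s ^ 7 = 1 ∧ nm3 θ s = 1) → ∃ x : K, A.Mv (x * g * x⁻¹ : K)
      (h.psi (y * lo 0 γ * y', 1)) := by
  obtain ⟨x, hx⟩ : ∃ x : K, (x * g * x⁻¹ : K) ∉ (S.P {1}).subgroupOf K := by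
    by_contra! h0
    rcases (Subgroup.normalCore_normal ((S.P {1}).subgroupOf K)).eq_bot_or_eq_top with h1 | h1
    · exact hg (Subgroup.mem_bot.1 (h1 ▸ h0))
    obtain ⟨v, hv, h2, h3⟩ := D.exV 1
    refine h3 (h.faithful.eq_one_of_mem_P_VJ (Subgroup.normalCore_le _ (h1.ge (Subgroup.mem_top (⟨v, hv⟩ : K))) :)
      (S.XS_mono (fun r hr => And.intro hr.1 fun h4 => R.root_ne_zero r (funext fun i => ?_)) h2))
    by_cases h5 : i = 1
    exacts [hr.2 i (by simp [h5, jD4]), h4 i h5]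
  obtain ⟨_, _, z, ⟨y, h1, rfl⟩, ⟨y', h2, rfl⟩, h3⟩ := h.stepA hG (D.fix _ (x * g * x⁻¹).2) hx
  refine ⟨y, y', Subtype.ext (by simpa using mem_gam3.1 (mul_mem h1 h2)), fun γ hγ => ⟨x, ?_⟩⟩
  have := h3 γ (hγ.imp (congrArg Subtype.val) (And.imp_left (congrArg Subtype.val)))
  rwa [← h.psi_lo, ← map_mul, ← map_mul, Prod.mk_mul_mk, Prod.mk_mul_mk, mul_one, mul_inv_cancel] at this

variable [Finite F]

theorem Psi_inSq {x y : gam3 θ} (hx : Sep x.1.1) (hf : Fpf (S.UJ {1}) (h.psi x) ∧ Fpf (S.VJ {1}) (h.psi x))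
    (hy : Gd x y) {g : K} (hg : A.Mv g (h.psi y)) : InSq (h.Psi hG D x) g := by
  obtain ⟨a, ha, v, hv, u, hu, e⟩ := hg
  obtain ⟨h1, -, h2⟩ := fixed_VLU h.faithful (h.π_mem 0) hv (h.psi_mem_LJ y) hu (by
    rw [← e]; simp only [map_mul, map_inv, ha, D.fix _ g.2])
  have := h.faithful.finite_grp_of_hMul h.hMul
  have : Finite G := .of_surjective S.grp.subtype fun g => ⟨⟨g, hG ▸ trivial⟩, rfl⟩
  have hU : ∀ a, h.Psi hG D a ∈ Subgroup.normalizer (((S.UJ {1}).comap K.subtype : Subgroup K) : Set K) := fun a =>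
    Subgroup.le_normalizer_comap _ (S.LJ_le_normalizer_UJ _ (h.psi_mem_LJ a))
  have hV : ∀ a, h.Psi hG D a ∈ Subgroup.normalizer (((S.VJ {1}).comap K.subtype : Subgroup K) : Set K) := fun a =>
    Subgroup.le_normalizer_comap _ (S.LJ_le_normalizer_VJ _ (h.psi_mem_LJ a))
  refine .of_conj (x := ⟨a, h.mem_of_fixed hG D ha⟩) ?_
  convert hy.inSq (h.Psi hG D) hU hV (.of_map K.subtype_injective (hU x) (fun _ h => h) hf.1)
    (.of_map K.subtype_injective (hV x) (fun _ h => h) hf.2) (h.isConj_inv_Psi hG D hx)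
    (v := ⟨v, h.mem_of_fixed hG D h1⟩) (u := ⟨u, h.mem_of_fixed hG D h2⟩) hv hu using 1
  exact Subtype.ext e

theorem not_dvd_orderOf (p : ℕ) [Fact p.Prime] [CharP F p] {x : gam3 θ} (hx : Sep x.1.1) :
    ¬ p ∣ orderOf (h.Psi hG D x) := fun h0 => by
  obtain ⟨N, hN, e⟩ := hx.exists_pow p
  have := Fintype.ofFinite F
  obtain ⟨n, -, hn⟩ := FiniteField.card F p
  rcases (Fact.out : p.Prime).dvd_mul.1 (h0.trans (orderOf_dvd_of_pow_eq_one (n := N * Nat.card Fˣ) (by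
    rw [← map_pow, show x ^ (N * Nat.card Fˣ) = 1 from Subtype.ext (Prod.ext (by simp [pow_mul, e])
      (by simp [pow_mul'])), map_one]))) with h1 | h1
  · exact hN h1
  · rw [Nat.card_units, Nat.card_eq_fintype_card, hn] at h1
    exact (Fact.out : p.Prime).not_dvd_one ((Nat.dvd_sub_iff_right (Nat.one_le_pow _ _ (Fact.out : p.Prime).pos)
      (dvd_pow_self p n.ne_zero)).1 h1)

include h hG D in
theorem exists_inSq [IsSimpleGroup K] (p : ℕ) [Fact p.Prime] [CharP F p] {q : ℕ} (hq : 1 < q) (hθ : ∀ t, θ t = t ^ q)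
    (hF : Nat.card F = q ^ 3) (hT : (2 : F) = 0 → A.TwoId) {Ω G' : Type*} [Field Ω] [IsAlgClosed Ω] [Group G']
    {S' : StSys R Ω G'} (hM : S'.HMul) (hS : S'.Faithful) {f : F →+* Ω} {φ : G →* G'}
    (hφ : ∀ r t, φ (S.x r t) = S'.x r (f t)) (hi : Function.Injective φ) : ∃ x : K, ¬ p ∣ orderOf x ∧ ∀ g, InSq x g := by
  have := Fintype.ofFinite (fixK θ)
  have mk : ∀ τ δ : fixK θ, δ ≠ 0 → ∃ x : GL2 (fixK θ), x.val.trace = τ ∧ x.val.det = δ := fun τ δ h =>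
    ⟨mkGL (GL2.comp τ δ) (by rwa [det_comp]), trace_comp _ _, det_comp _ _⟩
  have hm : ∀ {y y' : GL2 (fixK θ)} γ, (y * y').val.det = 1 → (y * lo 0 γ * y').val.det = 1 := fun γ h => by
    simpa [lo_val2] using h
  have hm' : ∀ {y : GL2 (fixK θ)}, y.val.det = 1 → (y, 1) ∈ gam3 θ := fun h => mem_gam3.2 (by simp [h])
  suffices ∃ x : gam3 θ, Sep x.1.1 ∧ (Fpf (S.UJ {1}) (h.psi x) ∧ Fpf (S.VJ {1}) (h.psi x)) ∧
      ∀ (y y' : GL2 (fixK θ)) (hy : (y * y').val.det = 1), ∃ γ, (γ = 0 ∨ γ = 1 ∧ A.TwoId ∧ (∀ s : Fˣ, s ^ 7 = 1 ∧ nm3 θ s = 1)) ∧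
        Gd x ⟨_, hm' (hm γ hy)⟩ by
    obtain ⟨x, hx, hf, h1⟩ := this
    refine ⟨_, h.not_dvd_orderOf hG D p hx, fun g => ?_⟩
    by_cases hg : g = 1
    · exact hg ▸ .one (h.isConj_inv_Psi hG D hx)
    obtain ⟨y, y', hy, h2⟩ := h.exists_mv hG D hg
    obtain ⟨γ, hγ, h3⟩ := h1 y y' hy
    exact (h2 γ hγ).elim fun _ h4 => (h.Psi_inSq hG D hx hf h3 h4).of_conj
  by_cases h2 : (2 : F) = 0
  swap
  · obtain ⟨x, ht, hd⟩ := mk 2 (-1) (by simp)
    have h3 : (2 : fixK θ) ≠ 0 := fun e => h2 (congrArg Subtype.val e)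
    have h4 : (2 : Ω) ≠ 0 := fun e => h2 (f.injective (by simpa [map_ofNat] using e))
    have hx : Sep x := fun e => pow_ne_zero 3 h3 (by rw [ht, hd] at e; linear_combination e)
    refine ⟨⟨(x, -1), mem_gam3.2 (by simp [hd])⟩, hx, h.fpf_psi hM hS hφ hi hx fun b u v w e hu hv hw => ?_,
      fun y y' hy => ⟨0, .inl rfl, gd_gam3' (by simp) (gd_odd h3 ht hd (hm 0 hy)) rfl⟩⟩
    rw [ht, show f (2 : fixK θ) = 2 from map_ofNat f 2] at e
    simp at hu hv hw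
    clear * - e hu hv hw h4
    refine ⟨?_, ?_, ?_, ?_, ?_, ?_, ?_, ?_, ?_, ?_, ?_⟩ <;> grind
  have h3 : (2 : fixK θ) = 0 := Subtype.ext h2
  have h4 : (2 : Ω) = 0 := by rw [← map_ofNat f, h2, map_zero]
  obtain ⟨z, hz, hz'⟩ : ∃ z : Fˣ, (z : F) * θ z * θ (θ z) = 1 ∧ (z : F) ^ 3 ≠ 1 := by
    obtain ⟨t, ht⟩ := exists_pow_ne_one (F := F) (n := (q - 1) * 3) (by omega) (by
      obtain ⟨m, rfl⟩ := Nat.exists_eq_add_of_lt hq
      rw [hF, Nat.lt_sub_iff_add_lt, show 1 + m + 1 - 1 = m + 1 by omega]; nlinarith [Nat.zero_le (m ^ 3), Nat.zero_le (m ^ 2)])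
    refine ⟨Units.map (θ : F →* F) t / t, by simp [h.cube], fun e => ht (Units.ext ?_)⟩
    simpa [hθ, pow_mul, pow_sub₀ _ t.ne_zero hq.le, div_eq_mul_inv] using e
  have key : ∀ {x : GL2 (fixK θ)} (hd : x.val.det = 1), x.val.trace ≠ 0 →
      (z : F) ^ 4 - x.val.trace * z ^ 2 + 1 ≠ 0 → ∃ hx : (x, z) ∈ gam3 θ, Sep x ∧
        Fpf (S.UJ {1}) (h.psi (x, z)) ∧ Fpf (S.VJ {1}) (h.psi (x, z)) := fun {x} hd h5 h6 => by
    have hx : Sep x := fun e => h5 (pow_eq_zero_iff two_ne_zero |>.1 (by linear_combination e + 2 * x.val.det * h3))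
    refine ⟨mem_gam3.2 (by simp [hd, hz]), hx, h.fpf_psi hM hS hφ hi (x := ⟨_, mem_gam3.2 (by simp [hd, hz])⟩) hx
      fun b u v w e hu hv hw => ?_⟩
    have h7 : θ x.val.trace = x.val.trace := x.val.trace.2
    have h8 : ∀ s : F, s ^ 3 ≠ 1 ∧ s ^ 4 - x.val.trace * s ^ 2 + 1 ≠ 0 →
        θ s ^ 3 ≠ 1 ∧ θ s ^ 4 - x.val.trace * θ s ^ 2 + 1 ≠ 0 := fun s hs =>
      ⟨fun e => hs.1 (θ.injective (by simpa using e)), fun e => hs.2 (θ.injective (by simpa [h7] using e))⟩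
    have h9 : ∀ s : F, s ^ 3 ≠ 1 ∧ s ^ 4 - x.val.trace * s ^ 2 + 1 ≠ 0 →
        f s ^ 3 ≠ 1 ∧ f s ^ 4 - f x.val.trace * f s ^ 2 + 1 ≠ 0 := fun s hs =>
      ⟨fun e => hs.1 (f.injective (by simpa using e)), fun e => hs.2 (f.injective (by simpa using e))⟩
    have e1 := h9 _ ⟨hz', h6⟩
    have e2 := h9 _ (h8 _ ⟨hz', h6⟩)
    have e3 := h9 _ (h8 _ (h8 _ ⟨hz', h6⟩))
    have e4 : u * v * w = 1 := by simpa [hu, hv, hw] using congrArg f hz
    have e5 : f x.val.trace ≠ 0 := by simpa using h5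
    rw [← hu] at e1
    rw [← hv] at e2
    rw [← hw] at e3
    generalize f x.val.trace = τ at *
    clear * - e e1 e2 e3 e4 e5 h4
    refine ⟨?_, ?_, ?_, ?_, ?_, ?_, ?_, ?_, ?_, ?_, ?_⟩ <;> grind
  by_cases hk : ∀ t : fixK θ, t = 0 ∨ t = 1
  · obtain ⟨x, ht, hd⟩ := mk 1 1 one_ne_zero
    obtain ⟨hx, h5, h6⟩ := key hd (by simp [ht]) fun e => hz' (by rw [ht, OneMemClass.coe_one] at e; grind)
    obtain rfl : q = 2 := by
      refine le_antisymm ((card_fixed hq.le hF).symm.trans_le ?_) hq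
      refine (Nat.card_le_card_of_surjective (fun b : Bool => if b then ⟨1, one_pow _⟩ else ⟨0, zero_pow (by omega)⟩)
        fun t => ?_).trans_eq (by simp)
      rcases hk ⟨t, (hθ _).trans t.2⟩ with e | e
      exacts [⟨false, Subtype.ext (congrArg Subtype.val e).symm⟩, ⟨true, Subtype.ext (congrArg Subtype.val e).symm⟩]
    refine ⟨⟨_, hx⟩, h5, h6, fun y y' hy => ?_⟩
    obtain ⟨γ, hγ⟩ := exists_trace_ne hk y y'
    refine ⟨γ, (hk γ).imp_right fun e => ⟨e, hT h2, fun s => ⟨by simpa [Nat.card_units, hF] using pow_card_eq_one' (x := s),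
      Units.ext (congrArg Subtype.val ((hk ⟨nm3 θ s, show θ _ = _ by
        simp only [nm3_val, map_mul, h.cube, RingHom.id_apply]; ring⟩).resolve_left (by simp [Subtype.ext_iff])))⟩⟩, ?_⟩
    rcases hγ with e | e
    · obtain ⟨a, b, ha, hb, e⟩ := exists_mul_even h3 e h5 h5.inv (by rw [hm γ hy]; simp [hd])
      exact gd_gam3 ha hb e rfl
    · exact gd_gam3 (.refl _) (.refl _) (e.trans (mul_inv_cancel x).symm) rfl
  obtain ⟨s, hs, hs'⟩ : ∃ s : fixK θ, s ≠ 0 ∧ s ≠ 1 := by simpa only [not_forall, not_or] using hk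
  obtain ⟨x, ht, hd⟩ := mk (s + s⁻¹) 1 one_ne_zero
  obtain ⟨hx, h5, h6⟩ := key hd (by rw [ht]; grind) fun e => hz' (by
    have h7 : θ s = s := s.2
    have h8 : (s : F) ≠ 0 := by simpa using hs
    have h9 : θ z = z := by
      rw [ht, AddMemClass.coe_add, Subfield.coe_inv] at e
      rcases show (z : F) ^ 2 = s ∨ (z : F) ^ 2 * s = 1 by grind with e | e <;> have := congrArg θ e <;>
        simp only [map_pow, map_mul, map_one, h7] at this <;> grind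
    rw [h9, h9] at hz; linear_combination hz)
  refine ⟨⟨_, hx⟩, h5, h6, fun y y' hy => ⟨0, .inl rfl, ?_⟩⟩
  obtain ⟨a, b, ha, hb, e⟩ := exists_mul_inv h3 h5 (hm 0 hy) ⟨s, by rw [ht, hd]; grind⟩
  exact gd_gam3 ha hb e rfl

end GAut.IsD4

end StSys

end CL.Chev
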