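/-
Thompson's class square property for `³D₄(q)`.
-/
import Cfsg.Agent.Chev.EGTri3
import Cfsg.Agent.Chev.EGFour
import Cfsg.Agent.Chev.InvCertTw

set_option autoImplicit false

namespace CL.Chev

open Cfsg Cfsg.Lie Cert StSys

theorem Tab.px_mem_UJ {D : ChevalleyDatum} {A : Aux} (T : Tab D A) (E : Real D) (F : Type*) [Field F] (k : Fin D.rank)
    {L : List ℕ} (h : decide (∀ r ∈ L, A.inU k r) = true) : E.px F L ∈ (E.S F).UJ {k} :=
  list_prod_mem (List.forall_mem_map.2 fun r hr => by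
    have h1 := of_decide_eq_true h r hr
    exact E.xN_coe ⟨r, T.lt_nroots h1.1⟩ (1 : F) ▸ (E.S F).x_mem_XS (by simpa using (T.inU_iff E k ⟨r, _⟩).1 h1) _)

theorem Tab.px_mem_VJ {D : ChevalleyDatum} {A : Aux} (T : Tab D A) (E : Real D) (F : Type*) [Field F] (k : Fin D.rank)
    {L : List ℕ} (h : decide (∀ r ∈ L, r < A.n ∧ A.inU k (A.ng r)) = true) : E.px F L ∈ (E.S F).VJ {k} :=
  list_prod_mem (List.forall_mem_map.2 fun r hr => by
    have h1 := of_decide_eq_true h r hr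
    have := (T.inU_iff E k (E.R.neg ⟨r, T.lt_nroots h1.1⟩)).1 (T.neg E _ ▸ h1.2)
    exact E.xN_coe ⟨r, T.lt_nroots h1.1⟩ (1 : F) ▸ (E.S F).x_mem_XS (by simpa [E.R.pos_neg_iff] using this) _)

theorem twoId_D4 (E : Real chevD4) {F : Type*} [Field F] (h2 : (2 : F) = 0) {A : (E.S F).res.GAut}
    (hπ : ∀ i, (A.π i : ℕ) = twPiD4 i) : GAut.TwoId (R := E.R) A := by
  have T := tabD4
  have key : ∀ (a v u m : List ℕ) {g : (E.S F).grp}, decide (∀ r ∈ a, auxD4.inU 1 r) = true →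
      decide (∀ r ∈ v, r < auxD4.n ∧ auxD4.inU 1 (auxD4.ng r)) = true → decide (∀ r ∈ u, auxD4.inU 1 r) = true →
      auxD4.isOne (a.map twRhoD4 ++ a.reverse) = true →
      auxD4.isOne (a ++ auxD4.nword (omD4.map Fin.val) ++ (v ++ m ++ u).reverse) = true → g = E.px F m →
      ∃ a ∈ (E.S F).res.UJ {(1 : Fin 4)}, A.σ a = a ∧ ∃ v ∈ (E.S F).res.VJ {(1 : Fin 4)}, ∃ u ∈ (E.S F).res.UJ {(1 : Fin 4)},
        a * wprod (E.S F).res.nS omD4 = v * g * u := fun a v u m g h1 h3 h4 h5 h6 h7 =>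
    ⟨⟨_, E.px_mem_grp F a⟩, mem_res_XS.2 (T.px_mem_UJ E F (1 : Fin 4) h1), Subtype.ext ((T.map_px E h2 hπ twRhoD4_ok
      fun r hr => (of_decide_eq_true h1 r hr).1).trans (T.px_eq_of_isOne E h2 h5)), ⟨_, E.px_mem_grp F v⟩,
      mem_res_XS.2 (T.px_mem_VJ E F (1 : Fin 4) h3), ⟨_, E.px_mem_grp F u⟩, mem_res_XS.2 (T.px_mem_UJ E F (1 : Fin 4) h4),
      Subtype.ext (by
        have := T.px_eq_of_isOne E h2 h6
        rw [E.px_append, E.px_append, E.px_append, ← h7] at this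
        exact (congrArg _ ((map_wprod (E.S F).grp.subtype (E.S F).res.nS omD4).trans (T.px_nword E h2 omD4).symm)).trans this)⟩
  have e : E.px F (auxD4.nword [1]) = (E.S F).nS (1 : Fin 4) := (T.px_nword E h2 [(1 : Fin 4)]).trans (mul_one _)
  rintro _ (rfl | rfl)
  · exact key [17, 20, 21] [6, 3, 2] [17, 20, 21] (auxD4.nword [1]) (by decide +kernel) (by decide +kernel)
      (by decide +kernel) (by decide +kernel) (by decide +kernel)
      ((congrArg Subtype.val (by rw [StSys.x_zero, one_mul])).trans e.symm)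
  · refine key [17, 20, 21, 19, 16, 15] [6, 3, 2, 5, 10, 11] [17, 20, 21, 22] (auxD4.sim 1 :: auxD4.nword [1])
      (by decide +kernel) (by decide +kernel) (by decide +kernel) (by decide +kernel) (by decide +kernel) ?_
    rw [E.px_cons, show auxD4.sim 1 = _ from (T.simple E (1 : Fin 4)).symm, E.xN_coe, e]
    rfl

theorem exists_inSq_twistedD4 {F : Type*} [Field F] [Fintype F] (p : ℕ) [Fact p.Prime] [CharP F p] {q : ℕ}
    (hq : IsPrimePow q) (hF : Fintype.card F = q ^ 3) : ∃ x : twistedD4 F q, ¬ p ∣ orderOf x ∧ ∀ g, InSq x g := by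
  have E := realD4
  have h := isTwD4 E hq hF
  obtain ⟨A, θ, h1, hθ, D⟩ := h.ex'
  have e := Subgroup.subgroupOfEquivOfLe h.le
  have := h.isSimpleGroup.1
  have := e.isSimpleGroup
  obtain ⟨x, hx, h2⟩ := h1.exists_inSq (E.S F).res_grp D p h.one_lt hθ h.card
    (fun h2 => twoId_D4 E h2 (by rw [h1.π_eq]; decide)) (E.hMul (AlgebraicClosure F)) (E.faithful _)
    (φ := (Matrix.GeneralLinearGroup.map (algebraMap F _)).comp (E.S F).grp.subtype) (E.map_x _)
    fun u v e => Subtype.ext (Units.ext (Matrix.map_injective (algebraMap F _).injective (congrArg Units.val e)))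
  exact ⟨e x, by rwa [e.orderOf_eq], fun g => by simpa using (h2 (e.symm g)).map e.toMonoidHom⟩

end CL.Chev
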