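/-
The Feit–Higman theorem for finite (B,N)-pairs of rank two (the proof of Kilmoyer and Solomon).
-/
import Cfsg.Agent.Chev.FHHecke

set_option autoImplicit false

namespace CL.Chev.FH

open Cfsg BN Real

section Dihedral

variable {W I : Type*}

theorem alt_even [Monoid W] (f : I → W) (x y : I) (k : ℕ) : wprod f (altWord x y (2 * k)) = (f x * f y) ^ k := by
  induction k with
  | zero => simp [altWord_zero]
  | succ k ih => rw [mul_add, mul_one, altWord_succ, altWord_succ, wprod_cons, wprod_cons, ih, pow_succ', mul_assoc]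

theorem alt_odd [Monoid W] (f : I → W) (x y : I) (k : ℕ) :
    wprod f (altWord x y (2 * k + 1)) = (f x * f y) ^ k * f x := by
  rw [altWord_succ, wprod_cons, alt_even, mul_pow_mul]

variable [Group W] {s : I → W} (h : InvGen s) (hE : Exchange s) {x y : I} (hxy : x ≠ y) (hall : ∀ i, i = x ∨ i = y)
include h

include hxy hall in
theorem exists_alt (w : W) : ∃ a b m, (a = x ∧ b = y ∨ a = y ∧ b = x) ∧ IsRed s (altWord a b m) ∧
    wprod s (altWord a b m) = w := by
  induction w using h.induction_left with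
  | one => exact ⟨x, y, 0, .inl ⟨rfl, rfl⟩, isRed_nil s, rfl⟩
  | step i w hw ih =>
    obtain ⟨a, b, m, h1, h2, rfl⟩ := ih
    by_cases hi : i = b
    · subst hi
      exact ⟨i, a, m + 1, by tauto, isRed_cons h2 hw, wprod_cons ..⟩
    obtain rfl : i = a := by rcases hall i with rfl | rfl <;> rcases h1 with ⟨rfl, rfl⟩ | ⟨rfl, rfl⟩ <;> simp_all
    rcases m with _ | m
    · exact ⟨i, b, 1, h1, isRed_cons h2 hw, wprod_cons ..⟩
    · have := h2.lt_cons
      rw [altWord_succ, wprod_cons, h.cancel_left] at hw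
      omega

theorem swap_pow (a b : I) (k : ℕ) : (s b * s a) ^ k = (s a * s b) ^ (-k : ℤ) := by
  rw [zpow_neg, zpow_natCast, ← inv_pow, mul_inv_rev, h.inv, h.inv]

theorem swap_pow' (a b : I) (k : ℕ) : (s b * s a) ^ k * s b = (s a * s b) ^ (-(k + 1 : ℕ) : ℤ) * s a := by
  rw [← swap_pow h, pow_succ, mul_assoc, h.cancel_right]

include hE in
theorem zpow_ne (a b : I) (j k : ℤ) : (s a * s b) ^ j ≠ (s a * s b) ^ k * s a := fun e => by
  obtain ⟨φ, hφ⟩ := hE.exists_hom h (fun _ => (-1 : ℤˣ)) (by simp)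
  simpa [hφ] using congrArg φ e

include hE in
theorem sum_dihedral [Fintype W] {F : W → ℂ} {φ ψ : ℤ → ℂ} {a b : I}
    (hF : ∀ w, ∃ j : ℤ, w = (s a * s b) ^ j ∧ F w = φ j ∨ w = (s a * s b) ^ j * s a ∧ F w = ψ j)
    (per : ∀ j k : ℤ, j ≡ k [ZMOD orderOf (s a * s b)] → φ j = φ k ∧ ψ j = ψ k) :
    ∑ w, F w = ∑ k ∈ Finset.range (orderOf (s a * s b)), (φ k + ψ k) := by
  classical
  have inj : ∀ j k : Fin (orderOf (s a * s b)), (s a * s b) ^ (j : ℤ) = (s a * s b) ^ (k : ℤ) → j = k := fun j k e =>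
    Fin.ext (pow_injOn_Iio_orderOf j.2 k.2 (by simpa using e))
  have sur : ∀ j : ℤ, ∃ k : Fin (orderOf (s a * s b)), (s a * s b) ^ (k : ℤ) = (s a * s b) ^ j := fun j => by
    obtain ⟨k, hk, e⟩ := Finset.mem_image.1 (mem_zpowers_iff_mem_range_orderOf.1 ⟨j, rfl⟩ :
      (s a * s b) ^ j ∈ (Finset.range _).image _)
    exact ⟨⟨k, Finset.mem_range.1 hk⟩, by simpa using e⟩
  have bij : Function.Bijective (Sum.elim (fun k : Fin (orderOf (s a * s b)) => (s a * s b) ^ (k : ℤ))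
      fun k : Fin (orderOf (s a * s b)) => (s a * s b) ^ (k : ℤ) * s a) := by
    refine ⟨?_, fun w => ?_⟩
    · rintro (j | j) (k | k) e
      exacts [congrArg _ (inj j k e), (zpow_ne h hE _ _ _ _ e).elim, (zpow_ne h hE _ _ _ _ e.symm).elim,
        congrArg _ (inj j k (mul_right_cancel e))]
    · obtain ⟨j, ⟨rfl, -⟩ | ⟨rfl, -⟩⟩ := hF w <;> obtain ⟨k, hk⟩ := sur j
      exacts [⟨.inl k, hk⟩, ⟨.inr k, congrArg (· * s a) hk⟩]
  rw [← bij.sum_comp, Fintype.sum_sum_type, ← Finset.sum_add_distrib, Finset.sum_range]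
  refine Finset.sum_congr rfl fun k _ => congrArg₂ _ ?_ ?_
  · obtain ⟨j, ⟨e, e'⟩ | ⟨e, -⟩⟩ := hF ((s a * s b) ^ (k : ℤ))
    exacts [e'.trans (per _ _ (zpow_eq_zpow_iff_modEq.1 e)).1.symm, (zpow_ne h hE _ _ _ _ e).elim]
  · obtain ⟨j, ⟨e, -⟩ | ⟨e, e'⟩⟩ := hF ((s a * s b) ^ (k : ℤ) * s a)
    exacts [(zpow_ne h hE _ _ _ _ e.symm).elim,
      e'.trans (per _ _ (zpow_eq_zpow_iff_modEq.1 (mul_right_cancel e))).2.symm]

include hE hxy hall in
theorem card_eq [Finite W] : Nat.card W = 2 * orderOf (s x * s y) := by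
  have := Fintype.ofFinite W
  have := sum_dihedral h hE (F := fun _ => 1) (φ := fun _ => 1) (ψ := fun _ => 1) (a := x) (b := y) (fun w => by
    obtain ⟨a, b, m, h1, -, rfl⟩ := exists_alt h hxy hall w
    obtain ⟨k, rfl | rfl⟩ := m.even_or_odd' <;> rcases h1 with ⟨rfl, rfl⟩ | ⟨rfl, rfl⟩
    exacts [⟨k, .inl ⟨by simp [alt_even], rfl⟩⟩, ⟨_, .inl ⟨by rw [alt_even, swap_pow h], rfl⟩⟩,
      ⟨k, .inr ⟨by simp [alt_odd], rfl⟩⟩, ⟨_, .inr ⟨by rw [alt_odd, swap_pow' h], rfl⟩⟩]) (by simp)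
  simp only [Finset.sum_const, Finset.card_univ, Finset.card_range, nsmul_eq_mul, mul_one] at this
  rw [Nat.card_eq_fintype_card]
  exact_mod_cast this.trans (by ring : _ = (2 * orderOf (s x * s y) : ℂ))

include hE hxy hall in
theorem isRed_alt {m : ℕ} (hm : orderOf (s x * s y) = 2 * m + 1) : IsRed s (altWord x y (2 * m + 1)) := by
  obtain ⟨a, b, l, h1, h2, e⟩ := exists_alt h hxy hall (wprod s (altWord x y (2 * m + 1)))
  refine isRed_of_le ?_
  rw [← e, h2, length_altWord, length_altWord]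
  rw [alt_odd, ← zpow_natCast] at e
  obtain ⟨k, rfl | rfl⟩ := l.even_or_odd' <;> rcases h1 with ⟨rfl, rfl⟩ | ⟨rfl, rfl⟩
  · exact (zpow_ne h hE _ _ _ _ (by rwa [alt_even, ← zpow_natCast] at e)).elim
  · exact (zpow_ne h hE _ _ _ _ (by rwa [alt_even, swap_pow h] at e)).elim
  all_goals by_contra hk
  · rw [alt_odd, mul_left_inj, ← zpow_natCast, zpow_eq_zpow_iff_modEq, hm] at e
    have := Int.le_of_dvd (by omega) e.dvd
    omega
  · rw [alt_odd, swap_pow' h, mul_left_inj, zpow_eq_zpow_iff_modEq, hm] at e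
    have := Int.le_of_dvd (by omega) e.dvd
    omega

end Dihedral

section Rep

open Matrix hiding zpow_neg mul_inv_rev zpow_mul one_zpow

theorem trace_pow_comm (S T : Matrix (Fin 2) (Fin 2) ℂ) (k : ℕ) : ((T * S) ^ k).trace = ((S * T) ^ k).trace := by
  rcases k with _ | k
  · simp
  · rw [pow_succ', mul_assoc, ← mul_pow_mul, trace_mul_comm, mul_assoc, pow_succ]

theorem diag_pow (α β : ℂ) (k : ℕ) : !![α, 0; 0, β] ^ k = !![α ^ k, 0; 0, β ^ k] := by
  induction k with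
  | zero => simp [one_fin_two]
  | succ k ih => simp [pow_succ, ih]

theorem fin2_ext {a b c d a' b' c' d' : ℂ} (h1 : a = a') (h2 : b = b') (h3 : c = c') (h4 : d = d') :
    !![a, b; c, d] = !![a', b'; c', d'] := by rw [h1, h2, h3, h4]

variable {G : Type*} [Group G] [Finite G] {P : BNPair G} {x y : P.S} (hxy : x ≠ y) (hall : ∀ i, i = x ∨ i = y)
include hxy hall

theorem cellIdx_eq (h : Odd (orderOf (gen P x * gen P y))) : cellIdx P (gen P y) = cellIdx P (gen P x) := by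
  obtain ⟨m, hm⟩ := h
  have h1 := isRed_alt (invGen P) (exchange P) hxy hall hm
  have e := (wprod_altWord_eq_iff _ (gen_mul_self P) x y _).2 (hm ▸ pow_orderOf_eq_one _)
  have h2 : IsRed (gen P) (altWord y x (2 * m + 1)) := by rw [IsRed, ← e, h1, length_altWord, length_altWord]
  have := (cellIdx_wprod h2).symm.trans (e ▸ cellIdx_wprod h1)
  rw [← wprod, ← wprod, alt_odd, alt_odd, mul_comm (cellIdx P (gen P y))] at this
  have _ := Fintype.ofFinite G
  exact mul_left_cancel₀ (pow_pos (mul_pos (cellIdx_pos _) (cellIdx_pos _)) _).ne' this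

theorem exists_rat {u v r ζ : ℂ} (hu : u = cellIdx P (gen P x)) (hv : v = cellIdx P (gen P y)) (hr : r ^ 2 = u * v)
    (hζ : ζ ^ orderOf (gen P x * gen P y) = 1) (h2 : ζ ^ 2 ≠ 1) (hodd : Odd (orderOf (gen P x * gen P y)) → r = u) :
    ∃ κ : ℚ, κ * (u * v * (4 - (ζ + ζ⁻¹) ^ 2)) =
      v * (u - 1) ^ 2 + u * (v - 1) ^ 2 + (u - 1) * (v - 1) * (r * (ζ + ζ⁻¹)) := by
  classical
  have := Fintype.ofFinite G
  have := Fintype.ofFinite (Weyl P)
  have hn := orderOf_pos (gen P x * gen P y)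
  have u0 : u ≠ 0 := hu ▸ Nat.cast_ne_zero.2 (cellIdx_pos _).ne'
  have v0 : v ≠ 0 := hv ▸ Nat.cast_ne_zero.2 (cellIdx_pos _).ne'
  have r0 : r ≠ 0 := fun e => mul_ne_zero u0 v0 (by rw [← hr, e, zero_pow two_ne_zero])
  have ζ0 : ζ ≠ 0 := fun e => by simp [e, hn.ne'] at hζ
  obtain ⟨ξ, hξ, e1⟩ : ∃ ξ, ζ⁻¹ = ξ ∧ ζ * ξ = 1 := ⟨_, rfl, mul_inv_cancel₀ ζ0⟩
  have ne : ζ - ξ ≠ 0 := fun e => h2 (by linear_combination e1 + ζ * e)
  obtain ⟨a, d, ha, hd⟩ : ∃ a d : ℂ, a * (ζ - ξ) * r = (u - 1) * ζ * r + u * (v - 1) ∧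
      d * (ζ - ξ) * r = -((u - 1) * ξ * r + u * (v - 1)) :=
    ⟨((u - 1) * ζ * r + u * (v - 1)) / ((ζ - ξ) * r), -((u - 1) * ξ * r + u * (v - 1)) / ((ζ - ξ) * r),
      by field_simp, by field_simp⟩
  have e2 : a + d = u - 1 := mul_right_cancel₀ (mul_ne_zero ne r0) (by linear_combination ha + hd)
  have e3 : -r * (d * ζ + a * ξ) = u * (v - 1) := mul_right_cancel₀ ne (by linear_combination -ζ * hd - ξ * ha)
  obtain ⟨c, hc⟩ : ∃ c : ℂ, c * u = -r := ⟨-r / u, by field_simp⟩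
  obtain ⟨S, hS⟩ : ∃ S : Matrix (Fin 2) (Fin 2) ℂ, S = !![a, 1; a * d + u, d] := ⟨_, rfl⟩
  obtain ⟨T, hT⟩ : ∃ T : Matrix (Fin 2) (Fin 2) ℂ, T = !![c * d * ζ, -c * ξ; -c * (a * d + u) * ζ, c * a * ξ] := ⟨_, rfl⟩
  have e4 : c * (d * ζ + a * ξ) = v - 1 := mul_right_cancel₀ u0 (by linear_combination e3 + (d * ζ + a * ξ) * hc)
  have e5 : c ^ 2 * u = v := mul_right_cancel₀ u0 (by linear_combination hr + (c * u - r) * hc)
  have hST : S * T = !![r * ζ, 0; 0, r * ξ] := by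
    rw [hS, hT, mul_fin_two]
    exact fin2_ext (by linear_combination -ζ * hc) (by ring) (by ring) (by linear_combination -ξ * hc)
  have hU : IsUnit S := (isUnit_iff_isUnit_det _).2 (by simpa [hS] using u0)
  let f : P.S → Matrix (Fin 2) (Fin 2) ℂ := fun i => if i = x then S else T
  have fx : f x = S := if_pos rfl
  have fy : f y = T := if_neg hxy.symm
  have br : wprod f (altWord x y (orderOf (gen P x * gen P y))) = wprod f (altWord y x (orderOf (gen P x * gen P y))) := by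
    obtain ⟨m, hm | hm⟩ := (orderOf (gen P x * gen P y)).even_or_odd' <;> rw [hm] at hζ ⊢ <;> refine hU.mul_left_cancel ?_
    · have : ζ ^ m = ξ ^ m := by
        rw [← mul_one (ζ ^ m), ← one_pow m, ← e1, mul_pow, ← mul_assoc, ← pow_add, ← two_mul, hζ, one_mul]
      rw [alt_even, alt_even, fx, fy, ← mul_pow_mul, hST, diag_pow, mul_pow, mul_pow, this, hS, mul_fin_two, mul_fin_two]
      exact congrArg _ (fin2_ext (by ring) (by ring) (by ring) (by ring))
    · obtain rfl := hodd ⟨m, hm⟩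
      obtain rfl : r = v := by rw [hu, hv, cellIdx_eq hxy hall ⟨m, hm⟩]
      have k1 : a + ζ * d = 0 := mul_right_cancel₀ (mul_ne_zero ne r0) (by
        linear_combination ha + ζ * hd - (r - 1) * r * e1)
      have k2 : ζ ^ m * ξ ^ m = 1 := by rw [← mul_pow, e1, one_pow]
      have k3 : ζ * ζ ^ m = ξ ^ m := by linear_combination ξ ^ m * hζ - ζ * ζ ^ m * k2
      have k4 : ξ * ξ ^ m = ζ ^ m := by linear_combination -ξ * k3 + ζ ^ m * e1
      have k5 : a * ζ ^ m + d * ξ ^ m = 0 := by linear_combination ζ ^ m * k1 - d * k3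
      rw [alt_odd, alt_odd, fx, fy, ← mul_assoc S ((T * S) ^ m), ← mul_pow_mul, mul_assoc _ S T, hST, diag_pow, hS,
        mul_fin_two, mul_fin_two, mul_fin_two, mul_pow, mul_pow]
      exact fin2_ext (by linear_combination a * r ^ m * k5 - r ^ m * r * k3) (by linear_combination r ^ m * k5)
        (by linear_combination (a * d + r) * r ^ m * k5) (by linear_combination d * r ^ m * k5 - r ^ m * r * k4)
  choose red hred hprod using (invGen P).exists_isRed
  have hR : ∀ l, IsRed (gen P) l → wprod f (red (wprod (gen P) l)) = wprod f l := fun l hl =>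
    (exchange P).matsumoto (invGen P) f (fun i j _ => by
      rcases hall i with rfl | rfl <;> rcases hall j with rfl | rfl
      exacts [rfl, br, by rw [← orderOf_inv, mul_inv_rev, (invGen P).inv, (invGen P).inv, br], rfl]) (hred _) hl (hprod _)
  have hg : ∀ i, wprod f (red (gen P i)) = f i := fun i => by
    simpa using hR [i] (by simpa [IsRed] using (exchange P).wlen_gen (invGen P) i)
  obtain ⟨κ, hκ⟩ := schur_rat (fun w => wprod f (red w)) (hR [] (isRed_nil _))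
    (fun i w hw => by
      have := hR _ (isRed_cons (hred w) (i := i) (by rwa [hprod]))
      rw [wprod_cons, hprod, wprod_cons] at this
      rw [this, hg])
    (fun i => by
      rcases hall i with rfl | rfl
      · rw [hg, fx, ← hu, ← e2, hS]
        ext i j; fin_cases i <;> fin_cases j <;> simp <;> ring
      · rw [hg, fy, ← hv, ← e4, hT]
        ext i j; fin_cases i <;> fin_cases j <;> simp <;>
          first | ring1 | linear_combination e5 + c ^ 2 * u * e1)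
    fun M hM => by
      have k1 := hM x
      have k2 := hM y
      rw [hg, fx] at k1
      rw [hg, fy] at k2
      have k3 : M * (S * T) = S * T * M := by rw [← mul_assoc, k1, mul_assoc, k2, mul_assoc]
      rw [hST] at k3
      have m1 : M 0 1 = 0 := mul_right_cancel₀ (mul_ne_zero r0 ne) (by
        have := congrFun (congrFun k3 0) 1
        simp only [mul_apply, Fin.sum_univ_two, of_apply, cons_val', cons_val_zero, cons_val_one, cons_val_fin_one] at this
        linear_combination -this)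
      have m2 : M 1 0 = 0 := mul_right_cancel₀ (mul_ne_zero r0 ne) (by
        have := congrFun (congrFun k3 1) 0
        simp only [mul_apply, Fin.sum_univ_two, of_apply, cons_val', cons_val_zero, cons_val_one, cons_val_fin_one] at this
        linear_combination this)
      have m3 : M 1 1 = M 0 0 := by simpa [hS, mul_apply, m1] using (congrFun (congrFun k1 0) 1).symm
      exact ⟨M 0 0, by ext i j; fin_cases i <;> fin_cases j <;> simp [m1, m2, m3]⟩
  have ev : ∀ i j k, IsRed (gen P) (altWord i j (2 * k)) → (wprod f (red ((gen P i * gen P j) ^ k))).trace *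
      (wprod f (red ((gen P i * gen P j) ^ k)⁻¹)).trace / cellIdx P ((gen P i * gen P j) ^ k) =
      ((f i * f j) ^ k).trace ^ 2 / ((cellIdx P (gen P i) : ℂ) * cellIdx P (gen P j)) ^ k := fun i j k hk => by
    have e : ((gen P i * gen P j) ^ k)⁻¹ = wprod (gen P) (altWord j i (2 * k)) := by
      rw [alt_even, swap_pow (invGen P) i j, zpow_neg, zpow_natCast]
    rw [e, hR _ (by rw [IsRed, ← e, (invGen P).wlen_inv, ← alt_even, hk, length_altWord, length_altWord]), ← alt_even,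
      hR _ hk, cellIdx_wprod hk, ← wprod, alt_even, alt_even, alt_even, trace_pow_comm (f i), pow_two]
    push_cast; rfl
  have od : ∀ i j k, IsRed (gen P) (altWord i j (2 * k + 1)) → (wprod f (red ((gen P i * gen P j) ^ k * gen P i))).trace *
      (wprod f (red ((gen P i * gen P j) ^ k * gen P i)⁻¹)).trace / cellIdx P ((gen P i * gen P j) ^ k * gen P i) =
      ((f i * f j) ^ k * f i).trace ^ 2 / (((cellIdx P (gen P i) : ℂ) * cellIdx P (gen P j)) ^ k * cellIdx P (gen P i)) :=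
    fun i j k hk => by
      have e : ((gen P i * gen P j) ^ k * gen P i)⁻¹ = (gen P i * gen P j) ^ k * gen P i := by
        rw [mul_inv_rev, ← inv_pow, mul_inv_rev, (invGen P).inv, (invGen P).inv, mul_pow_mul]
      rw [e, ← alt_odd, hR _ hk, cellIdx_wprod hk, ← wprod, alt_odd, alt_odd, pow_two]
      push_cast; rfl
  have pw : ∀ k : ℕ, (u * v) ^ k = (r ^ k) ^ 2 := fun k => by rw [← hr, ← pow_mul, ← pow_mul, mul_comm]
  rw [sum_dihedral (invGen P) (exchange P) (a := x) (b := y) (φ := fun j => (ζ ^ j + ζ ^ (-j)) ^ 2)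
    (ψ := fun j => (a * ζ ^ j + d * ζ ^ (-j)) ^ 2 / u) (fun w => by
      obtain ⟨i, j, m, h1, h2, rfl⟩ := exists_alt (invGen P) hxy hall w
      obtain ⟨k, rfl | rfl⟩ := m.even_or_odd' <;> rcases h1 with ⟨rfl, rfl⟩ | ⟨rfl, rfl⟩
      · refine ⟨k, .inl ⟨by simp [alt_even], ?_⟩⟩
        rw [alt_even, ev _ _ _ h2, fx, fy, ← hu, ← hv, hST, diag_pow, pw, zpow_neg, zpow_natCast, ← inv_pow, hξ]
        simp only [trace_fin_two_of, mul_pow]; field_simp
      · refine ⟨_, .inl ⟨by rw [alt_even, swap_pow (invGen P)], ?_⟩⟩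
        rw [alt_even, ev _ _ _ h2, fx, fy, ← hu, ← hv, trace_pow_comm, hST, diag_pow, mul_comm v, pw, neg_neg, zpow_neg,
          zpow_natCast, ← inv_pow, hξ]
        simp only [trace_fin_two_of, mul_pow]; field_simp; ring
      · refine ⟨k, .inr ⟨by simp [alt_odd], ?_⟩⟩
        rw [alt_odd, od _ _ _ h2, fx, fy, ← hu, ← hv, hST, diag_pow, pw, zpow_neg, zpow_natCast, ← inv_pow, hξ, hS]
        simp only [mul_fin_two, trace_fin_two_of, mul_pow]; field_simp; ring
      · refine ⟨_, .inr ⟨by rw [alt_odd, swap_pow' (invGen P)], ?_⟩⟩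
        rw [alt_odd, od _ _ _ h2, fx, fy, ← hu, ← hv, mul_pow_mul, hST, diag_pow, mul_comm v, pw, neg_neg, zpow_neg,
          zpow_natCast, ← inv_pow, hξ, hT, ← e5]
        have c0 : c ≠ 0 := fun e => v0 (by rw [← e5, e]; ring)
        simp only [mul_fin_two, trace_fin_two_of, mul_pow]; field_simp; ring)
    fun j k hjk => by
      have e : ∀ j k : ℤ, j ≡ k [ZMOD orderOf (gen P x * gen P y)] → ζ ^ j = ζ ^ k := fun j k h => by
        obtain ⟨t, ht⟩ := h.dvd
        rw [eq_add_of_sub_eq ht, zpow_add₀ ζ0, zpow_mul, zpow_natCast, hζ, one_zpow, one_mul]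
      simp only [e _ _ hjk, e _ _ hjk.neg, and_self]] at hκ
  have g1 : ∑ k ∈ Finset.range (orderOf (gen P x * gen P y)), (ζ ^ 2) ^ k = 0 := by
    rw [geom_sum_eq h2, ← pow_mul, mul_comm, pow_mul, hζ, one_pow, sub_self, zero_div]
  have g2 : ∑ k ∈ Finset.range (orderOf (gen P x * gen P y)), (ξ ^ 2) ^ k = 0 := by
    rw [← hξ, geom_sum_eq (by simpa using h2), ← pow_mul, mul_comm, pow_mul, inv_pow, inv_pow, hζ]; simp
  rw [Finset.sum_congr rfl (g := fun k => (1 + a ^ 2 / u) * (ζ ^ 2) ^ k + (1 + d ^ 2 / u) * (ξ ^ 2) ^ k + (2 + 2 * a * d / u))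
    fun k _ => by
      have k2 : ζ ^ k * ξ ^ k = 1 := by rw [← mul_pow, e1, one_pow]
      simp only [zpow_neg, zpow_natCast, ← inv_pow, hξ]
      linear_combination (2 + 2 * a * d / u) * k2] at hκ
  simp only [Finset.sum_add_distrib, ← Finset.mul_sum, g1, g2, Finset.sum_const, Finset.card_range, nsmul_eq_mul] at hκ
  have n0 : (orderOf (gen P x * gen P y) : ℂ) ≠ 0 := Nat.cast_ne_zero.2 hn.ne'
  refine ⟨κ / (2 * orderOf (gen P x * gen P y)) - 1, ?_⟩
  have : ((κ / (2 * orderOf (gen P x * gen P y)) - 1 : ℚ) : ℂ) * u = a * d := by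
    push_cast; rw [← hκ]; field_simp; ring
  rw [← mul_assoc, ← mul_assoc, this, hξ]
  refine mul_left_cancel₀ u0 ?_
  linear_combination (-(d * (ζ - ξ) * r)) * ha - ((u - 1) * ζ * r + u * (v - 1)) * hd +
    (a * d * (ζ - ξ) ^ 2 + (u - 1) ^ 2 * ζ * ξ) * hr + (u * v * (u - 1) ^ 2 - 4 * a * d * u * v) * e1

end Rep

theorem exp_add_inv (q : ℚ) : Complex.exp (q * π * Complex.I) + (Complex.exp (q * π * Complex.I))⁻¹ =
    (2 * cos (q * π) : ℝ) := by
  rw [← Complex.exp_neg, ← neg_mul, ← Complex.two_cos]; push_cast; rfl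

theorem niven_div {a n : ℕ} (ha : 0 < a) (hn : a ≤ n) {κ : ℚ} (h : Complex.exp ((a / n : ℚ) * π * Complex.I) +
    (Complex.exp ((a / n : ℚ) * π * Complex.I))⁻¹ = κ) : n = 3 * a ∨ n = 2 * a ∨ 2 * n = 3 * a ∨ n = a := by
  have n0 : (0 : ℚ) < n := Nat.cast_pos.2 (by omega)
  rw [exp_add_inv] at h
  have := niven_angle_div_pi_eq (r := a / n) ⟨κ / 2, by
    have : 2 * cos ((a / n : ℚ) * π) = κ := by exact_mod_cast h
    push_cast at this ⊢; linarith⟩ ⟨by positivity, (div_le_one n0).2 (Nat.cast_le.2 hn)⟩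
  simp only [Set.mem_insert_iff, Set.mem_singleton_iff, div_eq_iff n0.ne'] at this
  rcases this with e | e | e | e | e
  · exact absurd (by exact_mod_cast (e.trans (zero_mul _))) ha.ne'
  · exact .inl (by exact_mod_cast (by linarith : (n : ℚ) = 3 * a))
  · exact .inr (.inl (by exact_mod_cast (by linarith : (n : ℚ) = 2 * a)))
  · exact .inr (.inr (.inl (by exact_mod_cast (by linarith : (2 * n : ℚ) = 3 * a))))
  · exact .inr (.inr (.inr (by exact_mod_cast (by linarith : (n : ℚ) = a))))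

theorem arith {n U V : ℕ} (hn : 3 ≤ n) (hU : 2 ≤ U) (hV : 2 ≤ V) (hodd : Odd n → V = U)
    (h : ∀ r ζ : ℂ, r ^ 2 = U * V → ζ ^ n = 1 → ζ ^ 2 ≠ 1 → (Odd n → r = U) → ∃ κ : ℚ, κ * (U * V * (4 - (ζ + ζ⁻¹) ^ 2)) =
      V * (U - 1) ^ 2 + U * (V - 1) ^ 2 + (U - 1) * (V - 1) * (r * (ζ + ζ⁻¹))) : n = 3 ∨ n = 4 ∨ n = 6 ∨ n = 8 := by
  obtain ⟨ζ, hζ, hp⟩ : ∃ ζ, ζ = Complex.exp (((2 : ℕ) / n : ℚ) * π * Complex.I) ∧ IsPrimitiveRoot ζ n :=
    ⟨_, rfl, by convert Complex.isPrimitiveRoot_exp n (by omega) using 2; push_cast; ring⟩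
  have hζ2 : ζ ^ 2 = Complex.exp (((4 : ℕ) / n : ℚ) * π * Complex.I) := by
    rw [hζ, ← Complex.exp_nat_mul]; congr 1; push_cast; ring
  have ζ0 := hp.ne_zero (by omega)
  have U0 : (U : ℂ) ≠ 0 := Nat.cast_ne_zero.2 (by omega)
  have V0 : (V : ℂ) ≠ 0 := Nat.cast_ne_zero.2 (by omega)
  have U1 : (U : ℂ) - 1 ≠ 0 := sub_ne_zero.2 (Nat.cast_ne_one.2 (by omega))
  have V1 : (V : ℂ) - 1 ≠ 0 := sub_ne_zero.2 (Nat.cast_ne_one.2 (by omega))
  have h2 := hp.pow_ne_one_of_pos_of_lt two_ne_zero (by omega)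
  rcases n.even_or_odd with he | ho
  · obtain ⟨r, hr⟩ := IsAlgClosed.exists_pow_nat_eq (U * V : ℂ) two_pos
    have key : ∀ ζ : ℂ, ζ ^ n = 1 → ζ ^ 2 ≠ 1 → ∃ κ : ℚ, r * (ζ + ζ⁻¹) = κ := fun ζ h1 h2 => by
      obtain ⟨κ, e⟩ := h r ζ hr h1 h2 fun h => absurd he (Nat.not_even_iff_odd.2 h)
      obtain ⟨κ', e'⟩ := h (-r) ζ (by rw [neg_sq, hr]) h1 h2 fun h => absurd he (Nat.not_even_iff_odd.2 h)
      have D0 : (V * (U - 1) ^ 2 + U * (V - 1) ^ 2 : ℂ) ≠ 0 := by
        have : (2 : ℝ) ≤ U := by exact_mod_cast hU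
        have : 0 < V := by omega
        have : (0 : ℝ) < U - 1 := by linarith
        exact_mod_cast (by positivity : (0 : ℝ) < V * (U - 1) ^ 2 + U * (V - 1) ^ 2).ne'
      have k0 : (κ + κ' : ℂ) ≠ 0 := fun k => D0 (by
        linear_combination (-e - e' + (U * V * (4 - (ζ + ζ⁻¹) ^ 2)) * k) / 2)
      refine ⟨(κ - κ') * (V * (U - 1) ^ 2 + U * (V - 1) ^ 2) / ((κ + κ') * (U - 1) * (V - 1)), ?_⟩
      push_cast
      rw [eq_div_iff (mul_ne_zero (mul_ne_zero k0 U1) V1)]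
      linear_combination -κ' * e + κ * e'
    obtain ⟨κ, e⟩ := key ζ hp.pow_eq_one h2
    have e2 : ζ ^ 2 + (ζ ^ 2)⁻¹ = (κ ^ 2 / (U * V) - 2 : ℚ) := by
      push_cast; rw [← e, mul_pow, hr]; field_simp; ring
    have := niven_div (a := 4) (by omega) (by obtain ⟨m, rfl⟩ := he; omega) (hζ2 ▸ e2)
    suffices n ≠ 12 by omega
    rintro rfl
    obtain ⟨κ', e'⟩ := key (ζ ^ 2) (by rw [← pow_mul, mul_comm, pow_mul, hp.pow_eq_one, one_pow])
      (pow_mul ζ 2 2 ▸ hp.pow_ne_one_of_pos_of_lt (by omega) (by omega))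
    have e3 : ζ ^ 2 + (ζ ^ 2)⁻¹ = 1 := by
      rw [hζ2, exp_add_inv, show (((4 : ℕ) / (12 : ℕ) : ℚ) : ℝ) * π = π / 3 by push_cast; ring, cos_pi_div_three]; simp
    rw [e3, mul_one] at e'
    have e4 : (3 : ℚ) = κ / κ' * (κ / κ') := by
      rw [e3] at e2
      push_cast at e2
      rw [← hr, e'] at e2
      exact_mod_cast (by linear_combination e2 : (3 : ℂ) = κ / κ' * (κ / κ'))
    exact absurd (Rat.isSquare_ofNat_iff.1 ⟨_, e4⟩) Nat.prime_three.prime.not_isSquare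
  · obtain rfl := hodd ho
    obtain ⟨κ, e⟩ := h V ζ (sq _) hp.pow_eq_one h2 fun _ => rfl
    have k1 : 2 + (ζ + ζ⁻¹) ≠ 0 := fun k => h2 (by
      rw [eq_neg_of_add_eq_zero_left (pow_eq_zero_iff two_ne_zero |>.1 (by
        field_simp at k; linear_combination k) : ζ + 1 = 0)]; ring)
    have k2 : κ * V * (2 - (ζ + ζ⁻¹)) = (V - 1) ^ 2 := mul_left_cancel₀ (mul_ne_zero V0 k1) (by linear_combination e)
    have k0 : (κ : ℂ) ≠ 0 := fun k => V1 (pow_eq_zero_iff two_ne_zero |>.1 (by rw [← k2, k]; ring))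
    have := niven_div (a := 2) (κ := 2 - (V - 1) ^ 2 / (κ * V)) (by omega) (by omega : 2 ≤ n) (by
      rw [← hζ]; push_cast; rw [← k2]; field_simp; ring)
    omega

/-- The Feit–Higman theorem for (B,N)-pairs. -/
theorem card_weyl {G : Type*} [Group G] [Finite G] (P : BNPair G) (h2 : P.rank = 2) :
    Nat.card (Weyl P) ∈ ({4, 6, 8, 12, 16} : Set ℕ) := by
  obtain ⟨x, y, hxy, e⟩ := Nat.card_eq_two_iff.1 h2
  have hall : ∀ i, i = x ∨ i = y := fun i => by simpa using Set.eq_univ_iff_forall.1 e i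
  have _ := Fintype.ofFinite G
  have h0 := orderOf_pos (gen P x * gen P y)
  have h1 := (orderMatrix (gen_mul_self P) (gen_injective P)).off_diagonal x y hxy
  rw [orderMatrix_apply] at h1
  rw [card_eq (invGen P) (exchange P) hxy hall]
  by_cases hn : orderOf (gen P x * gen P y) = 2
  · simp [hn]
  rcases arith (by omega) (two_le_cellIdx x) (two_le_cellIdx y) (cellIdx_eq hxy hall)
    fun _ _ => exists_rat hxy hall rfl rfl with h | h | h | h <;> simp [h]

end CL.Chev.FH
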