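/-
Linear groups generated by transvections (McLaughlin), part 1: the transvections of `H` as pairs
(centre, axis), opposite pairs, connected components, conjugacy in a component.
-/
import Cfsg.Agent.Cls.SLnTv

set_option autoImplicit false

namespace CL.McL

open Module CL.SLn

variable {F V : Type*} [Field F] [AddCommGroup V] [Module F V] {H : Subgroup (V ≃ₗ[F] V)}

/-- The non-trivial transvections of `H`, as pairs (centre, axis). -/
def TP (H : Subgroup (V ≃ₗ[F] V)) : Set (V × Dual F V) := {x | x.1 ≠ 0 ∧ x.2 ≠ 0 ∧ Tv H x.1 x.2}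

/-- The transvections given by the pairs in `C`. -/
def gens (C : Set (V × Dual F V)) : Set (V ≃ₗ[F] V) := {g | ∃ x ∈ C, ∀ y, g y = y + x.2 y • x.1}

/-- `H` holds with every transvection the whole transvection group. -/
def Full (H : Subgroup (V ≃ₗ[F] V)) : Prop := ∀ (v : V) (φ : Dual F V) (c : F), Tv H v φ → Tv H (c • v) φ

theorem Full.right (h : Full H) {v : V} {φ : Dual F V} (c : F) (ht : Tv H v φ) : Tv H v (c • φ) :=
  (h v φ c ht).of_smul_left ht.1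

theorem Full.both (h : Full H) {v : V} {φ : Dual F V} (a b : F) (ht : Tv H v φ) : Tv H (a • v) (b • φ) :=
  h _ _ a (h.right b ht)

/-- The axes of the transvections with centre `v`. -/
def axesOf (h : Full H) (v : V) : Submodule F (Dual F V) where
  carrier := {φ | Tv H v φ}
  zero_mem' := Tv.zero_right
  add_mem' := Tv.add_right
  smul_mem' c _ ht := h.right c ht

/-- Some axis through the centre `v` does not contain `w`. -/
def Nd (H : Subgroup (V ≃ₗ[F] V)) (v w : V) : Prop := ∃ φ : Dual F V, Tv H v φ ∧ φ w ≠ 0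

theorem Full.of_comm (h : Full H) {v w : V} {φ ψ : Dual F V} (h1 : Tv H v φ) (h2 : Tv H w ψ) (h0 : ψ v = 0)
    (hne : φ w ≠ 0) : Tv H v ψ := by
  have := h _ _ (φ w)⁻¹ (h1.comm h2 h0)
  rwa [smul_smul, inv_mul_cancel₀ hne, one_smul] at this

theorem Full.tv_of_nd (h : Full H) {v w : V} {ψ : Dual F V} (hn : Nd H v w) (h2 : Tv H w ψ) (h0 : ψ v = 0) :
    Tv H v ψ :=
  let ⟨_, h1, hne⟩ := hn; h.of_comm h1 h2 h0 hne

theorem Full.nd_symm_of_conj [FiniteDimensional F V] (h : Full H) {g : V ≃ₗ[F] V} (hg : g ∈ H) {v : V}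
    (hn : Nd H v (g v)) : Nd H (g v) v := by
  by_contra hc
  have h1 : axesOf h (g v) ≤ axesOf h v := fun χ hχ =>
    h.tv_of_nd hn hχ (by by_contra h0; exact hc ⟨χ, hχ, h0⟩)
  have h2 : (axesOf h v).map g.symm.dualMap.toLinearMap ≤ axesOf h (g v) := by
    rintro _ ⟨χ, hχ, rfl⟩
    exact Tv.conj hg hχ
  have h3 := Submodule.finrank_mono h2
  rw [LinearEquiv.finrank_map_eq] at h3
  have h4 := Submodule.eq_of_le_of_finrank_le h1 h3
  obtain ⟨φ, hφ, hne⟩ := hn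
  have h5 : φ ∈ axesOf h (g v) := h4 ▸ hφ
  exact hne (show Tv H (g v) φ from h5).1

/-- If `H` has no non-trivial normal `p`-subgroup then every transvection has an opposite one. -/
theorem Full.exists_opp [FiniteDimensional F V] (h : Full H) {p : ℕ} [CharP F p]
    (hO : ∀ N : Subgroup H, N.Normal → IsPGroup p N → N = ⊥) {x : V × Dual F V} (hx : x ∈ TP H) :
    ∃ y ∈ TP H, x.2 y.1 ≠ 0 ∧ y.2 x.1 ≠ 0 := by
  obtain ⟨v, φ⟩ := x
  obtain ⟨hv, hφ, ht⟩ := hx
  by_contra hc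
  have h1 : ∀ g ∈ H, φ (g v) = 0 := by
    intro g hg
    by_contra h0
    obtain ⟨χ, hχ, hne⟩ := h.nd_symm_of_conj hg ⟨φ, ht, h0⟩
    refine hc ⟨(g v, χ), ⟨(map_ne_zero_iff _ g.injective).2 hv, ?_, hχ⟩, h0, hne⟩
    rintro rfl
    exact hne rfl
  let U := Submodule.span F {u | ∃ g ∈ H, u = g v}
  have hU : ∀ g ∈ H, ∀ u ∈ U, g u ∈ U := by
    intro g hg u hu
    refine (Submodule.span_le (p := U.comap g.toLinearMap)).2 ?_ hu
    rintro _ ⟨g', hg', rfl⟩
    exact Submodule.subset_span ⟨g * g', H.mul_mem hg hg', rfl⟩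
  let N : Subgroup H :=
    { carrier := {g | (∀ y, g.1 y - y ∈ U) ∧ ∀ u ∈ U, g.1 u = u}
      one_mem' := ⟨fun y => by simp, fun _ _ => rfl⟩
      mul_mem' := by
        rintro a b ⟨a1, a2⟩ ⟨b1, b2⟩
        refine ⟨fun y => ?_, fun u hu => ?_⟩
        · have : (a * b).1 y - y = (a.1 (b.1 y) - b.1 y) + (b.1 y - y) := by
            change a.1 (b.1 y) - y = _; abel
          rw [this]; exact U.add_mem (a1 _) (b1 _)
        · change a.1 (b.1 u) = u
          rw [b2 u hu, a2 u hu]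
      inv_mem' := by
        rintro a ⟨a1, a2⟩
        refine ⟨fun y => ?_, fun u hu => ?_⟩
        · have := U.neg_mem (a1 (a.1.symm y))
          rwa [LinearEquiv.apply_symm_apply, neg_sub] at this
        · exact a.1.symm_apply_eq.2 (a2 u hu).symm }
  have hN : N.Normal := by
    refine ⟨fun a ⟨a1, a2⟩ g => ⟨fun y => ?_, fun u hu => ?_⟩⟩
    · have := hU g.1 g.2 _ (a1 (g.1.symm y))
      rwa [map_sub, LinearEquiv.apply_symm_apply] at this
    · change g.1 (a.1 (g.1.symm u)) = u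
      rw [a2 (g.1.symm u) (hU _ (H.inv_mem g.2) u hu), LinearEquiv.apply_symm_apply]
  have hP : IsPGroup p N := by
    rintro ⟨a, a1, a2⟩
    refine ⟨1, Subtype.ext (Subtype.ext (LinearEquiv.ext fun y => ?_))⟩
    have key : ∀ k : ℕ, (a.1 ^ k) y = y + (k : F) • (a.1 y - y) := by
      intro k
      induction k with
      | zero => simp
      | succ k ih =>
        rw [pow_succ', LinearEquiv.mul_apply, ih, map_add, map_smul, a2 _ (a1 y)]
        push_cast
        module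
    change (a.1 ^ (p ^ 1)) y = y
    rw [pow_one, key, CharP.cast_eq_zero, zero_smul, add_zero]
  obtain ⟨-, t, htH, hty⟩ := ht
  have ht1 : (⟨t, htH⟩ : H) ∈ N := by
    refine ⟨fun y => ?_, fun u hu => ?_⟩
    · change t • y - y ∈ U
      rw [hty, add_sub_cancel_left]
      exact U.smul_mem _ (Submodule.subset_span ⟨1, H.one_mem, rfl⟩)
    · change t • u = u
      have : φ u = 0 := (Submodule.span_le (p := LinearMap.ker φ)).2 (by
        rintro _ ⟨g, hg, rfl⟩; exact h1 g hg) hu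
      rw [hty, this, zero_smul, add_zero]
  rw [hO N hN hP, Subgroup.mem_bot] at ht1
  apply hφ
  ext y
  have h2 := hty y
  rw [show t = 1 from congrArg Subtype.val ht1, one_smul, left_eq_add] at h2
  exact (smul_eq_zero.1 h2).resolve_right hv

/-- The standing hypotheses. -/
structure Setup (H : Subgroup (V ≃ₗ[F] V)) : Prop where
  full : Full H
  gen : H ≤ Subgroup.closure (gens (TP H))
  opp : ∀ x ∈ TP H, ∃ y ∈ TP H, x.2 y.1 ≠ 0 ∧ y.2 x.1 ≠ 0

/-- The action on pairs. -/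
def act (g : V ≃ₗ[F] V) (x : V × Dual F V) : V × Dual F V := (g x.1, dact g x.2)

theorem act_mul (g g' : V ≃ₗ[F] V) (x : V × Dual F V) : act (g * g') x = act g (act g' x) :=
  Prod.ext rfl (LinearMap.ext fun y => by simp [act, mul_smul])

theorem act_one (x : V × Dual F V) : act 1 x = x := Prod.ext rfl (LinearMap.ext fun y => by simp [act])

theorem act_mem_TP {g : V ≃ₗ[F] V} (hg : g ∈ H) {x : V × Dual F V} (hx : x ∈ TP H) : act g x ∈ TP H :=
  ⟨(map_ne_zero_iff _ g.injective).2 hx.1, dact_ne_zero g hx.2.1, hx.2.2.conj hg⟩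

theorem act_of_tv {g : V ≃ₗ[F] V} {u : V} {χ : Dual F V} (h0 : χ u = 0) (hg : ∀ y, g y = y + χ y • u)
    (x : V × Dual F V) : act g x = (x.1 + χ x.1 • u, x.2 - x.2 u • χ) := by
  refine Prod.ext (hg _) (LinearMap.ext fun y => ?_)
  change x.2 (g⁻¹ • y) = _
  rw [inv_smul_of_tv h0 hg]
  simp [mul_comm]

theorem conj_mem_TP {u : V} {χ : Dual F V} (ht : Tv H u χ) {x : V × Dual F V} (hx : x ∈ TP H) :
    (x.1 + χ x.1 • u, x.2 - x.2 u • χ) ∈ TP H := by
  obtain ⟨h0, g, hg, hy⟩ := ht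
  rw [← act_of_tv h0 hy]
  exact act_mem_TP hg hx

theorem Full.smul_mem_TP (h : Full H) {x : V × Dual F V} (hx : x ∈ TP H) {a b : F} (ha : a ≠ 0) (hb : b ≠ 0) :
    (a • x.1, b • x.2) ∈ TP H :=
  ⟨smul_ne_zero ha hx.1, smul_ne_zero hb hx.2.1, h.both a b hx.2.2⟩

/-- Conjugacy of transvection groups. -/
def Cj (H : Subgroup (V ≃ₗ[F] V)) (x y : V × Dual F V) : Prop :=
  ∃ g ∈ H, ∃ a b : F, a ≠ 0 ∧ b ≠ 0 ∧ y.1 = a • g x.1 ∧ y.2 = b • dact g x.2

theorem Cj.refl (x : V × Dual F V) : Cj H x x :=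
  ⟨1, H.one_mem, 1, 1, one_ne_zero, one_ne_zero, by simp, LinearMap.ext fun y => by simp⟩

theorem Cj.symm {x y : V × Dual F V} (h : Cj H x y) : Cj H y x := by
  obtain ⟨g, hg, a, b, ha, hb, h1, h2⟩ := h
  refine ⟨g⁻¹, H.inv_mem hg, a⁻¹, b⁻¹, inv_ne_zero ha, inv_ne_zero hb, ?_, LinearMap.ext fun z => ?_⟩
  · rw [h1, map_smul, smul_smul, inv_mul_cancel₀ ha, one_smul]
    exact (g.symm_apply_apply _).symm
  · simp [h2, hb]

theorem Cj.trans {x y z : V × Dual F V} (h : Cj H x y) (h' : Cj H y z) : Cj H x z := by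
  obtain ⟨g, hg, a, b, ha, hb, h1, h2⟩ := h
  obtain ⟨g', hg', a', b', ha', hb', h1', h2'⟩ := h'
  refine ⟨g' * g, H.mul_mem hg' hg, a' * a, b' * b, mul_ne_zero ha' ha, mul_ne_zero hb' hb, ?_,
    LinearMap.ext fun z => ?_⟩
  · rw [h1', h1, map_smul, smul_smul]; rfl
  · simp [h2', h2, mul_smul]

theorem cj_tv {u : V} {χ : Dual F V} (ht : Tv H u χ) (x : V × Dual F V) :
    Cj H x (x.1 + χ x.1 • u, x.2 - x.2 u • χ) := by
  obtain ⟨h0, g, hg, hy⟩ := ht
  rw [← act_of_tv h0 hy]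
  exact ⟨g, hg, 1, 1, one_ne_zero, one_ne_zero, (one_smul _ _).symm, (one_smul _ _).symm⟩

theorem cj_smul (x : V × Dual F V) {a b : F} (ha : a ≠ 0) (hb : b ≠ 0) : Cj H x (a • x.1, b • x.2) :=
  ⟨1, H.one_mem, a, b, ha, hb, rfl, LinearMap.ext fun y => by simp⟩

theorem Full.cj_of_opp (h : Full H) {x y : V × Dual F V} (hx : Tv H x.1 x.2) (hy : Tv H y.1 y.2)
    (h1 : x.2 y.1 ≠ 0) (h2 : y.2 x.1 ≠ 0) : Cj H x y := by
  have e1 := cj_tv hy x
  have e2 := (cj_tv (h _ _ (x.2 y.1 * y.2 x.1)⁻¹ hx) y).trans (cj_smul _ h2 (neg_ne_zero.2 h1))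
  refine e1.trans (Cj.symm ?_)
  convert e2 using 2
  · match_scalars <;> field_simp
  · simp only [map_smul, smul_eq_mul]
    match_scalars <;> field_simp

theorem Setup.cj_of_ne (S : Setup H) {x y : V × Dual F V} (hx : x ∈ TP H) (hy : y ∈ TP H)
    (h1 : x.2 y.1 ≠ 0) : Cj H x y := by
  by_cases h2 : y.2 x.1 = 0
  swap
  · exact S.full.cj_of_opp hx.2.2 hy.2.2 h1 h2
  obtain ⟨s, hs, h3, h4⟩ := S.opp (x.1, y.2) ⟨hx.1, hy.2.1, S.full.of_comm hx.2.2 hy.2.2 h2 h1⟩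
  dsimp only at h3 h4
  have k1 : Cj H x s := by
    by_cases h5 : x.2 s.1 = 0
    · refine (cj_tv hy.2.2 x).trans (S.full.cj_of_opp (conj_mem_TP hy.2.2 hx).2.2 hs.2.2 ?_ ?_)
      · simp [h5, h1, h3]
      · simp [h2, h4]
    · exact S.full.cj_of_opp hx.2.2 hs.2.2 h5 h4
  have k2 : Cj H y s := by
    by_cases h5 : s.2 y.1 = 0
    · refine (cj_tv hx.2.2 y).trans (S.full.cj_of_opp (conj_mem_TP hx.2.2 hy).2.2 hs.2.2 ?_ ?_)
      · simp [h2, h3]
      · simp [h5, h1, h4]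
    · exact S.full.cj_of_opp hy.2.2 hs.2.2 h3 h5
  exact k1.trans k2.symm

/-- Adjacency of two transvection groups. -/
def Adj (H : Subgroup (V ≃ₗ[F] V)) (x y : V × Dual F V) : Prop :=
  x ∈ TP H ∧ y ∈ TP H ∧ (x.2 y.1 ≠ 0 ∨ y.2 x.1 ≠ 0)

theorem Adj.symm {x y : V × Dual F V} (h : Adj H x y) : Adj H y x := ⟨h.2.1, h.1, h.2.2.symm⟩

theorem conn_symm {x y : V × Dual F V} (h : Relation.ReflTransGen (Adj H) x y) :
    Relation.ReflTransGen (Adj H) y x := by
  induction h with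
  | refl => exact .refl
  | tail _ h ih => exact .head h.symm ih

/-- A connected component of the graph of transvection groups, or the empty set. -/
structure IsComp (H : Subgroup (V ≃ₗ[F] V)) (C : Set (V × Dual F V)) : Prop where
  sub : C ⊆ TP H
  closed : ∀ x ∈ C, ∀ y, Adj H x y → y ∈ C
  conn : ∀ x ∈ C, ∀ y ∈ C, Relation.ReflTransGen (Adj H) x y

theorem isComp_empty : IsComp H ∅ := ⟨Set.empty_subset _, fun _ h => h.elim, fun _ h => h.elim⟩

theorem exists_isComp {x : V × Dual F V} (hx : x ∈ TP H) : ∃ C, IsComp H C ∧ x ∈ C := by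
  refine ⟨{y | Relation.ReflTransGen (Adj H) x y}, ⟨fun y hy => ?_, fun y hy z h => hy.tail h,
    fun y hy z hz => (conn_symm hy).trans hz⟩, .refl⟩
  induction hy with
  | refl => exact hx
  | tail _ h _ => exact h.2.1

namespace IsComp

variable {C C' : Set (V × Dual F V)} {x y : V × Dual F V}

theorem mem_of_conn (hC : IsComp H C) (hx : x ∈ C) (h : Relation.ReflTransGen (Adj H) x y) : y ∈ C := by
  induction h with
  | refl => exact hx
  | tail _ h ih => exact hC.closed _ ih _ h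

theorem eq_of_mem (hC : IsComp H C) (hC' : IsComp H C') (hx : x ∈ C) (hx' : x ∈ C') : C = C' :=
  Set.Subset.antisymm (fun y hy => hC'.mem_of_conn hx' (hC.conn x hx y hy))
    (fun y hy => hC.mem_of_conn hx (hC'.conn x hx' y hy))

theorem mem_left (hC : IsComp H C) (hx : x ∈ C) (hy : y ∈ TP H) (h : x.2 y.1 ≠ 0) : y ∈ C :=
  hC.closed x hx y ⟨hC.sub hx, hy, Or.inl h⟩

theorem mem_right (hC : IsComp H C) (hx : x ∈ C) (hy : y ∈ TP H) (h : y.2 x.1 ≠ 0) : y ∈ C :=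
  hC.closed x hx y ⟨hC.sub hx, hy, Or.inr h⟩

theorem perp (hC : IsComp H C) (hC' : IsComp H C') (hne : C ≠ C') (hx : x ∈ C) (hy : y ∈ C') : x.2 y.1 = 0 := by
  by_contra h
  exact hne (hC.eq_of_mem hC' (hC.mem_left hx (hC'.sub hy) h) hy)

theorem exists_opp (hC : IsComp H C) (S : Setup H) (hx : x ∈ C) : ∃ y ∈ C, x.2 y.1 ≠ 0 ∧ y.2 x.1 ≠ 0 :=
  let ⟨y, hy, h1, h2⟩ := S.opp x (hC.sub hx); ⟨y, hC.mem_left hx hy h1, h1, h2⟩

theorem mem_of_fst (hC : IsComp H C) (S : Setup H) (hx : x ∈ C) (hy : y ∈ TP H) {a : F} (h : x.1 = a • y.1) :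
    y ∈ C := by
  obtain ⟨s, hs, -, h2⟩ := hC.exists_opp S hx
  refine hC.mem_left hs hy fun h0 => h2 ?_
  rw [h, map_smul, h0, smul_zero]

theorem mem_of_snd (hC : IsComp H C) (S : Setup H) (hx : x ∈ C) (hy : y ∈ TP H) {a : F} (h : x.2 = a • y.2) :
    y ∈ C := by
  obtain ⟨s, hs, h1, -⟩ := hC.exists_opp S hx
  refine hC.mem_right hs hy fun h0 => h1 ?_
  rw [h, LinearMap.smul_apply, h0, smul_zero]

theorem smul_mem (hC : IsComp H C) (S : Setup H) (hx : x ∈ C) {a b : F} (ha : a ≠ 0) (hb : b ≠ 0) :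
    (a • x.1, b • x.2) ∈ C :=
  hC.mem_of_fst S hx (S.full.smul_mem_TP (hC.sub hx) ha hb) (a := a⁻¹) (by simp [ha])

theorem conj_mem (hC : IsComp H C) (S : Setup H) {u : V} {χ : Dual F V} (ht : Tv H u χ) (hx : x ∈ C) :
    (x.1 + χ x.1 • u, x.2 - x.2 u • χ) ∈ C := by
  have h1 := conj_mem_TP ht (hC.sub hx)
  by_cases h2 : χ x.1 • u = 0
  · exact hC.mem_of_fst S hx h1 (a := 1) (by simp [h2])
  · have h3 := smul_ne_zero_iff.1 h2
    have h4 : (u, χ) ∈ C := hC.mem_right hx ⟨h3.2, fun h => h3.1 (by rw [show χ = 0 from h]; rfl), ht⟩ h3.1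
    exact hC.mem_left h4 h1 (by simpa [ht.1] using h3.1)

theorem act_mem (hC : IsComp H C) (S : Setup H) {g : V ≃ₗ[F] V} (hg : g ∈ H) : ∀ x ∈ C, act g x ∈ C := by
  have h1 := S.gen hg
  clear hg
  induction h1 using Subgroup.closure_induction'' with
  | mem g hg =>
    obtain ⟨u, hu, hg⟩ := hg
    intro x hx
    rw [act_of_tv hu.2.2.1 hg]
    exact hC.conj_mem S hu.2.2 hx
  | inv_mem g hg =>
    obtain ⟨u, hu, hg⟩ := hg
    intro x hx
    rw [act_of_tv (u := -u.1) (χ := u.2) (by simp [hu.2.2.1]) (fun y => by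
      have := inv_smul_of_tv (g := g) hu.2.2.1 hg y
      rw [smul_neg, ← sub_eq_add_neg]; exact this)]
    exact hC.conj_mem S hu.2.2.neg_left hx
  | one => intro x hx; rwa [act_one]
  | mul g g' _ _ hg hg' => intro x hx; rw [act_mul]; exact hg _ (hg' _ hx)

theorem cj (hC : IsComp H C) (S : Setup H) (hx : x ∈ C) (hy : y ∈ C) : Cj H x y := by
  have h := hC.conn x hx y hy
  clear hy
  induction h with
  | refl => exact Cj.refl x
  | tail _ h ih =>
    rcases h.2.2 with h1 | h1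
    · exact ih.trans (S.cj_of_ne h.1 h.2.1 h1)
    · exact ih.trans (S.cj_of_ne h.2.1 h.1 h1).symm

theorem nd_symm [FiniteDimensional F V] (hC : IsComp H C) (S : Setup H) (hx : x ∈ C) (hy : y ∈ C)
    (h : Nd H x.1 y.1) : Nd H y.1 x.1 := by
  obtain ⟨g, hg, a, -, ha, -, h1, -⟩ := hC.cj S hx hy
  obtain ⟨φ, hφ, hne⟩ := h
  rw [h1] at hne ⊢
  obtain ⟨χ, hχ, hne'⟩ := S.full.nd_symm_of_conj hg ⟨φ, hφ, fun h0 => hne (by rw [map_smul, h0, smul_zero])⟩
  exact ⟨χ, S.full _ _ a hχ, hne'⟩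

/-- The line through two centres `x.1`, `y.1` with `Nd H y.1 x.1` consists of centres. -/
theorem exists_add_smul (hC : IsComp H C) (S : Setup H) (hx : x ∈ C) {w : V} (h : Nd H w x.1) (a : F) :
    ∃ φ, (x.1 + a • w, φ) ∈ C := by
  obtain ⟨ψ, hψ, hne⟩ := h
  have := hC.conj_mem S (S.full _ _ (a / ψ x.1) hψ) hx
  rw [smul_smul, mul_div_cancel₀ _ hne] at this
  exact ⟨_, this⟩

/-- The graph on the centres has diameter at most two. -/
theorem nd_or_exists [FiniteDimensional F V] (hC : IsComp H C) (S : Setup H) (hx : x ∈ C) (hy : y ∈ C) :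
    Nd H x.1 y.1 ∨ ∃ z ∈ C, Nd H x.1 z.1 ∧ Nd H y.1 z.1 := by
  have h := hC.conn x hx y hy
  clear hy
  induction h with
  | refl =>
    obtain ⟨s, hs, h1, -⟩ := hC.exists_opp S hx
    exact Or.inr ⟨s, hs, ⟨_, (hC.sub hx).2.2, h1⟩, ⟨_, (hC.sub hx).2.2, h1⟩⟩
  | @tail w w' h1 h2 ih =>
    have hw := hC.mem_of_conn hx h1
    have hw' := hC.closed w hw w' h2
    have h3 : Nd H w'.1 w.1 := by
      rcases h2.2.2 with h3 | h3
      · exact hC.nd_symm S hw hw' ⟨_, h2.1.2.2, h3⟩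
      · exact ⟨_, h2.2.1.2.2, h3⟩
    by_cases h4 : Nd H x.1 w.1
    · exact Or.inr ⟨w, hw, h4, h3⟩
    obtain ⟨z, hz, h5, h6⟩ := ih.resolve_left h4
    by_cases h7 : Nd H w'.1 z.1
    · exact Or.inr ⟨z, hz, h5, h7⟩
    obtain ⟨φ, hφ⟩ := hC.exists_add_smul S hz h6 1
    refine Or.inr ⟨_, hφ, ?_, ?_⟩
    · obtain ⟨χ, hχ, hne⟩ := h5
      have : χ w.1 = 0 := by by_contra h0; exact h4 ⟨χ, hχ, h0⟩
      exact ⟨χ, hχ, by simpa [this] using hne⟩
    · obtain ⟨χ, hχ, hne⟩ := h3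
      have : χ z.1 = 0 := by by_contra h0; exact h7 ⟨χ, hχ, h0⟩
      exact ⟨χ, hχ, by simpa [this] using hne⟩

end IsComp

end CL.McL
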