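/-
Linear groups generated by transvections (McLaughlin), part 2: a connected component consists of all
transvections with centre in `cen C` and axis in `ax C`, or of the transvections of an alternating form.
-/
import Cfsg.Agent.Chev.McL1

set_option autoImplicit false

namespace CL.McL

open Module CL.SLn

variable {F V : Type*} [Field F] [AddCommGroup V] [Module F V] {H : Subgroup (V ≃ₗ[F] V)}

/-- The span of the centres. -/
def cen (C : Set (V × Dual F V)) : Submodule F V := Submodule.span F (Prod.fst '' C)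

/-- The span of the axes. -/
def ax (C : Set (V × Dual F V)) : Submodule F (Dual F V) := Submodule.span F (Prod.snd '' C)

variable {C : Set (V × Dual F V)} {x y : V × Dual F V}

theorem fst_mem_cen (hx : x ∈ C) : x.1 ∈ cen C := Submodule.subset_span ⟨x, hx, rfl⟩

theorem snd_mem_ax (hx : x ∈ C) : x.2 ∈ ax C := Submodule.subset_span ⟨x, hx, rfl⟩

/-- The component holds a pair of transvection groups in the commutator case. -/
def IsLin (C : Set (V × Dual F V)) : Prop := ∃ x ∈ C, ∃ y ∈ C, x.2 y.1 ≠ 0 ∧ y.2 x.1 = 0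

namespace IsComp

section Linear

variable (hC : IsComp H C) (S : Setup H) (hL : IsLin C)
include hC S hL

theorem two_left (hx : x ∈ C) (z : V) : ∃ β : Dual F V, β ≠ 0 ∧ Tv H x.1 β ∧ β z = 0 := by
  obtain ⟨u, hu, w, hw, h1, h2⟩ := hL
  have h3 := S.full.of_comm (hC.sub hu).2.2 (hC.sub hw).2.2 h2 h1
  obtain ⟨g, hg, a, -, -, -, e, -⟩ := hC.cj S hu hx
  obtain ⟨β, h4, h5, h6⟩ : ∃ β : Dual F V, β ≠ 0 ∧ Tv H u.1 β ∧ β (g⁻¹ • z) = 0 := by
    by_cases h0 : w.2 (g⁻¹ • z) = 0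
    · exact ⟨w.2, (hC.sub hw).2.1, h3, h0⟩
    · refine ⟨u.2 - (u.2 (g⁻¹ • z) / w.2 (g⁻¹ • z)) • w.2, fun h => h1 ?_,
        (hC.sub hu).2.2.sub_right (S.full.right _ h3), by simp [-LinearEquiv.smul_def, h0]⟩
      simpa [(hC.sub hw).2.2.1] using LinearMap.congr_fun h w.1
  exact ⟨dact g β, dact_ne_zero g h4, e ▸ S.full _ _ a (h5.conj hg), h6⟩

theorem two_right (hx : x ∈ C) (χ : Dual F V) : ∃ v : V, v ≠ 0 ∧ Tv H v x.2 ∧ χ v = 0 := by
  obtain ⟨u, hu, w, hw, h1, h2⟩ := hL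
  have h3 := S.full.of_comm (hC.sub hu).2.2 (hC.sub hw).2.2 h2 h1
  obtain ⟨g, hg, -, b, -, -, -, e⟩ := hC.cj S hw hx
  obtain ⟨v, h4, h5, h6⟩ : ∃ v : V, v ≠ 0 ∧ Tv H v w.2 ∧ χ (g v) = 0 := by
    by_cases h0 : χ (g u.1) = 0
    · exact ⟨u.1, (hC.sub hu).1, h3, h0⟩
    · refine ⟨w.1 - (χ (g w.1) / χ (g u.1)) • u.1, fun h => h1 ?_,
        (hC.sub hw).2.2.sub_left (S.full _ _ _ h3), by simp [h0]⟩
      simpa [(hC.sub hu).2.2.1] using congrArg u.2 h
  exact ⟨g v, (map_ne_zero_iff _ g.injective).2 h4, e ▸ S.full.right b (h5.conj hg), h6⟩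

variable [FiniteDimensional F V]

theorem tv_of_not_nd (hx : x ∈ C) (hy : y ∈ C) (h : ¬ Nd H x.1 y.1) {φ : Dual F V} (hφ : Tv H x.1 φ) :
    Tv H y.1 φ := by
  have key : ∀ s ∈ C, Nd H x.1 s.1 → Nd H y.1 s.1 → ∀ φ : Dual F V, Tv H x.1 φ → φ s.1 = 0 → Tv H y.1 φ :=
    fun s hs h1 h2 φ h3 h4 => S.full.tv_of_nd h2 (S.full.tv_of_nd (hC.nd_symm S hx hs h1) h3 h4)
      (by by_contra h0; exact h ⟨φ, h3, h0⟩)
  obtain ⟨z, hz, h1, h2⟩ := (hC.nd_or_exists S hx hy).resolve_left h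
  obtain ⟨β, h3, h4, h5⟩ := hC.two_left S hL hx z.1
  have h6 := key z hz h1 h2 β h4 h5
  have h7 : (x.1, β) ∈ C := hC.mem_of_fst S hx ⟨(hC.sub hx).1, h3, h4⟩ (a := 1) (by simp)
  obtain ⟨s, hs, h8, -⟩ := hC.exists_opp S h7
  have h9 := key s hs ⟨β, h4, h8⟩ ⟨β, h6, h8⟩ _ (hφ.sub_right (S.full.right (φ s.1 / β s.1) h4))
    (by simp [show β s.1 ≠ 0 from h8])
  simpa using h9.add_right (S.full.right (φ s.1 / β s.1) h6)

theorem lin_mem_cen {v : V} (hv : v ∈ cen C) : v = 0 ∨ ∃ φ, (v, φ) ∈ C := by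
  induction hv using Submodule.span_induction with
  | mem v hv => obtain ⟨x, hx, rfl⟩ := hv; exact Or.inr ⟨x.2, hx⟩
  | zero => exact Or.inl rfl
  | smul a v _ hv =>
    rcases hv with rfl | ⟨φ, hφ⟩
    · exact Or.inl (smul_zero a)
    · by_cases ha : a = 0
      · exact Or.inl (by rw [ha, zero_smul])
      · exact Or.inr ⟨_, hC.smul_mem S hφ ha one_ne_zero⟩
  | add v w _ _ hv hw =>
    rcases hv with rfl | ⟨φ, hφ⟩
    · rwa [zero_add]
    rcases hw with rfl | ⟨ψ, hψ⟩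
    · rw [add_zero]; exact Or.inr ⟨φ, hφ⟩
    by_cases h : Nd H w v
    · simpa using Or.inr (hC.exists_add_smul S hφ h 1)
    · by_cases h0 : v + w = 0
      · exact Or.inl h0
      · exact Or.inr ⟨ψ, hC.mem_of_snd S hψ ⟨h0, (hC.sub hψ).2.1,
          (hC.tv_of_not_nd S hL hψ hφ h (hC.sub hψ).2.2).add_left (hC.sub hψ).2.2⟩ (a := 1) (by simp)⟩

theorem exists_smul_of_not_nd (hx : x ∈ C) (hy : y ∈ C) (h : ¬ Nd H x.1 y.1) : ∃ a : F, y.1 = a • x.1 := by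
  obtain ⟨z, hz, h1, -⟩ := hC.exists_opp S hx
  have h2 : Nd H x.1 z.1 := ⟨_, (hC.sub hx).2.2, h1⟩
  obtain ⟨χ, hχ, h3⟩ := hC.nd_symm S hx hz h2
  rcases hC.lin_mem_cen S hL (Submodule.sub_mem _ (Submodule.smul_mem _ (χ x.1) (fst_mem_cen hy))
    (Submodule.smul_mem _ (χ y.1) (fst_mem_cen hx))) with h0 | ⟨φ, hφ⟩
  · refine ⟨χ y.1 / χ x.1, ?_⟩
    rw [sub_eq_zero] at h0
    rw [div_eq_inv_mul, mul_smul, ← h0, smul_smul, inv_mul_cancel₀ h3, one_smul]
  exfalso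
  have h4 : ∀ φ : Dual F V, Tv H x.1 φ → φ y.1 = 0 := fun φ hφ => by
    by_contra h0; exact h ⟨φ, hφ, h0⟩
  have h5 : ¬ Nd H x.1 (χ x.1 • y.1 - χ y.1 • x.1) := by
    rintro ⟨ψ, hψ, h0⟩
    exact h0 (by simp [hψ.1, h4 ψ hψ])
  have h6 : ¬ Nd H z.1 (χ x.1 • y.1 - χ y.1 • x.1) := by
    rintro ⟨ψ, hψ, h0⟩
    have := h4 _ (S.full.tv_of_nd h2 (hψ.sub_right (S.full.right (ψ x.1 / χ x.1) hχ)) (by simp [h3]))
    simp only [LinearMap.sub_apply, LinearMap.smul_apply, smul_eq_mul] at this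
    apply h0
    simp only [map_sub, map_smul, smul_eq_mul]
    field_simp at this
    linear_combination this
  exact h1 (hC.tv_of_not_nd S hL hφ hz (fun h7 => h6 (hC.nd_symm S hφ hz h7))
    (hC.tv_of_not_nd S hL hx hφ h5 (hC.sub hx).2.2)).1

theorem lin_tv_of_mem (hx : x ∈ C) (hy : y ∈ C) (h : y.2 x.1 = 0) : Tv H x.1 y.2 := by
  by_cases h1 : Nd H x.1 y.1
  · exact S.full.tv_of_nd h1 (hC.sub hy).2.2 h
  · obtain ⟨a, ha⟩ := hC.exists_smul_of_not_nd S hL hx hy h1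
    have ha0 : a ≠ 0 := by rintro rfl; exact (hC.sub hy).1 (by rw [ha, zero_smul])
    have := S.full _ _ a⁻¹ (hC.sub hy).2.2
    rwa [ha, smul_smul, inv_mul_cancel₀ ha0, one_smul] at this

theorem lin_mem_ax {φ : Dual F V} (hφ : φ ∈ ax C) : φ = 0 ∨ ∃ v, (v, φ) ∈ C := by
  induction hφ using Submodule.span_induction with
  | mem v hv => obtain ⟨x, hx, rfl⟩ := hv; exact Or.inr ⟨x.1, hx⟩
  | zero => exact Or.inl rfl
  | smul a v _ hv =>
    rcases hv with rfl | ⟨φ, hφ⟩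
    · exact Or.inl (smul_zero a)
    · by_cases ha : a = 0
      · exact Or.inl (by rw [ha, zero_smul])
      · exact Or.inr ⟨_, hC.smul_mem S hφ one_ne_zero ha⟩
  | add φ ψ _ _ hφ hψ =>
    rcases hφ with rfl | ⟨v, hv⟩
    · rwa [zero_add]
    rcases hψ with rfl | ⟨w, hw⟩
    · rw [add_zero]; exact Or.inr ⟨v, hv⟩
    by_cases h0 : φ + ψ = 0
    · exact Or.inl h0
    obtain ⟨u, h1, h2, h3⟩ := hC.two_right S hL hv ψ
    have h4 : (u, φ) ∈ C := hC.mem_of_snd S hv ⟨h1, (hC.sub hv).2.1, h2⟩ (a := 1) (by simp)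
    exact Or.inr ⟨u, hC.mem_of_fst S h4 ⟨h1, h0, h2.add_right (hC.lin_tv_of_mem S hL h4 hw h3)⟩ (a := 1) (by simp)⟩

theorem lin_mem {v : V} {φ : Dual F V} (hv : v ∈ cen C) (hφ : φ ∈ ax C) (h : φ v = 0) (hv0 : v ≠ 0)
    (hφ0 : φ ≠ 0) : (v, φ) ∈ C := by
  obtain ⟨ψ, h1⟩ := (hC.lin_mem_cen S hL hv).resolve_left hv0
  obtain ⟨w, h2⟩ := (hC.lin_mem_ax S hL hφ).resolve_left hφ0
  have h3 : Tv H v φ := hC.lin_tv_of_mem S hL h1 h2 h
  exact hC.mem_of_fst S h1 ⟨hv0, hφ0, h3⟩ (a := 1) (by simp)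

end Linear

theorem add_smul_mem (hC : IsComp H C) (S : Setup H) (hx : x ∈ C) (hy : y ∈ C) (h : y.2 x.1 ≠ 0)
    (hs : x.2 y.1 + y.2 x.1 = 0) (a : F) : x + a • y ∈ C := by
  have := hC.conj_mem S (S.full _ _ (a / y.2 x.1) (hC.sub hy).2.2) hx
  convert this using 1
  rw [map_smul, eq_neg_of_add_eq_zero_left hs]
  refine Prod.ext ?_ ?_
  · simp only [Prod.fst_add, Prod.smul_fst]
    match_scalars <;> field_simp
  · simp only [Prod.snd_add, Prod.smul_snd, smul_eq_mul]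
    match_scalars <;> field_simp

end IsComp

theorem Full.tv_of_radical (h : Full H) (h2 : (2 : F) ≠ 0) {z r : V × Dual F V} (h1 : z.2 r.1 = 0)
    (h3 : r.2 z.1 = 0) (h4 : r.2 r.1 = 0) (hz : Tv H z.1 z.2) (ha : Tv H (z.1 + r.1) (z.2 + r.2))
    (hb : Tv H (z.1 - r.1) (z.2 - r.2)) : Tv H r.1 r.2 := by
  obtain ⟨-, c, hc, hc'⟩ := h _ _ (-2) hz
  obtain ⟨-, a, ha, ha'⟩ := ha
  obtain ⟨-, b, hb, hb'⟩ := hb
  have h5 : Tv H ((2 : F) • r.1) r.2 := ⟨by simp [h4], a * b * c, H.mul_mem (H.mul_mem ha hb) hc, fun y => by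
    rw [mul_smul, mul_smul, ha', hb', hc']
    simp only [map_add, map_sub, map_smul, LinearMap.add_apply, LinearMap.sub_apply, h1, h3, h4, hz.1, smul_eq_mul]
    module⟩
  have := h _ _ 2⁻¹ h5
  rwa [smul_smul, inv_mul_cancel₀ h2, one_smul] at this

namespace IsComp

section Symplectic

variable [FiniteDimensional F V] (hC : IsComp H C) (S : Setup H) (hL : ¬ IsLin C)
include hC S hL

omit [FiniteDimensional F V] hC S in
theorem sp_ne (hx : x ∈ C) (hy : y ∈ C) (h : x.2 y.1 ≠ 0) : y.2 x.1 ≠ 0 := fun h0 => hL ⟨x, hx, y, hy, h, h0⟩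

omit [FiniteDimensional F V] S in
theorem sp_of_nd (hx : x ∈ C) (hy : y ∈ C) (h : Nd H x.1 y.1) : x.2 y.1 ≠ 0 := by
  obtain ⟨φ, h1, h2⟩ := h
  have h3 : (x.1, φ) ∈ C := hC.mem_right hy ⟨(hC.sub hx).1, fun h => h2 (by rw [show φ = 0 from h]; rfl), h1⟩ h2
  have h4 := sp_ne hL h3 hy h2
  exact sp_ne hL hy hx h4

theorem sp_exists_opp (hx : x ∈ C) (hy : y ∈ C) (h : x.2 y.1 = 0) : ∃ z ∈ C, x.2 z.1 ≠ 0 ∧ y.2 z.1 ≠ 0 := by
  obtain ⟨z, hz, h1, h2⟩ := (hC.nd_or_exists S hx hy).resolve_left fun h0 => hC.sp_of_nd hL hx hy h0 h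
  exact ⟨z, hz, hC.sp_of_nd hL hx hz h1, hC.sp_of_nd hL hy hz h2⟩

/-- A totally isotropic subspace of pairs holding every member of the component up to a scalar. -/
theorem exists_skew (hx : x ∈ C) : ∃ L : Submodule F (V × Dual F V),
    (∀ Q : Submodule F (V × Dual F V), (∀ y ∈ C, y ∈ L → y ∈ Q) → L ≤ Q) ∧
    (∀ y ∈ L, ∀ z ∈ L, y.2 z.1 + z.2 y.1 = 0) ∧ ∀ y ∈ C, ∃ b : F, b ≠ 0 ∧ (y.1, b • y.2) ∈ L := by
  let N : Set (V × Dual F V) := {z | z ∈ C ∧ x.2 z.1 ≠ 0 ∧ z.2 x.1 + x.2 z.1 = 0}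
  have h1 : ∀ z ∈ N, ∀ z' ∈ N, z.2 z'.1 + z'.2 z.1 = 0 := by
    rintro z ⟨hz, a1, a2⟩ z' ⟨hz', b1, b2⟩
    have h2 := hC.add_smul_mem S hz' hx b1 b2 (z.2 z'.1 / x.2 z.1)
    have h3 : (z' + (z.2 z'.1 / x.2 z.1) • x).2 z.1 = 0 := by
      by_contra h0
      apply sp_ne hL h2 hz h0
      simp only [Prod.fst_add, Prod.smul_fst, map_add, map_smul, smul_eq_mul, eq_neg_of_add_eq_zero_left a2]
      field_simp
      ring
    simp only [Prod.snd_add, Prod.smul_snd, LinearMap.add_apply, LinearMap.smul_apply, smul_eq_mul,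
      div_mul_cancel₀ _ a1] at h3
    rw [add_comm, h3]
  have h2 : ∀ y ∈ C, x.2 y.1 ≠ 0 → ∃ b : F, b ≠ 0 ∧ (y.1, b • y.2) ∈ N := by
    intro y hy h0
    have h3 := sp_ne hL hx hy h0
    have h4 : -x.2 y.1 / y.2 x.1 ≠ 0 := div_ne_zero (neg_ne_zero.2 h0) h3
    refine ⟨_, h4, by simpa using hC.smul_mem S hy one_ne_zero h4, h0, ?_⟩
    simp [h3]
  refine ⟨Submodule.span F N, fun Q hQ =>
    Submodule.span_le.2 fun y hy => hQ y hy.1 (Submodule.subset_span hy), fun y hy z hz => ?_, fun y hy => ?_⟩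
  · induction hy, hz using Submodule.span_induction₂ with
    | mem_mem y z hy hz => exact h1 y hy z hz
    | zero_left => simp
    | zero_right => simp
    | add_left y y' z _ _ _ e1 e2 =>
      simp only [Prod.fst_add, Prod.snd_add, map_add, LinearMap.add_apply]; linear_combination e1 + e2
    | add_right y z z' _ _ _ e1 e2 =>
      simp only [Prod.fst_add, Prod.snd_add, map_add, LinearMap.add_apply]; linear_combination e1 + e2
    | smul_left a y z _ _ e =>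
      simp only [Prod.smul_fst, Prod.smul_snd, map_smul, LinearMap.smul_apply, smul_eq_mul]
      linear_combination a * e
    | smul_right a y z _ _ e =>
      simp only [Prod.smul_fst, Prod.smul_snd, map_smul, LinearMap.smul_apply, smul_eq_mul]
      linear_combination a * e
  · by_cases h0 : x.2 y.1 = 0
    swap
    · obtain ⟨b, hb, h3⟩ := h2 y hy h0
      exact ⟨b, hb, Submodule.subset_span h3⟩
    have h0' : y.2 x.1 = 0 := by by_contra h; exact sp_ne hL hy hx h h0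
    obtain ⟨z, hz, h3, h4⟩ := hC.sp_exists_opp S hL hx hy h0
    obtain ⟨c, hc, hz'⟩ := h2 z hz h3
    have h5 : (c • z.2) y.1 ≠ 0 := by simpa [hc] using sp_ne hL hy hz h4
    have h6 : -(c • z.2) y.1 / y.2 z.1 ≠ 0 := div_ne_zero (neg_ne_zero.2 h5) h4
    have h7 : (y.1, (-(c • z.2) y.1 / y.2 z.1) • y.2) ∈ C := by simpa using hC.smul_mem S hy one_ne_zero h6
    have h8 := hC.add_smul_mem S h7 hz'.1 h5 (by simp [h4]) 1
    refine ⟨_, h6, ?_⟩
    have h9 : (y.1, (-(c • z.2) y.1 / y.2 z.1) • y.2) + (1 : F) • (z.1, c • z.2) ∈ N := by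
      refine ⟨h8, by simpa [h0] using h3, ?_⟩
      simpa [h0, h0'] using hz'.2.2
    simpa using Submodule.sub_mem _ (Submodule.subset_span (R := F) h9) (Submodule.subset_span hz')

theorem sp_add (h2 : (2 : F) ≠ 0) {L : Submodule F (V × Dual F V)}
    (hs : ∀ y ∈ L, ∀ z ∈ L, y.2 z.1 + z.2 y.1 = 0) (hb : ∀ y ∈ C, ∃ b : F, b ≠ 0 ∧ (y.1, b • y.2) ∈ L)
    (hx : x ∈ C) (hy : y ∈ C) (hxL : x ∈ L) (hyL : y ∈ L) : x + y = 0 ∨ x + y ∈ C := by
  by_cases h0 : y.2 x.1 = 0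
  swap
  · simpa using Or.inr (hC.add_smul_mem S hx hy h0 (hs x hxL y hyL) 1)
  have h0' : x.2 y.1 = 0 := by simpa [h0] using hs x hxL y hyL
  have hr := L.add_mem hxL hyL
  obtain ⟨z₀, hz₀, h3, h4⟩ := hC.sp_exists_opp S hL hx hy h0'
  obtain ⟨c, hc, hzL⟩ := hb z₀ hz₀
  have hz : (z₀.1, c • z₀.2) ∈ C := by simpa using hC.smul_mem S hz₀ one_ne_zero hc
  set z := (z₀.1, c • z₀.2)
  have hall : ∀ a : F, z + a • (x + y) ∈ C := fun a => by
    have h5 := hC.add_smul_mem S hz hx h3 (hs z hzL x hxL) a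
    have h6 := hC.add_smul_mem S h5 hy (by simpa [h0] using h4) (hs _ (L.add_mem hzL (L.smul_mem a hxL)) y hyL) a
    rwa [add_assoc, ← smul_add] at h6
  by_cases h5 : z.2 (x + y).1 = 0
  swap
  · have h6 := hC.add_smul_mem S (hall 1) hz (by simpa [(hC.sub hz).2.2.1] using h5)
      (hs _ (L.add_mem hzL (L.smul_mem 1 hr)) z hzL) (-1)
    right
    convert h6 using 1
    module
  have h6 : (x + y).2 z.1 = 0 := by simpa only [h5, zero_add] using hs z hzL _ hr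
  have h7 : Tv H (x + y).1 (x + y).2 := by
    refine S.full.tv_of_radical h2 h5 h6 (by simp [h0, h0', (hC.sub hx).2.2.1, (hC.sub hy).2.2.1])
      (hC.sub hz).2.2 ?_ ?_
    · simpa using (hC.sub (hall 1)).2.2
    · have := (hC.sub (hall (-1))).2.2
      convert this using 1
      · simp [sub_eq_add_neg, add_comm]
      · ext v; simp; ring
  have hz1 : ∀ s ∈ C, (x + y).2 s.1 ≠ 0 ↔ s.2 (x + y).1 ≠ 0 := fun s hs' => by
    obtain ⟨b, hb0, hsL⟩ := hb s hs'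
    have := hs _ hr _ hsL
    simp only [LinearMap.smul_apply, smul_eq_mul] at this
    rw [eq_neg_of_add_eq_zero_left this]
    simp [hb0]
  by_cases h8 : (x + y).1 = 0
  · by_cases h9 : (x + y).2 = 0
    · exact Or.inl (Prod.ext h8 h9)
    · exfalso
      have e : y.1 = -x.1 := eq_neg_of_add_eq_zero_right h8
      have h10 : Tv H x.1 (x + y).2 := (hC.sub hx).2.2.add_right (by
        have := (hC.sub hy).2.2.neg_left
        rwa [e, neg_neg] at this)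
      obtain ⟨s, hs', h11, h12⟩ := S.opp (x.1, (x + y).2) ⟨(hC.sub hx).1, h9, h10⟩
      exact (hz1 s (hC.mem_right hx hs' h12)).1 h11 (by rw [h8, map_zero])
  · by_cases h9 : (x + y).2 = 0
    · exfalso
      have e : y.2 = -x.2 := eq_neg_of_add_eq_zero_right h9
      have h10 : Tv H (x + y).1 x.2 := (hC.sub hx).2.2.add_left (by
        have := (hC.sub hy).2.2.neg_right
        rwa [e, neg_neg] at this)
      obtain ⟨s, hs', h11, h12⟩ := S.opp ((x + y).1, x.2) ⟨h8, (hC.sub hx).2.1, h10⟩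
      exact (hz1 s (hC.mem_left hx hs' h11)).2 h12 (by rw [h9]; rfl)
    · obtain ⟨s, hs', -, h12⟩ := S.opp (x + y) ⟨h8, h9, h7⟩
      have h13 : s ∈ C := by
        by_cases h14 : s.2 x.1 = 0
        · exact hC.mem_right hy hs' (by simpa [h14] using h12)
        · exact hC.mem_right hx hs' h14
      exact Or.inr (hC.mem_left h13 ⟨h8, h9, h7⟩ h12)

/-- The symplectic case. -/
theorem exists_form (h2 : (2 : F) ≠ 0) (hx : x ∈ C) : ∃ θ : cen C →ₗ[F] Dual F V,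
    (∀ v : cen C, v ≠ 0 → ((v : V), θ v) ∈ C) ∧ (∀ v w : cen C, θ v w + θ w v = 0) ∧
      ∀ y (hy : y ∈ C), ∃ b : F, y.2 = b • θ ⟨y.1, fst_mem_cen hy⟩ := by
  obtain ⟨L, hmin, hs, hb⟩ := hC.exists_skew S hL hx
  let Q : Submodule F (V × Dual F V) :=
    { carrier := {y | y ∈ L ∧ (y = 0 ∨ y ∈ C)}
      zero_mem' := ⟨L.zero_mem, Or.inl rfl⟩
      add_mem' := by
        rintro y z ⟨a1, rfl | a2⟩ ⟨b1, b2⟩
        · rw [zero_add]; exact ⟨b1, b2⟩
        · rcases b2 with rfl | b2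
          · rw [add_zero]; exact ⟨a1, Or.inr a2⟩
          · exact ⟨L.add_mem a1 b1, hC.sp_add S hL h2 hs hb a2 b2 a1 b1⟩
      smul_mem' := by
        rintro a y ⟨a1, rfl | a2⟩
        · rw [smul_zero]; exact ⟨a1, Or.inl rfl⟩
        · refine ⟨L.smul_mem a a1, ?_⟩
          by_cases ha : a = 0
          · exact Or.inl (by rw [ha, zero_smul])
          · exact Or.inr (hC.smul_mem S a2 ha ha) }
  have hQ : ∀ y ∈ L, y = 0 ∨ y ∈ C := fun y hy => (hmin Q (fun y h1 h2 => ⟨h2, Or.inr h1⟩) hy).2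
  have hmap : ∀ y : L, y.1.1 ∈ cen C := fun y => by
    rcases hQ y y.2 with h | h
    · rw [h]; exact Submodule.zero_mem _
    · exact fst_mem_cen h
  let f : L →ₗ[F] cen C := ((LinearMap.fst F V (Dual F V)).comp L.subtype).codRestrict _ hmap
  have hf : Function.Bijective f := by
    constructor
    · intro y y' hy
      have h3 : y.1.1 = y'.1.1 := congrArg Subtype.val hy
      rcases hQ _ (L.add_mem y.2 (L.smul_mem (-1 : F) y'.2)) with h | h
      · refine Subtype.ext (Prod.ext h3 ?_)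
        have h4 := congrArg Prod.snd h
        simp only [neg_one_smul, Prod.snd_zero, ← sub_eq_add_neg] at h4
        exact sub_eq_zero.1 h4
      · exact absurd (by simp [h3]) (hC.sub h).1
    · rintro ⟨v, hv⟩
      have : cen C ≤ L.map (LinearMap.fst F V (Dual F V)) := by
        refine Submodule.span_le.2 ?_
        rintro _ ⟨y, hy, rfl⟩
        obtain ⟨b, -, h⟩ := hb y hy
        exact ⟨_, h, rfl⟩
      obtain ⟨y, hy, rfl⟩ := this hv
      exact ⟨⟨y, hy⟩, rfl⟩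
  let e := LinearEquiv.ofBijective f hf
  have he : ∀ v : cen C, (e.symm v).1.1 = v := fun v => congrArg Subtype.val (e.apply_symm_apply v)
  refine ⟨(LinearMap.snd F V (Dual F V)).comp (L.subtype.comp e.symm.toLinearMap), fun v hv => ?_,
    fun v w => ?_, fun y hy => ?_⟩
  · rcases hQ _ (e.symm v).2 with h | h
    · exact absurd (Subtype.ext ((he v).symm.trans (congrArg Prod.fst h))) hv
    · rw [← he v]; exact h
  · have := hs _ (e.symm v).2 _ (e.symm w).2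
    rwa [he, he] at this
  · obtain ⟨b, hb0, h⟩ := hb y hy
    have h3 : e.symm ⟨y.1, fst_mem_cen hy⟩ = ⟨_, h⟩ := e.symm_apply_eq.2 rfl
    refine ⟨b⁻¹, ?_⟩
    change y.2 = b⁻¹ • (e.symm ⟨y.1, fst_mem_cen hy⟩).1.2
    rw [h3, smul_smul, inv_mul_cancel₀ hb0, one_smul]

end Symplectic

end IsComp

end CL.McL
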