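/-
Linear groups generated by transvections (McLaughlin), part 3: the decomposition of the space and of the group
along the connected components, and the groups induced on the summands.
-/
import Cfsg.Agent.Chev.McL2
import Cfsg.Agent.Cls.SpBasic

set_option autoImplicit false

namespace CL.McL

open Module CL.SLn

variable {F V : Type*} [Field F] [AddCommGroup V] [Module F V] [FiniteDimensional F V]
  {H : Subgroup (V ≃ₗ[F] V)} {C C' : Set (V × Dual F V)}

/-- The special linear group of a finite dimensional space is generated by transvections. -/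
theorem mem_of_det_eq_one {M : Subgroup (V ≃ₗ[F] V)}
    (hM : ∀ (v : V) (φ : Dual F V) (h : φ v = 0), LinearEquiv.transvection h ∈ M) {g : V ≃ₗ[F] V}
    (hg : LinearMap.det (g : V →ₗ[F] V) = 1) : g ∈ M := by
  classical
  let b := Module.finBasis F V
  let e := Matrix.SpecialLinearGroup.toLin_equiv b
  have key : ∀ A, (e A).1 ∈ M := by
    intro A
    induction A using transvection_induction with
    | h1 => rw [map_one]; exact M.one_mem
    | hmul A B hA hB => rw [map_mul]; exact M.mul_mem hA hB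
    | htransvec i j hij c =>
      have h0 : b.coord j (c • b i) = 0 := by simp [hij.symm]
      have h1 : ∀ A, ((e A).1 : V →ₗ[F] V) = Matrix.toLin b b A := fun _ => rfl
      rw [show (e (Matrix.SpecialLinearGroup.transvection hij c)).1 = LinearEquiv.transvection h0 from ?_]
      · exact hM _ _ h0
      refine LinearEquiv.toLinearMap_injective (b.ext fun k => ?_)
      rw [h1, Matrix.SpecialLinearGroup.transvection_coe, map_add, Matrix.toLin_one, LinearMap.add_apply,
        Matrix.toLin_self, LinearEquiv.coe_coe, LinearEquiv.transvection.apply]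
      by_cases hk : j = k
      · subst hk
        simp [Matrix.single_apply]
      · simp [hk]
  have := key (e.symm ⟨g, Units.ext (by rw [LinearEquiv.coe_det]; exact hg)⟩)
  rwa [MulEquiv.apply_symm_apply] at this

/-- The group generated by the transvections of a component. -/
def KC (C : Set (V × Dual F V)) : Subgroup (V ≃ₗ[F] V) := Subgroup.closure (gens C)

omit [FiniteDimensional F V] in
theorem KC_fix {g : V ≃ₗ[F] V} (hg : g ∈ KC C) {v : V} (hv : v ∈ (ax C).dualCoannihilator) : g v = v := by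
  refine (Subgroup.closure_le (MulAction.stabilizer (V ≃ₗ[F] V) v)).2 ?_ hg
  rintro g ⟨x, hx, hg⟩
  change g v = v
  rw [hg, (Submodule.mem_dualCoannihilator v).1 hv _ (snd_mem_ax hx), zero_smul, add_zero]

/-- The vectors fixed by all transvections of `H`. -/
def fixSp (H : Subgroup (V ≃ₗ[F] V)) : Submodule F V := (ax (TP H)).dualCoannihilator

namespace IsComp

omit [FiniteDimensional F V] in
theorem exists_gen (hC : IsComp H C) {x : V × Dual F V} (hx : x ∈ C) :
    ∃ g ∈ KC C, ∀ y, g y = y + x.2 y • x.1 :=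
  let ⟨_, g, _, hg⟩ := (hC.sub hx).2.2; ⟨g, Subgroup.subset_closure ⟨x, hx, hg⟩, hg⟩

omit [FiniteDimensional F V] in
theorem KC_le (hC : IsComp H C) : KC C ≤ H := by
  refine (Subgroup.closure_le H).2 ?_
  rintro g ⟨x, hx, hg⟩
  obtain ⟨-, g', hg', h⟩ := (hC.sub hx).2.2
  rwa [show g = g' from LinearEquiv.ext fun y => (hg y).trans (h y).symm]

omit [FiniteDimensional F V] in
theorem conj_mem_KC (hC : IsComp H C) (S : Setup H) {h g : V ≃ₗ[F] V} (hh : h ∈ H) (hg : g ∈ KC C) :
    h * g * h⁻¹ ∈ KC C := by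
  refine (Subgroup.closure_le ((KC C).comap (MulAut.conj h).toMonoidHom)).2 ?_ hg
  rintro g ⟨x, hx, hg⟩
  refine Subgroup.subset_closure ⟨_, hC.act_mem S hh x hx, fun y => ?_⟩
  change h (g (h.symm y)) = y + x.2 (h.symm y) • h x.1
  rw [hg, map_add, map_smul, LinearEquiv.apply_symm_apply]

omit [FiniteDimensional F V] in
theorem map_cen (hC : IsComp H C) (S : Setup H) {g : V ≃ₗ[F] V} (hg : g ∈ H) :
    (cen C).map (g : V →ₗ[F] V) = cen C := by
  have key : ∀ g ∈ H, ∀ v ∈ cen C, g v ∈ cen C := fun g hg v hv => by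
    refine (Submodule.span_le (p := (cen C).comap g.toLinearMap)).2 ?_ hv
    rintro _ ⟨x, hx, rfl⟩
    exact fst_mem_cen (hC.act_mem S hg x hx)
  refine le_antisymm ?_ fun v hv => ⟨g.symm v, key _ (H.inv_mem hg) v hv, g.apply_symm_apply v⟩
  rintro _ ⟨v, hv, rfl⟩
  exact key g hg v hv

omit [FiniteDimensional F V] in
theorem cen_le_ann (hC : IsComp H C) (hC' : IsComp H C') (hne : C ≠ C') : cen C' ≤ (ax C).dualCoannihilator := by
  refine Submodule.span_le.2 ?_
  rintro _ ⟨y, hy, rfl⟩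
  refine (Submodule.mem_dualCoannihilator _).2 fun φ hφ => ?_
  refine (Submodule.span_le (p := LinearMap.ker (Dual.eval F V y.1))).2 ?_ hφ
  rintro _ ⟨x, hx, rfl⟩
  exact hC.perp hC' hne hx hy

omit [FiniteDimensional F V] in
theorem fixSp_le_ann (hC : IsComp H C) : fixSp H ≤ (ax C).dualCoannihilator :=
  Submodule.dualCoannihilator_anti (Submodule.span_mono (Set.image_mono hC.sub))

omit [FiniteDimensional F V] in
theorem commute (hC : IsComp H C) (hC' : IsComp H C') (hne : C ≠ C') {a b : V ≃ₗ[F] V} (ha : a ∈ KC C)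
    (hb : b ∈ KC C') : a * b = b * a := by
  have h1 : KC C ≤ Subgroup.centralizer (gens C') := by
    refine (Subgroup.closure_le _).2 ?_
    rintro a ⟨x, hx, ha⟩ b ⟨y, hy, hb⟩
    refine LinearEquiv.ext fun v => ?_
    simp only [LinearEquiv.mul_apply, ha, hb, map_add, map_smul, hC.perp hC' hne hx hy,
      hC'.perp hC hne.symm hy hx, smul_zero, add_zero]
    abel
  have h2 : KC C' ≤ Subgroup.centralizer {a} := by
    refine (Subgroup.closure_le _).2 fun b hb => Subgroup.mem_centralizer_singleton_iff.2 (h1 ha b hb)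
  exact (Subgroup.mem_centralizer_singleton_iff.1 (h2 hb)).symm

variable (hC : IsComp H C) (S : Setup H) (h2 : (2 : F) ≠ 0)
include hC S h2

theorem mem_cen {v : V} (hv : v ∈ cen C) (h0 : v ≠ 0) : ∃ φ, (v, φ) ∈ C := by
  by_cases hL : IsLin C
  · exact (hC.lin_mem_cen S hL hv).resolve_left h0
  rcases C.eq_empty_or_nonempty with rfl | ⟨x, hx⟩
  · simp [cen, h0] at hv
  obtain ⟨θ, h1, -, -⟩ := hC.exists_form S hL h2 hx
  exact ⟨_, h1 ⟨v, hv⟩ fun h => h0 (congrArg Subtype.val h)⟩

theorem mem_ax {φ : Dual F V} (hφ : φ ∈ ax C) (h0 : φ ≠ 0) : ∃ v, (v, φ) ∈ C := by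
  by_cases hL : IsLin C
  · exact (hC.lin_mem_ax S hL hφ).resolve_left h0
  rcases C.eq_empty_or_nonempty with rfl | ⟨x, hx⟩
  · simp [ax, h0] at hφ
  obtain ⟨θ, h1, -, h3⟩ := hC.exists_form S hL h2 hx
  have : ax C ≤ LinearMap.range θ := by
    refine Submodule.span_le.2 ?_
    rintro _ ⟨y, hy, rfl⟩
    obtain ⟨b, hb⟩ := h3 y hy
    exact ⟨b • ⟨y.1, fst_mem_cen hy⟩, by rw [map_smul, hb]⟩
  obtain ⟨v, rfl⟩ := this hφ
  exact ⟨v, h1 v fun h => h0 (by rw [h, map_zero])⟩

theorem isCompl : IsCompl (cen C) (ax C).dualCoannihilator := by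
  have hd : Disjoint (cen C) (ax C).dualCoannihilator := by
    refine Submodule.disjoint_def.2 fun v h1 h3 => ?_
    by_contra h0
    obtain ⟨φ, hφ⟩ := hC.mem_cen S h2 h1 h0
    obtain ⟨s, hs, -, h4⟩ := hC.exists_opp S hφ
    exact h4 ((Submodule.mem_dualCoannihilator v).1 h3 _ (snd_mem_ax hs))
  refine ⟨hd, codisjoint_iff.2 (Submodule.eq_top_of_finrank_eq ?_)⟩
  have h3 := Submodule.finrank_sup_add_finrank_inf_eq (cen C) (ax C).dualCoannihilator
  rw [hd.eq_bot, finrank_bot] at h3
  have h4 := Subspace.finrank_add_finrank_dualCoannihilator_eq (ax C)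
  have h5 : finrank F (ax C) ≤ finrank F (Dual F (cen C)) := by
    refine LinearMap.finrank_le_finrank_of_injective (f := (cen C).dualRestrict.comp (ax C).subtype) ?_
    intro φ ψ hφ
    apply Subtype.ext
    by_contra h0
    obtain ⟨v, hv⟩ := hC.mem_ax S h2 ((ax C).sub_mem φ.2 ψ.2) (sub_ne_zero.2 h0)
    obtain ⟨s, hs, h4, -⟩ := hC.exists_opp S hv
    exact h4 (sub_eq_zero.2 (LinearMap.congr_fun hφ ⟨s.1, fst_mem_cen hs⟩))
  rw [Subspace.dual_finrank_eq] at h5
  have h6 := Submodule.finrank_le (cen C ⊔ (ax C).dualCoannihilator)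
  omega

theorem exists_extend (f : Dual F (cen C)) : ∃ φ ∈ ax C, ∀ v : cen C, φ v = f v := by
  refine ⟨f.comp (Submodule.projectionOnto _ _ (hC.isCompl S h2)), ?_, fun v => by simp⟩
  refine (Subspace.dualCoannihilator_dualAnnihilator_eq (W := ax C)).le
    ((Submodule.mem_dualAnnihilator _).2 fun w hw => ?_)
  rw [LinearMap.comp_apply, (Submodule.projectionOnto_apply_eq_zero_iff _).2 hw, map_zero]

/-- The group induced on the span of the centres. -/
theorem exists_restrict : ∃ ρ : KC C →* (cen C ≃ₗ[F] cen C),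
    (∀ (h : KC C) (v : cen C), ((ρ h v : cen C) : V) = (h : V ≃ₗ[F] V) (v : V)) ∧
    ((ρ.range : Set (cen C ≃ₗ[F] cen C)) =
        {f : cen C ≃ₗ[F] cen C | LinearMap.det (f : cen C →ₗ[F] cen C) = 1} ∨
      ∃ B : LinearMap.BilinForm F (cen C), B.IsAlt ∧ B.Nondegenerate ∧
        (ρ.range : Set (cen C ≃ₗ[F] cen C)) = {f : cen C ≃ₗ[F] cen C | ∀ x y, B (f x) (f y) = B x y}) := by
  let ρ : KC C →* (cen C ≃ₗ[F] cen C) := MonoidHom.mk'
    (fun h => h.1.ofSubmodules _ _ (hC.map_cen S (hC.KC_le h.2))) fun a b => LinearEquiv.ext fun v => rfl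
  have hρ : ∀ (h : KC C) (v : cen C), ((ρ h v : cen C) : V) = (h : V ≃ₗ[F] V) (v : V) := fun _ _ => rfl
  have hle : ∀ M : Subgroup (cen C ≃ₗ[F] cen C), (∀ x (hx : x ∈ C) (g : cen C ≃ₗ[F] cen C),
      (∀ y, g y = y + x.2 y • ⟨x.1, fst_mem_cen hx⟩) → g ∈ M) → ρ.range ≤ M := by
    rintro M hM _ ⟨⟨g, hg⟩, rfl⟩
    induction hg using Subgroup.closure_induction with
    | mem g hg =>
      obtain ⟨x, hx, hg⟩ := hg
      exact hM x hx _ fun y => Subtype.ext (hg y)
    | one => exact (congrArg (· ∈ M) ρ.map_one).mpr M.one_mem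
    | mul a b ha hb h1 h3 => exact (congrArg (· ∈ M) (ρ.map_mul ⟨a, ha⟩ ⟨b, hb⟩)).mpr (M.mul_mem h1 h3)
    | inv a ha h1 => exact (congrArg (· ∈ M) (ρ.map_inv ⟨a, ha⟩)).mpr (M.inv_mem h1)
  have hge : ∀ (v : cen C) (φ : Dual F V) (g : cen C ≃ₗ[F] cen C), (v = 0 ∨ φ = 0 ∨ ((v : V), φ) ∈ C) →
      (∀ y, g y = y + φ y • v) → g ∈ ρ.range := by
    rintro v φ g (rfl | rfl | h) hg
    · rw [show g = 1 from LinearEquiv.ext fun y => by simp [hg]]; exact one_mem _
    · rw [show g = 1 from LinearEquiv.ext fun y => by simp [hg]]; exact one_mem _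
    · obtain ⟨k, hk, hk'⟩ := hC.exists_gen h
      exact ⟨⟨k, hk⟩, LinearEquiv.ext fun y => Subtype.ext (by rw [hρ, hk', hg]; rfl)⟩
  refine ⟨ρ, hρ, ?_⟩
  by_cases hL : IsLin C ∨ C = ∅
  · left
    refine Set.Subset.antisymm (fun g hg => ?_) fun g hg => mem_of_det_eq_one (fun v f h => ?_) hg
    · have := hle (LinearEquiv.det (R := F) (M := cen C)).ker (fun x hx g hg => by
        have h0 : (x.2.comp (cen C).subtype) ⟨x.1, fst_mem_cen hx⟩ = 0 := (hC.sub hx).2.2.1
        rw [show g = LinearEquiv.transvection h0 from LinearEquiv.ext fun y => by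
          rw [hg, LinearEquiv.transvection.apply]; rfl]
        exact LinearEquiv.transvection.det_eq_one h0) hg
      change LinearMap.det _ = 1
      rw [← LinearEquiv.coe_det, (MonoidHom.mem_ker).1 this, Units.val_one]
    · obtain ⟨φ, hφ, hf⟩ := hC.exists_extend S h2 f
      refine hge v φ _ ?_ fun y => by rw [LinearEquiv.transvection.apply, hf]
      by_cases hv : v = 0
      · exact Or.inl hv
      by_cases h0 : φ = 0
      · exact Or.inr (Or.inl h0)
      rcases hL with hL | rfl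
      · exact Or.inr (Or.inr (hC.lin_mem S hL v.2 hφ (by rw [hf, h]) (fun h => hv (Subtype.ext h)) h0))
      · simp [ax, h0] at hφ
  · right
    rw [not_or] at hL
    obtain ⟨x, hx⟩ := Set.nonempty_iff_ne_empty.2 hL.2
    obtain ⟨θ, h1, h3, h4⟩ := hC.exists_form S hL.1 h2 hx
    let B : LinearMap.BilinForm F (cen C) := ((cen C).dualRestrict.comp θ).flip
    have hB : ∀ v w, B v w = θ w v := fun _ _ => rfl
    have hA : B.IsAlt := fun v => by
      by_cases hv : v = 0
      · rw [hv, map_zero]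
      · exact (hC.sub (h1 v hv)).2.2.1
    have hN : B.Nondegenerate := by
      have key : ∀ w, (∀ v, B v w = 0) → w = 0 := fun w hw => by
        by_contra h0
        obtain ⟨s, hs, h5, -⟩ := hC.exists_opp S (h1 w h0)
        exact h5 (hw ⟨s.1, fst_mem_cen hs⟩)
      exact ⟨fun w hw => key w fun v => (CL.Sp.alt_eq_zero_comm hA).1 (hw v), key⟩
    refine ⟨B, hA, hN, Set.Subset.antisymm (hle (CL.Sp.Isom B) fun y hy g hg => ?_)
      (CL.Sp.isom_le_of_tv_mem hA hN fun v c => hge v (c • θ v) _ ?_ fun y => ?_)⟩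
    · obtain ⟨b, hb⟩ := h4 y hy
      rw [show g = CL.Sp.tv hA ⟨y.1, fst_mem_cen hy⟩ b from LinearEquiv.ext fun z => by
        rw [hg, CL.Sp.tv_apply, hB]; nth_rw 1 [hb]; rfl]
      exact CL.Sp.tv_mem_isom hA _ _
    · by_cases hv : v = 0
      · exact Or.inl hv
      by_cases hc : c = 0
      · exact Or.inr (Or.inl (by rw [hc, zero_smul]))
      · exact Or.inr (Or.inr (by simpa using hC.smul_mem S (h1 v hv) one_ne_zero hc))
    · rw [CL.Sp.tv_apply, hB]; rfl

end IsComp

omit [FiniteDimensional F V] in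
theorem Setup.fix (S : Setup H) {g : V ≃ₗ[F] V} (hg : g ∈ H) {v : V} (hv : v ∈ fixSp H) : g v = v :=
  KC_fix (S.gen hg) hv

theorem Setup.isInternal (S : Setup H) (h2 : (2 : F) ≠ 0) {n : ℕ} (e : Fin n ≃ {C // IsComp H C}) :
    DirectSum.IsInternal (Fin.cons (fixSp H) fun j => cen (e j).1 : Fin (n + 1) → Submodule F V) := by
  let π : Fin n → V →ₗ[F] V := fun j => Submodule.projection _ _ ((e j).2.isCompl S h2)
  have hne : ∀ {i j}, i ≠ j → (e i).1 ≠ (e j).1 := fun h h' => h (e.injective (Subtype.ext h'))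
  have h0 : ∀ j, ∀ v ∈ (ax (e j).1).dualCoannihilator, π j v = 0 := fun j v hv =>
    (Submodule.projection_apply_eq_zero_iff _).2 hv
  refine DirectSum.isInternal_submodule_of_iSupIndep_of_iSup_eq_top (iSupIndep_def.2 ?_) ?_
  · refine Fin.cases ?_ fun j => ?_
    · refine Submodule.disjoint_def.2 fun v h1 h3 => ?_
      have h4 : v ∈ LinearMap.eqLocus (∑ j, π j) LinearMap.id := by
        refine (iSup₂_le ?_ : _ ≤ LinearMap.eqLocus (∑ j, π j) LinearMap.id) h3
        refine Fin.cases (fun h => absurd rfl h) fun j _ w hw => ?_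
        change (∑ j, π j) w = w
        rw [LinearMap.sum_apply, Finset.sum_eq_single j (fun i _ hi => h0 i w
          ((e i).2.cen_le_ann (e j).2 (hne hi) hw)) (by simp)]
        exact Submodule.projection_apply_left _ ⟨w, hw⟩
      change (∑ j, π j) v = v at h4
      rw [← h4, LinearMap.sum_apply]
      exact Finset.sum_eq_zero fun j _ => h0 j v ((e j).2.fixSp_le_ann h1)
    · refine ((e j).2.isCompl S h2).disjoint.mono_right (iSup₂_le ?_)
      refine Fin.cases (fun _ => (e j).2.fixSp_le_ann) fun i hi => ?_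
      exact (e j).2.cen_le_ann (e i).2 (hne fun h => hi (by rw [h]))
  · refine eq_top_iff.2 fun v _ => ?_
    rw [← sub_add_cancel v (∑ j, π j v)]
    refine Submodule.add_mem _ (Submodule.mem_iSup_of_mem 0 ?_) (Submodule.sum_mem _ fun j _ =>
      Submodule.mem_iSup_of_mem j.succ (Submodule.projection_apply_mem _ v))
    refine (Submodule.mem_dualCoannihilator _).2 fun φ hφ => ?_
    refine (Submodule.span_le (p := LinearMap.ker (Dual.eval F V (v - ∑ j, π j v)))).2 ?_ hφ
    rintro _ ⟨x, hx, rfl⟩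
    obtain ⟨C, hC, hxC⟩ := exists_isComp hx
    obtain ⟨j, hj⟩ := e.surjective ⟨C, hC⟩
    have hxj : x ∈ (e j).1 := by rw [hj]; exact hxC
    change x.2 (v - ∑ j, π j v) = 0
    rw [map_sub, map_sum, Finset.sum_eq_single j (fun i _ hi => (Submodule.mem_dualCoannihilator _).1
      ((e j).2.cen_le_ann (e i).2 (hne hi.symm) (Submodule.projection_apply_mem _ v)) _ (snd_mem_ax hxj))
      (by simp), ← map_sub]
    exact (Submodule.mem_dualCoannihilator _).1 (Submodule.sub_projection_mem _ v) _ (snd_mem_ax hxj)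

end CL.McL
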