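/-
Iterated cores of a maximal parabolic subgroup and its conjugate under the missing reflection (helper27).
-/
import Cfsg.Agent.Chev.RealTab
import Cfsg.Agent.Even.Amb

set_option autoImplicit false

namespace CL.Chev.PCore

open Subgroup CL.Even StSys

/-- the characterisation of the core of `Y` in `M` -/
theorem core_eq {G : Type*} [Group G] {M Y C : Subgroup G} (h1 : C ≤ Y) (h2 : C ≤ M) (h3 : M ≤ 𝒩(C))
    (h4 : ∀ N ≤ Y, N ≤ M → M ≤ 𝒩(N) → N ≤ C) : C = (Y.subgroupOf M).normalCore.map M.subtype := by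
  refine le_antisymm ?_ (h4 _ (map_le_iff_le_comap.2 (normalCore_le _)) (map_subtype_le _) ?_)
  · have := (normal_subgroupOf_iff_le_normalizer h2).2 h3
    rw [← map_subgroupOf_eq_of_le h2]
    exact map_mono (normal_le_normalCore.2 (subgroupOf_mono M h1))
  · rw [← normal_subgroupOf_iff_le_normalizer (map_subtype_le _), subgroupOf, comap_map_eq_self_of_injective
      M.subtype_injective]
    infer_instance

theorem core_cj {G : Type*} [Group G] {M Y C : Subgroup G} {s : G} (hY : cj s Y = Y) (h1 : C ≤ Y) (h2 : C ≤ M)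
    (h3 : M ≤ 𝒩(C)) (h4 : ∀ N ≤ Y, N ≤ M → M ≤ 𝒩(N) → N ≤ C) :
    cj s C = (Y.subgroupOf (cj s M)).normalCore.map (cj s M).subtype :=
  core_eq (hY ▸ cj_mono s h1) (cj_mono s h2) (cj_norm s C ▸ cj_mono s h3) fun N e1 e2 e3 =>
    le_cj_iff.2 (h4 _ (le_cj_iff.1 (hY.symm ▸ e1)) (le_cj_iff.1 e2) (cj_norm s⁻¹ N ▸ cj_le_iff.1 e3))

variable {ι Φ : Type} [Fintype ι] [DecidableEq ι] {R : RS ι Φ} {F : Type*} [Field F] {G : Type*} [Group G]
  (S : StSys R F G) (a : ι)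

/-- the roots of level at least `k` -/
def Lv (R : RS ι Φ) (a : ι) (k : ℤ) : Set Φ := {r | k ≤ R.root r a}

theorem Lv_pos {a : ι} {k : ℤ} (hk : 1 ≤ k) : ∀ r ∈ Lv R a k, R.Pos r := fun _ hr =>
  R.pos_of_coeff_pos (i := a) (lt_of_lt_of_le hk hr)

theorem ideal_Lv (a : ι) {k : ℤ} (hk : 1 ≤ k) : R.Ideal {r | 0 ≤ R.root r a} (Lv R a k) := fun c r s hr hs hc => by
  obtain ⟨i, j, hi, hj, h⟩ := hc.coeff
  simp only [Lv, Set.mem_ofPred_eq] at hr hs ⊢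
  rw [h]
  nlinarith

theorem closed_Lv (a : ι) {k : ℤ} (hk : 1 ≤ k) : R.Closed (Lv R a k) :=
  (ideal_Lv a hk).mono fun _ hr => le_trans (by omega) (hk.trans hr)

theorem P_norm {k : ℤ} (hk : 1 ≤ k) : S.P {a}ᶜ ≤ 𝒩(S.XS (Lv R a k)) := by
  have h : ∀ r, R.Pos r ∨ r ∈ R.PhiJ {a}ᶜ → 0 ≤ R.root r a := fun r hr => hr.elim (fun h => h a) fun h => (h a (by simp)).ge
  rw [S.P_eq]
  refine sup_le (S.H_le_normalizer_XS _) (S.XS_le_normalizer ((ideal_Lv a hk).mono h) fun r hr e => ?_)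
  have := h r hr
  change k ≤ _ at e
  rw [R.root_neg, Pi.neg_apply] at e
  omega

theorem Lv_le_P {k : ℤ} (hk : 1 ≤ k) : S.XS (Lv R a k) ≤ S.P {a}ᶜ :=
  (S.XS_mono (Lv_pos hk)).trans (S.U_le_B.trans (S.B_le_P _))

theorem root_sref_self (r : Φ) : R.root (R.sref a r) a = R.root r a - R.pair (R.simple a) r := by
  simp [R.root_sref, R.root_simple]

theorem Lv_le_cj (h1 : ∀ b, b ≠ R.simple a → R.pair (R.simple a) b ≤ 1) {k : ℤ} (hk : 1 ≤ k) :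
    S.XS (Lv R a (k + 1)) ≤ S.XS (Lv R a k) ⊓ cj (S.nS a) (S.XS (Lv R a k)) := by
  refine le_inf (S.XS_mono fun r hr => le_trans (by omega : k ≤ k + 1) hr) ?_
  rw [(S.induces_nS a).map_XS]
  refine S.XS_mono fun r hr => ⟨R.sref a r, ?_, R.sref_sref a r⟩
  change k + 1 ≤ _ at hr
  have := h1 r (by rintro rfl; simp [R.root_simple] at hr; omega)
  change k ≤ _
  rw [root_sref_self]
  omega

theorem exists_low (b : Φ) [Finite Φ] : ∃ w ∈ R.WJ {a}ᶜ, ∀ i, i ≠ a → R.pair (R.simple i) (w b) ≤ 0 := by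
  obtain ⟨w, hw, hm⟩ := Set.exists_min_image (R.WJ {a}ᶜ : Set (Equiv.Perm Φ)) (fun w => R.ht (w b)) (Set.toFinite _)
    ⟨1, one_mem _⟩
  refine ⟨w, hw, fun i hi => ?_⟩
  have := hm (R.sperm i * w) (mul_mem (R.sperm_mem_WJ hi) hw)
  simp only [Equiv.Perm.mul_apply, RS.sperm_apply, R.ht_sref] at this
  omega

variable {S a} [Finite Φ] (hS : S.Faithful)
include hS

theorem step {N : Subgroup G} (hN : S.P {a}ᶜ ≤ 𝒩(N)) {k : ℤ} (hk : 1 ≤ k) (h1 : N ≤ S.XS (Lv R a k)) {Ψ : Set Φ}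
    (hc : R.Closed Ψ) (hp : ∀ r ∈ Ψ, R.Pos r) (h2 : N ≤ S.XS Ψ)
    (h3 : ∀ b, R.root b a = k → (∀ i, i ≠ a → R.pair (R.simple i) b ≤ 0) → b ∉ Ψ) : N ≤ S.XS (Lv R a (k + 1)) := by
  have h4 : N ≤ S.XS (Lv R a k ∩ Ψ) := hS.uFaithful.XS_inf (Lv_pos hk) (closed_Lv a hk) hp hc ▸ le_inf h1 h2
  intro g hg
  obtain ⟨l, hl, hl'⟩ := exists_list_of_finite (Set.toFinite (Lv R a k))
  obtain ⟨t, rfl⟩ := S.exists_prodL (Lv_pos hk) (closed_Lv a hk) hl hl' (h1 hg)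
  refine S.prodL_mem_XS' fun b hb hn => ?_
  obtain ⟨w, hw, e⟩ := exists_low a b (R := R)
  obtain ⟨n, -, hn'⟩ := S.exists_NW_of_mem_WJ hw
  have h5 : ∀ r, R.root (w r) a = R.root r a := fun r => R.root_apply_of_mem_WJ hw r (by simp)
  have h6 := (NW_induces hn').conj_mem_XS_iff.1 (h4 (conj_mem (hN (mem_P_of_NW hn' hw)) hg))
  refine (hS.uFaithful.prodL_mem_XS_iff (fun r hr => Lv_pos hk r ((show k ≤ _ from hr.1).trans_eq (h5 r)))
    (((closed_Lv a hk).inter hc).preimage (R.WJ_le_aut _ hw)) hl fun r hr => Lv_pos hk r ((hl' r).1 hr)).1 h6 b hb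
    fun e' => h3 _ ?_ e e'.2
  have := (hl' b).1 hb
  simp only [Lv, Set.mem_ofPred_eq] at this hn
  rw [h5]
  omega

theorem step_two {N : Subgroup G} (hN : S.P {a}ᶜ ≤ 𝒩(N)) {k : ℤ} (hk : 2 ≤ k)
    (h : N ≤ S.XS (Lv R a k) ⊓ cj (S.nS a) (S.XS (Lv R a k))) : N ≤ S.XS (Lv R a (k + 1)) := by
  have hk' : 1 ≤ k := by omega
  refine step hS hN hk' (h.trans inf_le_left) ((closed_Lv a hk').image (R.sperm_mem_aut a)) ?_
    ((h.trans inf_le_right).trans ((S.induces_nS a).map_XS _).le) ?_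
  · rintro _ ⟨r, hr, rfl⟩
    exact (Lv_pos hk' r hr).sref (by rintro rfl; simp [Lv, R.root_simple] at hr; omega)
  · rintro _ e h1 ⟨r, hr, rfl⟩
    obtain ⟨i, -, hi⟩ := (Lv_pos hk' _ e.ge).exists_pair_pos
    obtain rfl : i = a := by_contra fun h => (h1 i h).not_gt hi
    change k ≤ _ at hr
    rw [RS.sperm_apply, root_sref_self] at e
    rw [RS.sperm_apply, R.pair_simple_sref] at hi
    omega

theorem conj_not_mem {K : Set ι} {r j : ι} (hr : r ∈ K) (hj : j ∉ K) (h : R.cartan r j ≠ 0) {x : G}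
    (hx : x ∈ S.cell (R.sperm r)) : S.nS j * x * (S.nS j)⁻¹ ∉ S.P K := fun e => by
  have hne : j ≠ r := fun e => hj (e ▸ hr)
  have h1 := inv_mem_cell (nS_mul_mem_cell_of_pos (i := j) (by
    simpa using (R.pos_simple j).sref fun e => hne (R.simple_inj e)) hx)
  have h2 : S.nS j * (S.nS j * x)⁻¹ ∈ S.P K := by simpa [mul_assoc] using inv_mem e
  rcases nS_mul_mem_cell j h1 with h3 | h3 <;> rw [hS.mem_P_iff_of_mem_cell h3] at h2
  · rw [mul_inv_rev, R.sperm_inv r, ← mul_assoc, ← R.refl_simple r, R.aut_conj_refl (R.sperm_mem_aut j),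
      R.refl_mem_WJ_iff] at h2
    have := h2 j hj
    rw [RS.sperm_apply, root_sref_self, R.pair_simple_simple, R.root_simple, Pi.single_eq_of_ne hne, zero_sub,
      neg_eq_zero, R.cartan_eq_zero_comm] at this
    exact h this
  · exact hj (R.sperm_mem_WJ_iff.1 (by simpa [← mul_assoc] using mul_mem (R.sperm_mem_WJ hr) h2))

theorem x_not_mem {t : F} (ht : t ≠ 0) : S.x (R.simple a) t ∉ cj (S.nS a) (S.P {a}ᶜ) := fun e => by
  obtain ⟨c, hc, h⟩ := (S.induces_nS a).inv.exists_conj (R.simple a)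
  have := mem_cj.1 e
  rw [← inv_inv (S.nS a), inv_inv (S.nS a)⁻¹, h, R.sperm_inv, RS.sperm_apply, R.sref_simple,
    hS.mem_P_iff_of_mem_cell (x_neg_simple_mem_cell a (mul_ne_zero hc ht)), R.sperm_mem_WJ_iff] at this
  exact this rfl

theorem le_B (hR : R.Irred) {N : Subgroup G} (hN : S.P {a}ᶜ ≤ 𝒩(N)) (h1 : N ≤ S.P {a}ᶜ)
    (h2 : N ≤ cj (S.nS a) (S.P {a}ᶜ)) : N ≤ S.B := by
  have h3 : N ⊔ S.B ≤ S.P {a}ᶜ := sup_le h1 (S.B_le_P _)
  have h4 := hS.eq_P_of_B_le (le_sup_right : S.B ≤ N ⊔ S.B) (h3.trans (S.P_le_grp _))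
  generalize hK : {i | S.nS i ∈ N ⊔ S.B} = K at h4
  rcases K.eq_empty_or_nonempty with rfl | hne
  · exact le_sup_left.trans (h4.trans S.P_empty).le
  have h5 : ∀ i ∈ K, i ≠ a := fun i hi => hS.nS_mem_P_iff.1 (h3 (h4 ▸ S.nS_mem_P hi))
  obtain ⟨r, hr, j, hj, h6⟩ := hR K hne ⟨a, fun h => h5 a h rfl⟩
  obtain ⟨x, hx, b, hb, e⟩ := (mem_sup_nl ((S.B_le_P _).trans hN)).1 (h4 ▸ S.nS_mem_P hr)
  have h7 : x ∈ S.cell (R.sperm r) :=
    eq_mul_inv_of_mul_eq e ▸ mul_B_mem_cell (self_mem_cell (S.nS_mem_NW r)) (inv_mem hb)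
  by_cases h8 : j = a
  · subst h8
    refine (conj_not_mem hS (K := {j}ᶜ) (h5 r hr) (by simp) h6 h7 ?_).elim
    simpa [mul_assoc] using conj_mem (le_normalizer (S.B_le_P _ (S.H_le_B (S.nS_mul_self_mem_H j)))) (mem_cj.1 (h2 hx))
  · exact (conj_not_mem hS hr hj h6 h7 (h4.le (mem_sup_left (conj_mem (hN (S.nS_mem_P h8)) hx)))).elim

theorem step_one (hR : R.Irred) (hH : S.H = ⊥)
    (h2 : ∀ b, R.root b a = 1 → (∀ i, i ≠ a → R.pair (R.simple i) b ≤ 0) → b = R.simple a) {N : Subgroup G}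
    (hN : S.P {a}ᶜ ≤ 𝒩(N)) (h : N ≤ S.P {a}ᶜ ⊓ cj (S.nS a) (S.P {a}ᶜ)) : N ≤ S.XS (Lv R a 2) := by
  have h3 := le_B hS hR hN (h.trans inf_le_left) (h.trans inf_le_right)
  have h4 : N ≤ S.U := by rwa [B, hH, sup_bot_eq] at h3
  refine step hS hN (k := 1) (Ψ := {s | R.Pos s ∧ s ≠ R.simple a}) le_rfl (fun g hg => ?_)
    ((R.ideal_ne_simple a).mono fun _ h => h.1) (fun _ h => h.1) (fun g hg => ?_) fun b e1 e2 e3 => e3.2 (h2 b e1 e2)
  · obtain ⟨n, -, hn⟩ := S.exists_NW_of_mem_WJ (R.w0J_mem {a}ᶜ)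
    refine S.XS_mono (fun r hr => ?_) ((hS.conj_mem_B_iff (NW_induces hn) (h4 hg)).1
      (h3 (conj_mem (hN (mem_P_of_NW hn (R.w0J_mem _))) hg)))
    exact Int.add_one_le_of_lt (lt_of_le_of_ne (hr.1 a) fun e => (R.pos_w0J_iff (J := {a}ᶜ) fun i hi => by
      rw [not_not.1 hi]; exact e.symm).1 hr.2 hr.1)
  · obtain ⟨t, u, hu, rfl⟩ := S.exists_mul_Ui a (h4 hg)
    have h5 : u ∈ cj (S.nS a) (S.P {a}ᶜ) :=
      mem_cj.2 (S.B_le_P _ (S.U_le_B (S.Ui_le_U a (conj_mem' (S.n_simple_mem_normalizer_Ui a 1) hu))))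
    obtain rfl : t = 0 := by_contra fun ht => x_not_mem hS ht (((cj (S.nS a) (S.P {a}ᶜ)).mul_mem_cancel_right h5).1 (h hg).2)
    rwa [S.x_zero, one_mul]

theorem isCoatom (hG : S.grp = ⊤) : IsCoatom (S.P {a}ᶜ) := by
  refine ⟨fun e => hS.nS_mem_P_iff.1 (e.ge (mem_top (S.nS a))) rfl, fun M hM => ?_⟩
  have h1 := hS.eq_P_of_B_le ((S.B_le_P _).trans hM.le) (hG ▸ le_top)
  by_cases h : S.nS a ∈ M
  · rw [h1, ← hG, ← S.P_univ]
    congr 1
    exact Set.eq_univ_of_forall fun i => if e : i = a then e ▸ h else hM.le (S.nS_mem_P e)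
  · exact (hM.not_ge (h1.le.trans (S.P_mono fun i hi e => h (e ▸ hi)))).elim

/-- the iterated cores -/
def Cs (S : StSys R F G) (a : ι) : ℕ → Subgroup G
  | 0 => S.P {a}ᶜ
  | i + 1 => S.XS (Lv R a (i + 2))

theorem cores (hR : R.Irred) (hH : S.H = ⊥) (h1 : ∀ b, b ≠ R.simple a → R.pair (R.simple a) b ≤ 1)
    (h2 : ∀ b, R.root b a = 1 → (∀ i, i ≠ a → R.pair (R.simple i) b ≤ 0) → b = R.simple a) (i : ℕ) :
    Cs S a (i + 1) ≤ Cs S a i ⊓ cj (S.nS a) (Cs S a i) ∧ ∀ N ≤ Cs S a i ⊓ cj (S.nS a) (Cs S a i), N ≤ S.P {a}ᶜ →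
      S.P {a}ᶜ ≤ 𝒩(N) → N ≤ Cs S a (i + 1) := by
  cases i with
  | zero => exact ⟨(Lv_le_cj S a h1 le_rfl).trans (inf_le_inf (Lv_le_P S a le_rfl) (cj_mono _ (Lv_le_P S a le_rfl))),
      fun N e _ e' => step_one hS hR hH h2 e' e⟩
  | succ i =>
    simp only [Cs, show ((i + 1 : ℕ) : ℤ) + 2 = i + 2 + 1 by push_cast; ring]
    exact ⟨Lv_le_cj S a h1 (by omega), fun N e _ e' => step_two hS e' (by omega) e⟩

theorem main [IsSimpleGroup G] (hG : S.grp = ⊤) (hR : R.Irred) (hH : S.H = ⊥)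
    (h1 : ∀ b, b ≠ R.simple a → R.pair (R.simple a) b ≤ 1)
    (h2 : ∀ b, R.root b a = 1 → (∀ i, i ≠ a → R.pair (R.simple i) b ≤ 0) → b = R.simple a) {n : ℕ}
    (h3 : ∀ b, R.root b a ≤ n + 2) (h4 : ∃ b, R.root b a = n + 2) :
    ∃ (M₁ M₂ : Subgroup G) (g : G) (A B : ℕ → Subgroup G),
      IsCoatom M₁ ∧ M₂ = M₁.map (MulAut.conj g).toMonoidHom ∧ M₁ ≠ M₂ ∧ M₁.normalCore = ⊥ ∧ A 0 = M₁ ∧ B 0 = M₂ ∧
      (∀ i, A (i + 1) = ((A i ⊓ B i).subgroupOf M₁).normalCore.map M₁.subtype) ∧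
      (∀ i, B (i + 1) = ((A i ⊓ B i).subgroupOf M₂).normalCore.map M₂.subtype) ∧ A (n + 2) = ⊥ ∧ A (n + 1) ≠ ⊥ := by
  have hc := isCoatom (a := a) hS hG
  have hs : S.nS a * S.nS a = 1 := mem_bot.1 (hH ▸ S.nS_mul_self_mem_H a)
  refine ⟨S.P {a}ᶜ, _, S.nS a, Cs S a, fun i => cj (S.nS a) (Cs S a i), hc, rfl,
    fun e => x_not_mem hS one_ne_zero (e ▸ S.B_le_P _ (S.U_le_B (S.x_mem_U (R.pos_simple a) 1))),
    (Subgroup.Normal.eq_bot_or_eq_top inferInstance).resolve_right fun e => hc.1 (eq_top_iff.2 (e.ge.trans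
      (normalCore_le _))), rfl, rfl, fun i => ?_, fun i => ?_, ?_, fun e => ?_⟩
  · exact core_eq (cores hS hR hH h1 h2 i).1 (Lv_le_P S a (by omega)) (P_norm S a (by omega)) (cores hS hR hH h1 h2 i).2
  · exact core_cj (by rw [cj_inf, ← cj_mul, hs, cj_one, inf_comm]) (cores hS hR hH h1 h2 i).1 (Lv_le_P S a (by omega))
      (P_norm S a (by omega)) (cores hS hR hH h1 h2 i).2
  · refine eq_bot_iff.2 (S.XS_le_iff.2 fun r hr => absurd (h3 r) ?_)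
    simp only [Lv, Set.mem_ofPred_eq] at hr
    omega
  · obtain ⟨b, hb⟩ := h4
    exact one_ne_zero (hS.x_eq_one_iff.1 (mem_bot.1 (e.le (S.x_mem_XS (r := b) hb.ge 1))))

omit hS in
theorem exists_e8 : ∃ (G : Type) (_ : Group G) (_ : Finite G) (M₁ M₂ : Subgroup G) (g : G) (A B : ℕ → Subgroup G),
      IsCoatom M₁ ∧ M₂ = M₁.map (MulAut.conj g).toMonoidHom ∧ M₁ ≠ M₂ ∧ M₁.normalCore = ⊥ ∧ A 0 = M₁ ∧ B 0 = M₂ ∧
      (∀ i, A (i + 1) = ((A i ⊓ B i).subgroupOf M₁).normalCore.map M₁.subtype) ∧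
      (∀ i, B (i + 1) = ((A i ⊓ B i).subgroupOf M₂).normalCore.map M₂.subtype) ∧ A 6 = ⊥ ∧ A 5 ≠ ⊥ := by
  let S := realE8.S (ZMod 2)
  have hb := bond_of_mem (D := Cfsg.Lie.chevE8) (by simp)
  have hs : IsSimpleGroup S.grp := realE8.group_eq (F := ZMod 2) ▸
    (realE8.isSimpleGroup (realE8.commutator_eq_top_of_bond hb.1 hb.2)).1
  refine ⟨S.grp, inferInstance, inferInstance, main (S := S.restrict S.grp S.x_mem_grp) (a := ⟨3, by decide +kernel⟩)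
    (n := 4) (Faithful.of_map (f := S.grp.subtype) (realE8.faithful _)) ?_ realE8.irred ?_ (fun b hb => ?_)
    (fun b h1 h2 => ?_) (fun b => ?_) ⟨⟨239, by decide +kernel⟩, ?_⟩⟩
  · apply map_injective S.grp.subtype_injective
    rw [← MonoidHom.range_eq_map, range_subtype]
    exact (map_XS _ _ _).symm
  · refine eq_bot_iff.2 ((closure_le _).2 ?_)
    rintro _ ⟨r, t, ht, rfl⟩
    rw [(by decide : ∀ t : ZMod 2, t ≠ 0 → t = 1) t ht, h_one]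
    exact one_mem _
  · rw [tabE8.pair_simple]
    exact (by decide +kernel : ∀ r < 240, r ≠ Cert.auxE8.sim 3 → Cert.auxE8.ca 3 r ≤ 1) b b.2
      fun e => hb (Fin.ext (e.trans (tabE8.simple realE8 ⟨3, _⟩).symm))
  · simp only [tabE8.root, tabE8.pair_simple] at h1 h2
    exact Fin.ext (((by decide +kernel : ∀ r < 240, Cert.auxE8.rt r 3 = 1 → (∀ i < 8, i ≠ 3 → Cert.auxE8.ca i r ≤ 0) →
      r = Cert.auxE8.sim 3) b b.2 h1 fun i hi h => h2 ⟨i, hi⟩ fun e => h (congrArg Fin.val e)).trans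
        (tabE8.simple realE8 ⟨3, _⟩).symm)
  · rw [tabE8.root]
    exact (by decide +kernel : ∀ r < 240, Cert.auxE8.rt r 3 ≤ 6) b b.2
  · rw [tabE8.root]
    decide +kernel

end CL.Chev.PCore
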