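import Cfsg.Agent.Chev.StOver2
import Cfsg.Agent.Chev.TabLead
import Cfsg.Agent.Chev.GraphAut
import Cfsg.Agent.Chev.StFix

/-!
# Finite subgroups of a Chevalley group containing the group over the prime field (Burgoyne–Griess–Lyons)
-/

set_option autoImplicit false

namespace CL.Chev

open Cfsg Cfsg.Lie Cert
open scoped commutatorElement

theorem intCast_ne_zero_of_natAbs {F : Type*} [Field F] {c : ℤ} {m : ℕ} (hm : (m : F) ≠ 0)
    (h : c.natAbs = 1 ∨ c.natAbs = m) : (c : F) ≠ 0 := by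
  rcases h with h | h <;> rcases Int.natAbs_eq_iff.1 h with rfl | rfl <;> simp [hm]

theorem natCast_ne_zero_of_ne {F : Type*} [Field F] (p : ℕ) [hp : Fact p.Prime] [CharP F p] {m : ℕ} (hm : m.Prime)
    (h : p ≠ m) : (m : F) ≠ 0 := fun e => h ((Nat.prime_dvd_prime_iff_eq hp.out hm).1 ((CharP.cast_eq_zero_iff F p m).1 e))

namespace Tab

variable {D : ChevalleyDatum} {A : Aux} (T : Tab D A) (E : Real D) {F : Type*} [Field F] (p : ℕ) [Fact p.Prime] [CharP F p]
include T p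

theorem over_of {G : Type*} [Group G] {S : StSys E.R F G} (hS : S.CommFormula (datT D)) (ht : A.topChk = true)
    {P : ℕ → Bool} {m sT : ℕ} (h : A.chainChk P m sT = true) (hm : (m : F) ≠ 0) {M : Subgroup G} (h1 : ∀ r, S.x r 1 ∈ M)
    {r s : ℕ} (h2 : (A.pos r && A.long s && A.stepOK P m r s) = true)
    (hr : ∀ r' : Fin D.nroots, (r' : ℕ) = r → ∀ t, S.x T.top t ∈ M → S.x r' t ∈ M) {J : Set (Fin D.rank)}
    (hJ : ∀ i ∈ J, P (A.sim i) = true) : S.Over J T.top M := by
  have key := fun r hr hP t u hu e => StSys.Co.mem_of_chain (r := r) (t := t) (u := u) p (T.highest E ht) h1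
    (P := fun r => P r = true) (fun r hr hP h0 => let ⟨s, k, c, a1, a2, a3, a4⟩ := T.chain E hS h hr hP h0
      ⟨s, k, c, a1, a2, intCast_ne_zero_of_natAbs hm a3, a4⟩) hr hP hu e
  refine ⟨fun i hi t u hu => key _ (E.R.pos_simple i) (T.simple E i ▸ hJ i hi) t u hu, fun t u h3 h4 => ?_⟩
  simp only [Bool.and_eq_true, Aux.long, beqZ_iff] at h2
  obtain ⟨r, rfl⟩ : ∃ r' : Fin D.nroots, (r' : ℕ) = r := ⟨⟨r, T.lt_of_pos h2.1.1⟩, rfl⟩
  obtain ⟨s, k, c, rfl, a1, a2, a3, a4⟩ := T.step E hS r h2.2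
  obtain ⟨w, hw, e⟩ := T.exists_W E (r := s) (s := T.top) h2.1.2
  have h5 := (T.pos_iff' E r).1 h2.1.1
  have h6 := hr r rfl t h3
  have h7 := (StSys.x_W_mem_iff h1 hw s u).1 (e ▸ h4)
  simpa [mul_assoc, StSys.x_int_mul_mem_iff p (intCast_ne_zero_of_natAbs hm a3)] using key k
    ((E.R.comb_of_add a4.add).pos h5 a1) a2 _ _ (mul_mem (mul_mem (mul_mem h6 h7) (inv_mem h6)) (inv_mem h7))
    ((S.co_x r t).comm h5 a1 a4 u)

theorem over_long {G : Type*} [Group G] {S : StSys E.R F G} (hS : S.CommFormula (datT D)) (ht : A.topChk = true)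
    {P : ℕ → Bool} {m sT : ℕ} (h : A.chainChk P m sT = true) (hm : (m : F) ≠ 0) {M : Subgroup G} (h1 : ∀ r, S.x r 1 ∈ M)
    (r s : ℕ) (h2 : (A.long r && (A.pos r && A.long s && A.stepOK P m r s)) = true) {J : Set (Fin D.rank)}
    (hJ : ∀ i ∈ J, P (A.sim i) = true) : S.Over J T.top M := by
  rw [Bool.and_eq_true] at h2
  refine T.over_of E p hS ht h hm h1 h2.2 (fun r' e t h3 => ?_) hJ
  obtain ⟨w, hw, e⟩ := T.exists_W E (r := r') (s := T.top) (e ▸ (beqZ_iff _ _).1 h2.1)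
  exact (StSys.x_W_mem_iff h1 hw r' t).1 (e ▸ h3)

theorem over_graph [PerfectField F] (hn : A.nCheck = true) (ht : A.topChk = true) {sT πT ρT : ℕ}
    (h : A.chainChk A.long 1 sT = true) (hg : A.graphCheck p p πT ρT 0 = true) (r s : ℕ)
    (h2 : (A.long r && (A.pos r && A.long s && A.stepOK A.long 1 r s)) = true)
    (h3 : (Nat.beq (A.glam p (A.ng 0)) 1 && allLt A.l fun i => A.long (A.sim i) ||
      (A.long (A.sim (dig πT 4 i)) && Nat.beq (A.glam p (A.sim i)) p)) = true)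
    {M : Subgroup (GL D.Idx F)} [Finite M] (h1 : ∀ r, (E.S F).x r 1 ∈ M) : (E.S F).Over Set.univ T.top M := by
  obtain ⟨ρ, π, ε, -, a1, a2, a3, -, -, -, a4⟩ := T.exists_graph hn E hg
  obtain ⟨τ, hτ⟩ := a4 F (by simp) ⟨frobeniusEquiv F p, fun _ => rfl⟩
  simp only [Bool.and_eq_true, allLt_iff, Bool.or_eq_true, beq_iff'] at h3
  have : Finite (M.subgroupOf (E.S F).grp) := Finite.of_injective (fun g => (⟨g.1.1, g.2⟩ : M)) fun _ _ e =>
    Subtype.ext (Subtype.ext (congrArg (fun g : M => (g : GL D.Idx F)) e))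
  exact StSys.Over.of_res (StSys.over_of_graph p ((E.faithful F).restrict _ _).uFaithful E.irred (T.highest E ht)
    (J := {i | A.long (A.sim i) = true}) (fun M h1 => T.over_long E p ((E.commFormula F).restrict _ _) ht h (by simp) h1 r s h2 fun _ h => h) τ a3.toIsSym
    (lam := fun r => A.glam p r) (fun r t => by simp [hτ, a2, Aux.bsign, dig]) h3.1
    (fun i hi => by simpa [a1, T.simple E] using (h3.2 i (T.lt_l i)).resolve_left hi) h1)

omit p in
theorem not_conj_short [CharP F 2] (ht : A.topChk = true) (i : Fin D.rank) (h : A.long (A.sim i) = false)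
    (M : Subgroup (GL D.Idx F)) (h1 : ∀ r, (E.S F).x r 1 ∈ M) : ∃ z ∈ M, ∃ w ∈ M, z ∈ (E.S F).U ∧ w ∈ (E.S F).U ∧
      orderOf z = 2 ∧ orderOf w = 2 ∧ ∀ g ∈ (E.S F).grp, g * z * g⁻¹ ≠ w :=
  (E.faithful F).exists_not_conj (T.highest E ht) (l := [i]) (by simp) (by simp)
    (by simp [sq, StSys.x_mul_self (CharTwo.two_eq_zero (R := F))]) (fun w hw => ⟨i, by simp, fun e => by
      have := T.len_W E hw (E.R.simple i)
      rw [e, T.simple] at this
      exact Bool.false_ne_true (h.symm.trans ((beqZ_iff _ _).2 this.symm))⟩) h1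

omit p in
theorem not_conj_orth [CharP F 2] (ht : A.topChk = true) (i j : Fin D.rank) (hij : i ≠ j)
    (h : A.commIn [] (A.sim i) (A.sim j) = true)
    (M : Subgroup (GL D.Idx F)) (h1 : ∀ r, (E.S F).x r 1 ∈ M) : ∃ z ∈ M, ∃ w ∈ M, z ∈ (E.S F).U ∧ w ∈ (E.S F).U ∧
      orderOf z = 2 ∧ orderOf w = 2 ∧ ∀ g ∈ (E.S F).grp, g * z * g⁻¹ ≠ w :=
  (E.faithful F).exists_not_conj (T.highest E ht) (l := [i, j]) (by simpa) (by simp) (by
    have h2 := CharTwo.two_eq_zero (R := F)
    have := T.commute_of_commIn E h2 (T.rs.sim_lt i (T.lt_l i)) (T.rs.sim_lt j (T.lt_l j)) h 1 1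
    rw [← T.simple E, ← T.simple E, E.xN_coe, E.xN_coe] at this
    simp [this.mul_pow, sq, StSys.x_mul_self h2]) (fun w hw => by
      by_contra! hc
      exact hij (E.R.simple_inj (w.injective ((hc i (by simp)).trans (hc j (by simp)).symm)))) h1

end Tab

variable {F : Type*} [Field F] (p : ℕ) [Fact p.Prime] [CharP F p]

theorem over_B2_odd (E : Real chevB2) (hp : p ≠ 2) {M : Subgroup (GL chevB2.Idx F)} (h1 : ∀ r, (E.S F).x r 1 ∈ M) :
    (E.S F).Over Set.univ tabB2.top M := by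
  refine tabB2.over_of E p (P := fun _ => true) (E.commFormula F) topChkB2 (m := 2) (sT := 0x50405) (by decide +kernel)
    (natCast_ne_zero_of_ne p Nat.prime_two hp) h1 (r := 5) (s := 4) (by decide +kernel) (fun r hr t ht => ?_) fun _ _ => rfl
  obtain ⟨w, hw, e⟩ := tabB2.exists_W E (r := ⟨4, by decide⟩) (s := tabB2.top) (by decide +kernel)
  obtain ⟨w', hw', e'⟩ := tabB2.exists_W E (r := ⟨6, by decide⟩) (s := r) (by rw [hr]; decide +kernel)
  have h2 : E.xN 4 t ∈ M := (StSys.x_W_mem_iff h1 hw _ t).1 (e ▸ ht)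
  have h3 : E.xN 5 1 ∈ M := h1 ⟨5, by decide⟩
  have := mul_mem (mul_mem h2 h3) (inv_mem h2)
  rw [tabB2.conj_xN E (by decide) (by decide) (by decide) (by decide), show auxB2.aTerms 4 5 = [(6, 1, 1, 1), (7, -1, 1, 2)]
    by decide +kernel, mul_mem_cancel_left h3] at this
  rw [← e', StSys.x_W_mem_iff h1 hw']
  exact (mul_mem_cancel_right (x := E.xN 7 (-t)) (((E.S F).coef M tabB2.top).neg_mem ht)).1
    (show E.xN 6 t * _ ∈ M by simpa using this)

omit [Fact p.Prime] [CharP F p] in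
theorem b2_two_aux [CharP F 2] {G : Type*} [Group G] {a b c d : F → G} {M : Subgroup G}
    (hc : ∀ s t, c (s + t) = c s * c t) (hd : ∀ s t, d (s + t) = d s * d t) (hcd : ∀ s t, Commute (d s) (c t))
    (hcb : ∀ s t, Commute (c s) (b t)) (had : ∀ s t, Commute (a s) (d t))
    (hab : ∀ s t, a s * b t * (a s)⁻¹ = b t * (c (s * t) * d (s * t ^ 2)))
    (h1 : ∀ s t, c s * d t ∈ M → b s * d t ∈ M) (h2 : ∀ s t, c s * d t ∈ M → c s * a t ∈ M) (c1 : c 1 ∈ M) (d1 : d 1 ∈ M)
    (hf : {s | ∃ t, c s * d t ∈ M}.Finite) :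
    (∀ s t, c s * d t ∈ M → d s ∈ M) ∧ ∀ s t, d s ∈ M → d t ∈ M → d (s * t) ∈ M := by
  have c0 : c 0 = 1 := mul_eq_left.1 ((hc 0 0).symm.trans (by simp))
  have d0 : d 0 = 1 := mul_eq_left.1 ((hd 0 0).symm.trans (by simp))
  have qa : ∀ {s t s' t'}, c s * d t ∈ M → c s' * d t' ∈ M → c (s + s') * d (t + t') ∈ M := fun {s t s' t'} h h' => by
    simpa only [hc, hd, (hcd t s').mul_mul_mul_comm] using mul_mem h h'
  have qm : ∀ {s t s' t'}, c s * d t ∈ M → c s' * d t' ∈ M → c (t' * s) * d (t' * s ^ 2) ∈ M := fun {s t s' t'} h h' => by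
    have a1 := h1 _ _ h
    have a2 := h2 _ _ h'
    have a3 := mul_mem (inv_mem a1) (mul_mem (mul_mem a2 a1) (inv_mem a2))
    rwa [show c s' * a t' * (b s * d t) * (c s' * a t')⁻¹ = c s' * (a t' * b s * (a t')⁻¹ * (a t' * d t * (a t')⁻¹)) * (c s')⁻¹
      by group, hab, (had _ _).mul_inv_cancel, (((hcb _ _).mul_right ((show Commute (c _) (c _) by
        rw [Commute, SemiconjBy, ← hc, ← hc, add_comm]).mul_right (hcd _ _).symm)).mul_right (hcd _ _).symm).mul_inv_cancel,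
      mul_assoc (b s), ((hcd _ _).mul_right (show Commute (d _) (d _) by
        rw [Commute, SemiconjBy, ← hd, ← hd, add_comm])).symm.eq, ← mul_assoc (b s), inv_mul_cancel_left] at a3
  have q1 : c 1 * d 0 ∈ M := by simpa [d0]
  have q0 : ∀ {t}, d t ∈ M → c 0 * d t ∈ M := by simp [c0]
  have q2 : ∀ s t, c s * d t ∈ M → ∃ s', c s' * d s ∈ M := fun s t h => by
    obtain ⟨s', ⟨t', e⟩, rfl⟩ := ((hf.injOn_iff_bijOn_of_mapsTo (f := fun s => s ^ 2) fun s ⟨t, h⟩ =>
      ⟨_, by simpa using qm q1 (qm h (q0 d1))⟩).1 (frobenius_inj F 2).injOn).surjOn ⟨t, h⟩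
    exact ⟨_, by simpa using qm e (q0 d1)⟩
  let K : Subring F :=
    { carrier := {s | ∃ t, c s * d t ∈ M}, zero_mem' := ⟨_, q0 d1⟩, one_mem' := ⟨_, q1⟩
      add_mem' := fun ⟨_, h⟩ ⟨_, h'⟩ => ⟨_, qa h h'⟩, neg_mem' := fun {s} h => (CharTwo.neg_eq s).symm ▸ h
      mul_mem' := fun ⟨_, h⟩ ⟨_, h'⟩ => let ⟨_, e⟩ := q2 _ _ h; ⟨_, qm h' e⟩ }
  have : Finite K := hf
  obtain ⟨n, -, hn⟩ := exists_pow_iff_of_finite 2 K
  have q3 : ∀ s ∈ K, d s ∈ M := fun s ⟨t, h⟩ => by
    by_cases h0 : s = 0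
    · simp [h0, d0]
    obtain ⟨_, e⟩ := (hn s⁻¹).2 (by rw [inv_pow, (hn s).1 ⟨t, h⟩])
    obtain ⟨_, e⟩ := q2 _ _ e
    simpa [h0, sq, c1, mul_mem_cancel_left] using qm h e
  exact ⟨fun s t h => q3 s ⟨t, h⟩, fun s t h h' => q3 _ (K.mul_mem ⟨_, by simpa using qm q1 (q0 h)⟩
    ⟨_, by simpa using qm q1 (q0 h')⟩)⟩

omit [Fact p.Prime] [CharP F p] in
theorem over_B2_two [CharP F 2] (E : Real chevB2) {M : Subgroup (GL chevB2.Idx F)} [Finite M]
    (h1 : ∀ r, (E.S F).x r 1 ∈ M) : (E.S F).Over Set.univ tabB2.top M := by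
  have h2 := CharTwo.two_eq_zero (R := F)
  have cm : ∀ r s, (Nat.blt r 8 && Nat.blt s 8 && auxB2.commIn [] r s) = true → ∀ a b : F, Commute (E.xN r a) (E.xN s b) :=
    fun r s h => by
      simp only [Bool.and_eq_true, Nat.blt_eq] at h
      exact tabB2.commute_of_commIn E h2 h.1.1 h.1.2 h.2
  have cq : ∀ (i : Fin chevB2.rank) (r s : Fin chevB2.nroots) (a b : F), E.xN r a * E.xN s b ∈ M →
      E.xN (auxB2.w i r) a * E.xN (auxB2.w i s) b ∈ M := fun i r s a b h => by
    simp only [← tabB2.sref E, E.xN_coe, ← RS.sperm_apply, ← RS.refl_simple, ← StSys.conj_n_one h2, conj_mul] at h ⊢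
    exact mul_mem (mul_mem (StSys.n_one_mem h1 _) h) (inv_mem (StSys.n_one_mem h1 _))
  let k : Fin chevB2.nroots := ⟨6, by decide⟩
  have hk : E.R.Pos k := (tabB2.pos_iff' E k).1 (by decide +kernel)
  have hl : E.R.later k = {tabB2.top} := Set.ext fun r => by
    simp only [RS.later, Set.mem_ofPred_eq, ← tabB2.pos_iff' E, tabB2.ht, Set.mem_singleton_iff]
    revert r
    decide +kernel
  have co : ∀ s u, (E.S F).Co k s u ↔ ∃ t, u = E.xN 6 s * E.xN 7 t := fun s u => by
    simp only [StSys.Co, hl, show (E.S F).XS {tabB2.top} = (E.S F).X tabB2.top from rfl, StSys.mem_X, inv_mul_eq_iff_eq_mul]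
    rfl
  obtain ⟨a1, a2⟩ := b2_two_aux (a := E.xN 4) (b := E.xN 5) (c := E.xN 6) (d := E.xN 7) (M := M) ((E.S F).x_add k)
    ((E.S F).x_add tabB2.top) (cm _ _ (by decide +kernel)) (cm _ _ (by decide +kernel)) (cm _ _ (by decide +kernel))
    (fun s t => by
      rw [tabB2.conj_xN E (by decide) (by decide) (by decide) (by decide),
        show auxB2.aTerms 4 5 = [(6, 1, 1, 1), (7, -1, 1, 2)] by decide +kernel]
      simp [CharTwo.neg_eq])
    (fun s t h => by
      have := cq ⟨1, by decide⟩ k tabB2.top s t h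
      rwa [show auxB2.w _ _ = 5 by decide +kernel, show auxB2.w _ _ = 7 by decide +kernel] at this)
    (fun s t h => by
      have := cq ⟨0, by decide⟩ k tabB2.top s t h
      rwa [show auxB2.w _ _ = 6 by decide +kernel, show auxB2.w _ _ = 4 by decide +kernel] at this)
    (h1 k) (h1 tabB2.top) (Finite.of_injective (β := M) (fun s => ⟨_, s.2.choose_spec⟩) fun s s' e => Subtype.ext (by
      have a1 := (co s _).2 ⟨s.2.choose, rfl⟩
      have a2 := (co s' _).2 ⟨s'.2.choose, Subtype.ext_iff.1 e⟩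
      exact (sub_eq_zero.1 ((E.faithful F).eq_zero k _ hk (show _ ∈ (E.S F).XS (E.R.later k) by
        have := mul_mem a1 (inv_mem a2)
        rwa [mul_inv_rev, inv_inv, mul_assoc, mul_inv_cancel_left, ← StSys.x_neg, ← StSys.x_add, neg_add_eq_sub] at this))).symm))
  refine ⟨fun i _ t u hu e => ?_, a2⟩
  obtain ⟨s, k', c, -, b1, b2, b3, b4⟩ := tabB2.step E (E.commFormula F) (P := Nat.beq 6) (m := 1) (s := 4 + i)
    (E.R.simple i) (by rw [tabB2.simple]; clear * -; decide +kernel +revert)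
  obtain rfl : k = k' := Fin.ext (Nat.eq_of_beq_eq_true b2)
  obtain ⟨t', e'⟩ := (co _ _).1 (e.comm (E.R.pos_simple i) b1 b4 1)
  exact (StSys.x_int_mul_mem_iff 2 (intCast_ne_zero_of_natAbs (by simp) b3) tabB2.top t).1 (a1 _ t' (by
    rw [← mul_one ((c : F) * t), ← e']
    exact mul_mem (mul_mem (mul_mem hu (h1 s)) (inv_mem hu)) (inv_mem (h1 s))))

theorem Real.exists_over {D : ChevalleyDatum} (hD : D ∈ [chevG2, chevB2, chevD4, chevF4, chevE6, chevE7, chevE8]) (E : Real D)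
    [PerfectField F] : ∃ θ, E.R.Highest θ ∧
      (∀ M : Subgroup (GL D.Idx F), Finite M → (∀ r, (E.S F).x r 1 ∈ M) → (E.S F).Over Set.univ θ M) ∧
      (p = 2 → ∀ M : Subgroup (GL D.Idx F), (∀ r, (E.S F).x r 1 ∈ M) → ∃ z ∈ M, ∃ w ∈ M, z ∈ (E.S F).U ∧ w ∈ (E.S F).U ∧
        orderOf z = 2 ∧ orderOf w = 2 ∧ ∀ g ∈ (E.S F).grp, g * z * g⁻¹ ≠ w) := by
  simp only [List.mem_cons, List.not_mem_nil, or_false] at hD
  rcases hD with rfl | rfl | rfl | rfl | rfl | rfl | rfl
  · refine ⟨_, tabG2.highest E topChkG2, fun M _ h1 => ?_, by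
      rintro rfl; exact tabG2.not_conj_short E topChkG2 ⟨0, by decide⟩ (by decide +kernel)⟩
    by_cases hp : p = 3
    · subst hp
      exact tabG2.over_graph E 3 nCheckG2 topChkG2 (sT := 0x60000000a) (by decide +kernel) graphCheckG2 6 10
        (by decide +kernel) (by decide +kernel) h1
    exact tabG2.over_long E p (E.commFormula F) topChkG2 (P := fun _ => true) (sT := 0x607090607) (by decide +kernel)
      (natCast_ne_zero_of_ne p Nat.prime_three hp) h1 6 10 (by decide +kernel) fun _ _ => rfl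
  · refine ⟨_, tabB2.highest E topChkB2, fun M _ h1 => ?_, by
      rintro rfl; exact tabB2.not_conj_short E topChkB2 ⟨0, by decide⟩ (by decide +kernel)⟩
    by_cases hp : p = 2
    · subst hp; exact over_B2_two E h1
    exact over_B2_odd p E hp h1
  · exact ⟨_, tabD4.highest E topChkD4, fun M _ h1 => tabD4.over_long E p (E.commFormula F) topChkD4 (P := fun _ => true)
      (m := 1) (sT := 0xe0c0d0c0e120c0d0c0e0e) (by decide +kernel) (by simp) h1 12 14 (by decide +kernel) fun _ _ => rfl, by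
      rintro rfl; exact tabD4.not_conj_orth E topChkD4 ⟨0, by decide⟩ ⟨3, by decide⟩ (by decide) (by decide +kernel)⟩
  · refine ⟨_, tabF4.highest E topChkF4, fun M _ h1 => ?_, by
      rintro rfl; exact tabF4.not_conj_short E topChkF4 ⟨1, by decide⟩ (by decide +kernel)⟩
    by_cases hp : p = 2
    · subst hp
      exact tabF4.over_graph E 2 nCheckF4 topChkF4 (sT := 0x1819001e191800000000000000002919180000001e1819)
        (by decide +kernel) graphCheckF4 24 25 (by decide +kernel) (by decide +kernel) h1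
    exact tabF4.over_long E p (E.commFormula F) topChkF4 (P := fun _ => true)
      (sT := 0x18191b1b1918211b19181b18191b2119181b18191b1819) (by decide +kernel)
      (natCast_ne_zero_of_ne p Nat.prime_two hp) h1 24 25 (by decide +kernel) fun _ _ => rfl
  · exact ⟨_, tabE6.highest E topChkE6, fun M _ h1 => tabE6.over_long E p (E.commFormula F) topChkE6 (P := fun _ => true)
      (m := 1) (sT := 0x2e2725242a25242724252e2425272a3825242724252a2425272e2425272a2425272425) (by decide +kernel)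
      (by simp) h1 36 37 (by decide +kernel) fun _ _ => rfl, by
      rintro rfl; exact tabE6.not_conj_orth E topChkE6 ⟨0, by decide⟩ ⟨1, by decide⟩ (by decide) (by decide +kernel)⟩
  · exact ⟨_, tabE7.highest E topChkE7, fun M _ h1 => tabE7.over_long E p (E.commFormula F) topChkE7 (P := fun _ => true)
      (m := 1) (sT := 0x5d494542403f4e42403f45403f423f4049403f423f40453f40424e3f404245495d403f423f40453f4042493f4042454e3f404245493f4042453f40423f40)
      (by decide +kernel) (by simp) h1 63 64 (by decide +kernel) fun _ _ => rfl, by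
      rintro rfl; exact tabE7.not_conj_orth E topChkE7 ⟨0, by decide⟩ ⟨1, by decide⟩ (by decide) (by decide +kernel)⟩
  · exact ⟨_, tabE8.highest E topChkE8, fun M _ h1 => tabE8.over_long E p (E.commFormula F) topChkE8 (P := fun _ => true)
      (m := 1) (sT := 0x78797b7e82878d87827e7b7978a28d827e7b7978877e7b7978827b79787e79787b78798d7b79787e79787b78798279787b78797e78797b8779787b78797e78797b8278797b7e8d78797b7e8287a279787b78797e78797b8278797b7e8778797b7e828d78797b7e828778797b7e8278797b7e78797b7879)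
      (by decide +kernel) (by simp) h1 120 121 (by decide +kernel) fun _ _ => rfl, by
      rintro rfl; exact tabE8.not_conj_orth E topChkE8 ⟨0, by decide⟩ ⟨1, by decide⟩ (by decide) (by decide +kernel)⟩

/-- A finite subgroup containing all `x_r(1)` lies between `G(p^b)` and the fixed points of the `p^b`-Frobenius map. -/
theorem Real.finite_overgroup {D : ChevalleyDatum} (hD : D ∈ [chevG2, chevB2, chevD4, chevF4, chevE6, chevE7, chevE8])
    (E : Real D) [PerfectField F] {M : Subgroup (GL D.Idx F)} [Finite M] (hMG : M ≤ (E.S F).grp)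
    (h1 : ∀ r, (E.S F).x r 1 ∈ M) : ∃ b, 1 ≤ b ∧ (∀ r t, t ^ p ^ b = t → (E.S F).x r t ∈ M) ∧
      ∀ g ∈ M, Matrix.GeneralLinearGroup.map (iterateFrobenius F p b) g = g := by
  obtain ⟨θ, h2, h3, h4⟩ := E.exists_over (F := F) p hD
  obtain ⟨b, hb, h5, h6⟩ := (h3 M ‹_› h1).exists_pow p (E.faithful F).uFaithful E.irred h2 h1
  have h : (E.S F).Frob _ (iterateFrobenius F p b) := E.map_x _
  exact ⟨b, hb, h5, fun g => h.fixed_of_finite (E.faithful F) (E.adjoint F) (E.hMul F) E.irred E.two_le_card p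
    (E.exists_lead_simple (E.commFormula F)) h4 hMG h5 (h6 _ h)⟩

omit [CharP F p] in
theorem dvd_of_isPrimitiveRoot {a b : ℕ} {ζ : F} (h : IsPrimitiveRoot ζ (p ^ a - 1)) (ha : 1 ≤ a) (e : ζ ^ p ^ b = ζ) :
    ζ ^ p ^ a = ζ ∧ a ∣ b := by
  have hp := (Fact.out : p.Prime).one_lt
  have h1 := Nat.one_lt_pow (by omega : a ≠ 0) hp
  have h2 := h.dvd_of_pow_eq_one (p ^ b - 1) (mul_right_cancel₀ (h.ne_zero (by omega)) (by
    rw [← pow_succ, Nat.sub_add_cancel (Nat.one_le_pow _ _ (by omega)), e, one_mul]))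
  rw [← Nat.gcd_eq_left_iff_dvd, Nat.pow_sub_one_gcd_pow_sub_one] at h2
  have := Nat.one_le_pow (a.gcd b) p (by omega)
  exact ⟨by rw [← Nat.sub_add_cancel h1.le, pow_succ, h.pow_eq_one, one_mul],
    Nat.gcd_eq_left_iff_dvd.1 (Nat.pow_right_injective hp (by simp only; omega))⟩

end CL.Chev
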