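/-
Small Ree groups, part 11: an extension of an elementary abelian 3-group by the centraliser of an involution whose element
orders are the divisors of `6`, `9`, `q - 1`, `(q + 1) / 2`; the direct cube is not recognisable by its spectrum.
-/
import Cfsg.Agent.Chev.ReeOrd
import Cfsg.Agent.Perm.SpecBasic

set_option autoImplicit false

namespace CL.Chev.Ree

open Subgroup CL.Chev.SL2 CL.Perm Matrix
open scoped MatrixGroups

namespace Tw

variable {F : Type*} [Field F] (S : Tw F)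

/-- The twisted tensor square of the natural module of `SL₂`, extended by the scalars `±1`. -/
def act : ℤˣ × SL(2, F) →* MulAut (Multiplicative (Matrix (Fin 2) (Fin 2) F)) :=
  let _ : MulDistribMulAction (ℤˣ × SL(2, F)) (Multiplicative (Matrix (Fin 2) (Fin 2) F)) :=
    { smul p m := .ofAdd (p.1 • (p.2.1 * m.toAdd * (p.2.1.map S.σ)ᵀ))
      one_smul m := by change Multiplicative.ofAdd _ = _; simp
      mul_smul p r m := by
        change Multiplicative.ofAdd _ = Multiplicative.ofAdd (p.1 • (p.2.1 * (r.1 • (r.2.1 * m.toAdd * (r.2.1.map S.σ)ᵀ)) * _))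
        simp [Matrix.map_mul, mul_smul, mul_assoc]
      smul_mul p m n := by
        change Multiplicative.ofAdd _ = Multiplicative.ofAdd (p.1 • (p.2.1 * m.toAdd * _) + p.1 • (p.2.1 * n.toAdd * _))
        simp [mul_add, add_mul]
      smul_one p := by change Multiplicative.ofAdd _ = _; simp }
  MulDistribMulAction.toMulAut _ _

theorem act_apply (ε : ℤˣ) (g : SL(2, F)) (m : Multiplicative (Matrix (Fin 2) (Fin 2) F)) :
    (S.act (ε, g) m).toAdd = ε • (g.1 * m.toAdd * (g.1.map S.σ)ᵀ) := rfl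

theorem act_neg_one : S.act (1, -1) = 1 := MulEquiv.ext fun m => Multiplicative.toAdd.injective (by
  rw [act_apply]; simp [Matrix.map_neg])

theorem sq_eq (g : Matrix (Fin 2) (Fin 2) F) (h : g.det = 1) : g * g = g.trace • g - 1 := by
  rw [det_fin_two] at h
  ext i j
  fin_cases i <;> fin_cases j <;> simp [Matrix.mul_apply, trace_fin_two] <;>
    first | linear_combination -h | ring

/-- The elements with a non-trivial fixed vector. -/
theorem of_fixed {ε : ℤˣ} {g : SL(2, F)} {m : Multiplicative (Matrix (Fin 2) (Fin 2) F)} (h : S.act (ε, g) m = m)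
    (h1 : m ≠ 1) : g ^ 2 = -1 ∨ ε = 1 ∧ (g ^ 3 = 1 ∨ g ^ 3 = -1) := by
  have h2 := (S.act_apply ε g m).symm.trans (congrArg Multiplicative.toAdd h)
  have h3 : m.toAdd ≠ 0 := h1
  have hd : ((g.1.map S.σ)ᵀ).det = 1 := by rw [det_transpose, ← RingHom.mapMatrix_apply, ← RingHom.map_det, g.2, map_one]
  have e2 := sq_eq _ hd
  rw [trace_transpose, show (g.1.map S.σ).trace = S.σ g.1.trace by simp [trace_fin_two]] at e2
  have e1 := sq_eq _ g.2
  generalize (g.1.map S.σ)ᵀ = k at h2 hd e2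
  generalize m.toAdd = n at h2 h3
  have hε : ((ε : ℤ) : F) * (ε : ℤ) = 1 := by rw [← Int.cast_mul, ← Units.val_mul, Int.units_mul_self]; simp
  rw [Units.smul_def, ← Int.cast_smul_eq_zsmul F] at h2
  have e3 : (S.σ g.1.trace - ((ε : ℤ) : F) * g.1.trace) • (n * k) = 0 := by
    have e5 : g.1 * n * k = ((ε : ℤ) : F) • n := by nth_rw 2 [← h2]; rw [smul_smul, hε, one_smul]
    have e4 : g.1 * g.1 * n * (k * k) = n := by
      calc _ = g.1 * (g.1 * n * k) * k := by simp only [mul_assoc]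
        _ = _ := by rw [e5, Matrix.mul_smul, Matrix.smul_mul, h2]
    rw [e1, sub_mul, sub_mul, Matrix.smul_mul, Matrix.smul_mul, ← mul_assoc _ k, e5, one_mul, e2, mul_sub, mul_one,
      Matrix.mul_smul, Matrix.smul_mul, smul_smul] at e4
    rw [sub_smul, mul_comm]
    linear_combination (norm := module) -e4
  have e4 : S.σ g.1.trace = ((ε : ℤ) : F) * g.1.trace := sub_eq_zero.1 ((smul_eq_zero.1 e3).resolve_right fun e =>
    h3 (((isUnit_iff_isUnit_det k).2 (hd ▸ isUnit_one)).mul_left_eq_zero.1 e))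
  have e5 : g.1.trace ^ 3 = g.1.trace := by rw [← S.σσ, e4, map_mul, map_intCast, e4, ← mul_assoc, hε, one_mul]
  have e6 : g.1 ^ 3 = (g.1.trace ^ 2 - 1) • g.1 - g.1.trace • 1 := by
    rw [pow_succ, sq, e1, sub_mul, Matrix.smul_mul, e1, one_mul]; module
  by_cases h0 : g.1.trace = 0
  · exact Or.inl (Subtype.ext (by simp [sq, e1, h0]))
  have e7 : g.1.trace ^ 2 = 1 := mul_left_cancel₀ h0 (by linear_combination e5)
  rw [e7, sub_self, zero_smul, zero_sub] at e6
  refine Or.inr ⟨(Int.units_eq_one_or ε).resolve_right ?_, ?_⟩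
  · rintro rfl
    rcases sq_eq_one_iff.1 e7 with e | e <;> simp [e] at e4
    exacts [S.neg_one_ne_one (Units.ext e4.symm), S.neg_one_ne_one (Units.ext e4)]
  · exact (sq_eq_one_iff.1 e7).symm.imp (fun e => Subtype.ext (by simpa [e] using e6)) fun e => Subtype.ext (by simpa [e] using e6)

end Tw

namespace Model

variable {G : Type*} [Group G] {F : Type*} [Field F] [Finite F] (M : Model G F)

/-- The map `{±1} × SL₂(F) → C(h₀)`. -/
noncomputable def cov : ℤˣ × SL(2, F) →* G :=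
  MonoidHom.noncommCoprod (M.D.comp (Units.map (Int.castRingHom F : ℤ →* F))) M.φ fun ε g => by
    rcases Int.units_eq_one_or ε with rfl | rfl
    · simp
    · simpa [h₀, commute_iff_eq] using M.h₀_mul_φ g

theorem cov_one (g : SL(2, F)) : M.cov (1, g) = M.φ g := by simp [cov]
theorem cov_neg_one (g : SL(2, F)) : M.cov (-1, g) = M.h₀ * M.φ g := by simp [cov, h₀]

theorem C_le_range : centralizer {M.h₀} ≤ M.cov.range := fun _ h => (M.mem_C_iff.1 h).elim fun g h =>
  h.elim (fun e => ⟨_, (M.cov_one g).trans e.symm⟩) fun e => ⟨_, (M.cov_neg_one g).trans e.symm⟩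

/-- The action of `C(h₀)` on the 4-dimensional module. -/
noncomputable def act : M.cov.range →* MulAut (Multiplicative (Matrix (Fin 2) (Fin 2) F)) :=
  M.cov.rangeRestrict.liftOfSurjective M.cov.rangeRestrict_surjective ⟨M.toTw.act, fun ⟨ε, g⟩ h => by
    have h := congrArg Subtype.val h
    rcases Int.units_eq_one_or ε with rfl | rfl
    · rcases M.φ_eq_one_iff.1 ((M.cov_one g).symm.trans h) with rfl | rfl
      exacts [map_one _, M.toTw.act_neg_one]
    · exact absurd ((mul_mem_cancel_right (M.φ_mem_L g)).1 ((M.cov_neg_one g).symm.trans h ▸ one_mem _)) M.h₀_not_mem_L⟩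

theorem act_cov (p : ℤˣ × SL(2, F)) : M.act (M.cov.rangeRestrict p) = M.toTw.act p :=
  MonoidHom.liftOfRightInverse_comp_apply ..

/-- The extension of the 4-dimensional module by `C(h₀)`. -/
abbrev X : Type _ := Multiplicative (Matrix (Fin 2) (Fin 2) F) ⋊[M.act] M.cov.range

theorem inl_cube (m : Multiplicative (Matrix (Fin 2) (Fin 2) F)) : (SemidirectProduct.inl m : M.X) ^ 3 = 1 := by
  rw [← map_pow, show m ^ 3 = 1 from Multiplicative.toAdd.injective ?_, map_one]
  rw [toAdd_pow, ← Nat.cast_smul_eq_nsmul F, Nat.cast_ofNat, M.toTw.three, zero_smul, toAdd_one]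

theorem spec_X_subset : Spec M.X ⊆ Spec G := by
  have := M.finite
  rintro _ ⟨x, rfl⟩
  have key : ∀ n, x.right ^ n = 1 → ∃ m, x ^ n = .inl m := fun n h =>
    ⟨(x ^ n).left, by rw [← SemidirectProduct.inl_left_mul_inr_right (x ^ n), ← SemidirectProduct.rightHom_eq_right, map_pow,
      SemidirectProduct.rightHom_eq_right, h, map_one, mul_one]; rfl⟩
  obtain ⟨m, hm⟩ := key _ (pow_orderOf_eq_one _)
  by_cases h1 : m = 1
  · exact mem_spec_of_dvd_orderOf (x.right : G) (orderOf_dvd_of_pow_eq_one (by rw [orderOf_coe, hm, h1, map_one]))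
  obtain ⟨⟨ε, g⟩, hg⟩ := M.cov.rangeRestrict_surjective x.right
  have h2 : M.toTw.act (ε, g) m = m := by
    have := congrArg SemidirectProduct.left (hm ▸ (Commute.self_pow x _).eq)
    simpa [← hg, act_cov, mul_comm m] using this
  have key2 : ∀ n, M.cov ((ε, g) ^ n) = 1 → x ^ (n * 3) = 1 := fun n h => by
    obtain ⟨m, hm⟩ := key n (by rw [← hg, ← map_pow]; exact Subtype.ext h)
    rw [pow_mul, hm, inl_cube]
  rcases M.toTw.of_fixed h2 h1 with h | ⟨rfl, h⟩
  · exact mem_spec_of_dvd_orderOf _ ((orderOf_dvd_of_pow_eq_one (key2 2 (by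
      rw [Prod.pow_mk, Int.units_sq, h, cov_one, φ_neg_one]))).trans (M.orderOf_Th₀ (a := 0) (b := 1) (c := 0) (by simp)).symm.dvd)
  · exact mem_spec_of_dvd_orderOf _ ((orderOf_dvd_of_pow_eq_one (key2 3 (by
      rw [Prod.pow_mk, one_pow, cov_one, M.φ_eq_one_iff.2 h]))).trans (M.orderOf_T one_ne_zero 0 0).symm.dvd)

theorem orderOf_mem_spec_X {g : G} (h : g ∈ centralizer {M.h₀}) : orderOf g ∈ Spec M.X :=
  spec_subset_of_injective _ SemidirectProduct.inr_injective ⟨⟨g, M.C_le_range h⟩, orderOf_mk ..⟩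

theorem nine_mem_spec_X : 9 ∈ Spec M.X := by
  have h3 := M.toTw.three
  have h : (⟨.ofAdd !![0, 0; 0, 1], M.cov.rangeRestrict (1, up 1)⟩ : M.X) ^ 3 = .inl (.ofAdd !![-1, 0; 0, 0]) := by
    refine SemidirectProduct.ext (Multiplicative.toAdd.injective ?_) (Subtype.ext ?_)
    · simp only [pow_succ', pow_zero, mul_one, SemidirectProduct.mul_left, act_cov, toAdd_mul, Tw.act_apply, toAdd_ofAdd,
        SemidirectProduct.left_inl]
      ext i j
      fin_cases i <;> fin_cases j <;> simp [Matrix.mul_apply, up_00, up_01, up_10, up_11] <;>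
        first | linear_combination h3 | linear_combination 2 * h3
    · rw [← SemidirectProduct.rightHom_eq_right, map_pow]
      exact ((congrArg (· ^ 3) ((M.cov_one _).trans (M.φ_up 1))).trans (M.T_zero_cube 1 0) :)
  refine ⟨_, orderOf_eq_prime_pow (p := 3) (n := 1) (fun e => ?_) (by rw [pow_succ, pow_mul, pow_one, h, inl_cube])⟩
  rw [pow_one, h] at e
  simpa using congrArg (fun x : M.X => x.left.toAdd 0 0) e

theorem spec_cube {m : ℕ} (hm : 1 ≤ m) (hq : Nat.card F = 3 ^ (2 * m + 1)) : Spec (G × G × M.X) = Spec (G × G × G) := by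
  have := M.finite
  have : Finite M.X := Finite.of_equiv _ SemidirectProduct.equivProd.symm
  have key : ∀ a ∈ Spec G, a ∈ Spec M.X ∨ a ∣ 3 ^ (2 * m + 1) - 3 ^ (m + 1) + 1 ∨ a ∣ 3 ^ (2 * m + 1) + 3 ^ (m + 1) + 1 := by
    intro a ha
    have key2 : ∀ {Y : Subgroup G}, IsCyclic Y → Y ≤ centralizer {M.h₀} → a ∣ Nat.card Y → a ∈ Spec M.X := fun h1 h2 h3 =>
      (exists_orderOf_eq h1 h3).elim fun _ h => h.2 ▸ M.orderOf_mem_spec_X (h2 h.1)
    rcases (M.exists_orderOf_iff hm hq a).1 ha with h | h | h | h | h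
    · exact Or.inl (mem_spec_of_dvd (M.orderOf_Th₀ (a := 0) (b := 1) (c := 0) (by simp) ▸
        M.orderOf_mem_spec_X (mul_mem (M.T_mem_C 1) M.h₀_mem_C)) h)
    · exact Or.inl (mem_spec_of_dvd M.nine_mem_spec_X h)
    · exact Or.inl (key2 M.isCyclic_H (by rintro _ ⟨k, rfl⟩; exact M.D_mem_C k) (by rwa [card_H, hq]))
    · exact Or.inl (key2 M.isCyclic_A M.A_le_C (by have := M.card_A; rwa [show Nat.card M.A = (3 ^ (2 * m + 1) + 1) / 2 by omega]))
    · exact Or.inr h
  have mk : ∀ a ∈ Spec G, ∀ b ∈ Spec G, ∀ c ∈ Spec M.X, a.lcm (b.lcm c) ∈ Spec (G × G × M.X) := fun a ha b hb c hc =>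
    mem_spec_prod_iff.2 ⟨a, ha, _, mem_spec_prod_iff.2 ⟨b, hb, c, hc, rfl⟩, rfl⟩
  have mk1 : ∀ a b c : ℕ, a ∈ Spec G → (b ∣ 3 ^ (2 * m + 1) - 3 ^ (m + 1) + 1 ∧ c ∣ 3 ^ (2 * m + 1) - 3 ^ (m + 1) + 1 ∨
      b ∣ 3 ^ (2 * m + 1) + 3 ^ (m + 1) + 1 ∧ c ∣ 3 ^ (2 * m + 1) + 3 ^ (m + 1) + 1) → a.lcm (b.lcm c) ∈ Spec (G × G × M.X) :=
    fun a b c ha h => by
      simpa using mk a ha (b.lcm c) ((M.exists_orderOf_iff hm hq _).2 (by simp only [Nat.lcm_dvd_iff]; tauto)) 1 one_mem_spec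
  refine Set.Subset.antisymm (fun n hn => ?_) fun n hn => ?_
  · obtain ⟨a, ha, _, hn', rfl⟩ := mem_spec_prod_iff.1 hn
    obtain ⟨b, hb, c, hc, rfl⟩ := mem_spec_prod_iff.1 hn'
    exact mem_spec_prod_iff.2 ⟨a, ha, _, mem_spec_prod_iff.2 ⟨b, hb, c, M.spec_X_subset hc, rfl⟩, rfl⟩
  obtain ⟨a, ha, _, hn', rfl⟩ := mem_spec_prod_iff.1 hn
  obtain ⟨b, hb, c, hc, rfl⟩ := mem_spec_prod_iff.1 hn'
  have e1 : a.lcm (b.lcm c) = a.lcm (c.lcm b) := by rw [Nat.lcm_comm b]
  have e2 : a.lcm (b.lcm c) = b.lcm (c.lcm a) := by rw [Nat.lcm_comm a, Nat.lcm_assoc]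
  have e3 : a.lcm (b.lcm c) = c.lcm (a.lcm b) := by rw [Nat.lcm_comm c, Nat.lcm_assoc]
  rcases key c hc with h3 | h3
  · exact mk a ha b hb c h3
  rcases key b hb with h2 | h2
  · exact e1 ▸ mk a ha c hc b h2
  rcases key a ha with h1 | h1
  · exact e2 ▸ mk b hb c hc a h1
  rcases h1 with h1 | h1 <;> rcases h2 with h2 | h2 <;> rcases h3 with h3 | h3 <;>
    first | exact mk1 a b c ha (by tauto) | exact e2 ▸ mk1 b c a hb (by tauto) | exact e3 ▸ mk1 c a b hc (by tauto)

include M in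
theorem exists_large_spec_cube {m : ℕ} (hm : 1 ≤ m) (hq : Nat.card F = 3 ^ (2 * m + 1)) (N : ℕ) :
    ∃ (H : Type) (_ : Group H) (_ : Fintype H), N < Fintype.card H ∧ Spec H = Spec (G × G × G) := by
  have := M.finite
  have : Finite M.X := Finite.of_equiv _ SemidirectProduct.equivProd.symm
  have key : ∀ x : G × G × M.X, x ∈ ((MonoidHom.id G).prodMap ((MonoidHom.id G).prodMap SemidirectProduct.rightHom)).ker →
      x = (1, 1, .inl x.2.2.left) := fun ⟨a, b, c⟩ h => by
    simp only [MonoidHom.mem_ker, MonoidHom.coe_prodMap, Prod.map, MonoidHom.id_apply, Prod.mk_eq_one] at h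
    exact Prod.ext h.1 (Prod.ext h.2.1 (SemidirectProduct.ext rfl h.2.2))
  refine exists_large_spec_of_eq ((MonoidHom.id G).prodMap ((MonoidHom.id G).prodMap SemidirectProduct.rightHom)).ker
    (ne_bot_iff_exists_ne_one.2 ⟨⟨(1, 1, .inl (.ofAdd 1)), by simp [MonoidHom.mem_ker]⟩, fun e => ?_⟩)
    (Group.isSolvable_of_comm fun x y => Subtype.ext ?_) (M.spec_cube hm hq) N
  · simpa using congrArg (fun x => x.1.2.2.left.toAdd) e
  · rw [coe_mul, coe_mul, key _ x.2, key _ y.2]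
    simp [← map_mul, mul_comm]

end Model

end CL.Chev.Ree
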