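/-
Suzuki groups: class multiplication constants.  For `x` of order greater than two and `g ≠ 1` the number of pairs of
conjugates of `x` with product `g` is bounded below.
-/
import Cfsg.Agent.Chev.SzChar3

set_option autoImplicit false

namespace CL.Chev.Sz

open Subgroup Cfsg CL.Char
open scoped ComplexConjugate

theorem re_sum_ge {ι : Type*} (s : Finset ι) (u v : ι → ℂ) {β E d : ℝ} {D : ℂ} (hD : D = d) (hd : 0 < d) (hβ : 0 ≤ β)
    (hu : ∀ i ∈ s, conj (u i) = u i) (hv : ∀ i ∈ s, -β ≤ (v i).re) (hE : ∑ i ∈ s, ‖u i‖ ^ 2 ≤ E) :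
    -(β * E * d⁻¹) ≤ (∑ i ∈ s, u i * u i * conj (v i) / D).re := by
  rw [← Finset.sum_div, hD, Complex.div_ofReal_re, div_eq_mul_inv, ← neg_mul]
  refine mul_le_mul_of_nonneg_right ?_ (inv_nonneg.2 hd.le)
  rw [Complex.re_sum]
  calc -(β * E) ≤ -(β * ∑ i ∈ s, ‖u i‖ ^ 2) := neg_le_neg (mul_le_mul_of_nonneg_left hE hβ)
    _ = ∑ i ∈ s, ‖u i‖ ^ 2 * -β := by rw [← Finset.sum_mul]; ring
    _ ≤ _ := by
      refine Finset.sum_le_sum fun i hi => ?_
      have : u i * u i = ((‖u i‖ ^ 2 : ℝ) : ℂ) := by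
        nth_rw 2 [← hu i hi]
        rw [Complex.mul_conj, Complex.normSq_eq_norm_sq]
      rw [this, Complex.re_ofReal_mul, Complex.conj_re]
      exact mul_le_mul_of_nonneg_left (hv i hi) (by positivity)

theorem neg_le_re_of_norm_le {z : ℂ} {β : ℝ} (h : ‖z‖ ≤ β) : -β ≤ z.re :=
  (neg_le_neg h).trans (abs_le.1 (Complex.abs_re_le_norm z)).1

theorem numeric_bounds {t : ℝ} (ht : 2 ≤ t) :
    ((2 * t ^ 2) ^ 2)⁻¹ ≤ 1 / 64 ∧ t ^ 2 * (t * (2 * t ^ 2 - 1))⁻¹ ≤ 2 / 7 ∧ t * (t * (2 * t ^ 2 - 1))⁻¹ ≤ 1 / 7 ∧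
    (t * (2 * t ^ 2 - 1))⁻¹ ≤ 1 / 14 ∧ (2 * t ^ 2 - 2) * ((2 * t ^ 2) ^ 2 + 1)⁻¹ ≤ 6 / 65 ∧
    (2 * t ^ 2 + 2 * t) * ((2 * t ^ 2 - 2 * t + 1) * (2 * t ^ 2 - 1))⁻¹ ≤ 12 / 35 ∧
    4 * (2 * t ^ 2 + 2 * t - 3) * ((2 * t ^ 2 - 2 * t + 1) * (2 * t ^ 2 - 1))⁻¹ -
      2 * (t * (2 * t ^ 2 - 1))⁻¹ ≤ 9 / 10 ∧
    (2 * t + 1) * (2 * t ^ 2 - 2 * t) * ((2 * t ^ 2 + 2 * t + 1) * (2 * t ^ 2 - 1))⁻¹ ≤ 1 / 4 ∧
    (2 * t ^ 2 - 2 * t) * ((2 * t ^ 2 + 2 * t + 1) * (2 * t ^ 2 - 1))⁻¹ ≤ 1 / 20 := by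
  obtain ⟨u, hu, rfl⟩ : ∃ u : ℝ, 0 ≤ u ∧ t = u + 2 := ⟨t - 2, by linarith, by ring⟩
  have p1 : 0 < 2 * (u + 2) ^ 2 - 1 := by nlinarith
  have p2 : 0 < 2 * (u + 2) ^ 2 - 2 * (u + 2) + 1 := by nlinarith
  refine ⟨?_, ?_, ?_, ?_, ?_, ?_, ?_, ?_, ?_⟩
  · rw [inv_eq_one_div, div_le_div_iff₀ (by positivity) (by positivity), ← sub_nonneg]; ring_nf; positivity
  · rw [← div_eq_mul_inv, div_le_div_iff₀ (by positivity) (by positivity), ← sub_nonneg]; ring_nf; positivity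
  · rw [← div_eq_mul_inv, div_le_div_iff₀ (by positivity) (by positivity), ← sub_nonneg]; ring_nf; positivity
  · rw [inv_eq_one_div, div_le_div_iff₀ (by positivity) (by positivity), ← sub_nonneg]; ring_nf; positivity
  · rw [← div_eq_mul_inv, div_le_div_iff₀ (by positivity) (by positivity), ← sub_nonneg]; ring_nf; positivity
  · rw [← div_eq_mul_inv, div_le_div_iff₀ (by positivity) (by positivity), ← sub_nonneg]; ring_nf; positivity
  · rw [← div_eq_mul_inv, ← div_eq_mul_inv, div_sub_div _ _ (by positivity) (by positivity),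
      div_le_div_iff₀ (by positivity) (by positivity), ← sub_nonneg]; ring_nf; positivity
  · rw [← div_eq_mul_inv, div_le_div_iff₀ (by positivity) (by positivity), ← sub_nonneg]; ring_nf; positivity
  · rw [← div_eq_mul_inv, div_le_div_iff₀ (by positivity) (by positivity), ← sub_nonneg]; ring_nf; positivity

/-- The character sum giving the number of ways to write `g` as a product of two conjugates of `x`. -/
noncomputable def sqSum {G : Type*} [Group G] [Finite G] (x g : G) : ℂ :=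
  ∑ χ : IrrCharacter G, (χ : G → ℂ) x * (χ : G → ℂ) x * conj ((χ : G → ℂ) g) / (χ : G → ℂ) 1

theorem card_pairs_eq {G : Type*} [Group G] [Finite G] (x g : G) :
    (Nat.card {p : G × G // IsConj x p.1 ∧ IsConj x p.2 ∧ p.1 * p.2 = g} : ℝ) *
      (Nat.card (centralizer ({x} : Set G)) : ℝ) ^ 2 = Nat.card G * (sqSum x g).re := by
  have h := classAlg_card_pairs x x g
  have h2 := card_isConj_mul_card_centralizer x
  have hG : (Nat.card G : ℂ) ≠ 0 := natCard_ne_zero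
  have h3 : (Nat.card {p : G × G // IsConj x p.1 ∧ IsConj x p.2 ∧ p.1 * p.2 = g} : ℂ) *
      (Nat.card (centralizer ({x} : Set G)) : ℂ) ^ 2 = Nat.card G * sqSum x g := by
    have h2' : (Nat.card {y : G // IsConj x y} : ℂ) * Nat.card (centralizer ({x} : Set G)) = Nat.card G := by
      exact_mod_cast h2
    rw [h, ← sqSum]
    field_simp
    rw [← h2']; ring
  have := congrArg Complex.re h3
  rw [← Complex.ofReal_natCast, ← Complex.ofReal_natCast, ← Complex.ofReal_natCast, ← Complex.ofReal_pow,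
    ← Complex.ofReal_mul, Complex.ofReal_re, Complex.re_ofReal_mul] at this
  exact this

namespace CDat
variable {G : Type*} [Group G] {F : Type*} [Field F] [Finite F] {M : Model G F} {m : ℕ} (C : CDat M m) [Fintype G]

theorem conj_X (lam : M.H →* ℂˣ) (g : G) : conj (C.X lam g) = C.X lam g := by
  rw [X]
  rcases C.cases g with h | h | h | h | h | h | h
  · subst h; simp [C.row_one, map_ofNat]
  · simp [C.row_two h]
  · simp [C.row_ρ h]
  · simp [C.row_ρ' h]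
  · rw [C.row_H h, conj_linInd (fun _ => M.isConj_inv_of_mem_H) _ h]
  · simp [C.row_A h]
  · simp [C.row_A' h]

theorem conj_Y (lam : C.A →* ℂˣ) (g : G) : conj (C.Y lam g) = C.Y lam g := by
  rw [Y]
  rcases C.cases g with h | h | h | h | h | h | h
  · subst h; simp [C.row_one, map_ofNat]
  · simp [C.row_two h, map_ofNat]
  · simp [C.row_ρ h]
  · simp [C.row_ρ' h]
  · simp [C.row_H h]
  · rw [C.row_A h, Pi.neg_apply, map_neg, conj_linInd C.realA _ h]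
  · simp [C.row_A' h]

theorem conj_Zc (lam : C.A' →* ℂˣ) (g : G) : conj (C.Zc lam g) = C.Zc lam g := by
  rw [Zc]
  rcases C.cases g with h | h | h | h | h | h | h
  · subst h; simp [C.row_one, map_ofNat]
  · simp [C.row_two h, map_ofNat]
  · simp [C.row_ρ h]
  · simp [C.row_ρ' h]
  · simp [C.row_H h]
  · simp [C.row_A h]
  · rw [C.row_A' h, Pi.neg_apply, map_neg, conj_linInd C.realA' _ h]

omit [Fintype G] in
include C in
theorem card_centralizer_of_cjInto {K : Subgroup G} (hK : IsTorus m K) {g : G} (h : g ∈ cjInto K) :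
    Nat.card (centralizer ({g} : Set G)) = Nat.card K := by
  obtain ⟨h1, x, hx⟩ := h
  rw [← card_centralizer_conj x g, M.torus_centralizer C.hm C.hq hK hx (conj_ne_one h1 x)]

omit [Finite F] [Fintype G] in
include C in
theorem two_le_t : (2 : ℝ) ≤ 2 ^ m := by
  simpa using pow_le_pow_right₀ (by norm_num : (1 : ℝ) ≤ 2) C.hm

theorem sum_norm_sq_eq {ι : Type*} (s : Finset ι) (u : ι → ℂ) :
    ∑ i ∈ s, u i * conj (u i) = ((∑ i ∈ s, ‖u i‖ ^ 2 : ℝ) : ℂ) := by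
  push_cast
  exact Finset.sum_congr rfl fun i _ => by rw [Complex.mul_conj, Complex.normSq_eq_norm_sq]; push_cast; rfl

theorem energy_Y {x : G} (h : x ∈ cjInto C.A) :
    ∑ lam ∈ nz C.A, ‖C.Y lam x‖ ^ 2 = 4 * (2 * (2 ^ m) ^ 2 + 2 * 2 ^ m - 3) := by
  have k := C.sum_irr fun χ => χ x * conj (χ x)
  rw [sum_irr_mul_conj_self, C.card_centralizer_of_cjInto C.tA h, C.cA, sum_norm_sq_eq (nz C.A)] at k
  simp only [St, W, X, Zc, C.row_A h, map_one, map_neg, map_zero, mul_zero, Finset.sum_const_zero] at k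
  apply Complex.ofReal_injective
  push_cast at k ⊢
  linear_combination -4 * k

theorem energy_Zc {x : G} (h : x ∈ cjInto C.A') :
    ∑ lam ∈ nz C.A', ‖C.Zc lam x‖ ^ 2 = 4 * (2 * (2 ^ m) ^ 2 - 2 * 2 ^ m - 3) := by
  have k := C.sum_irr fun χ => χ x * conj (χ x)
  rw [sum_irr_mul_conj_self, C.card_centralizer_of_cjInto C.tA' h, C.cA', sum_norm_sq_eq (nz C.A')] at k
  simp only [St, W, X, Y, C.row_A' h, map_one, map_neg, map_zero, mul_zero, Finset.sum_const_zero] at k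
  apply Complex.ofReal_injective
  push_cast at k ⊢
  linear_combination -4 * k

include C in
theorem norm_linInd_H (lam : M.H →* ℂˣ) {g : G} (h : g ∈ cjInto M.H) : ‖linInd M.H lam g‖ ≤ 2 := by
  have := norm_linInd_le M.ticc_H lam h
  have h0 : (Nat.card M.H : ℝ) ≠ 0 := Nat.cast_ne_zero.2 Nat.card_pos.ne'
  rwa [C.cNH, ← C.cH, mul_div_cancel_right₀ _ h0] at this

theorem norm_linInd_A (lam : C.A →* ℂˣ) {g : G} (h : g ∈ cjInto C.A) : ‖linInd C.A lam g‖ ≤ 4 := by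
  have := norm_linInd_le C.ticcA lam h
  have h0 : (Nat.card C.A : ℝ) ≠ 0 := Nat.cast_ne_zero.2 Nat.card_pos.ne'
  rwa [C.cNA, ← C.cA, mul_div_cancel_right₀ _ h0] at this

theorem norm_linInd_A' (lam : C.A' →* ℂˣ) {g : G} (h : g ∈ cjInto C.A') : ‖linInd C.A' lam g‖ ≤ 4 := by
  have := norm_linInd_le C.ticcA' lam h
  have h0 : (Nat.card C.A' : ℝ) ≠ 0 := Nat.cast_ne_zero.2 Nat.card_pos.ne'
  rwa [C.cNA', ← C.cA', mul_div_cancel_right₀ _ h0] at this

/-- The values at `x` that enter the estimate. -/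
structure XDat (x : G) (a c EX EY EZ : ℝ) : Prop where
  st : C.St x * C.St x = a
  w : C.W 1 x * C.W 1 x = c
  w' : C.W (-1) x * C.W (-1) x = c
  ex : ∑ lam ∈ nz M.H, ‖C.X lam x‖ ^ 2 ≤ EX
  ey : ∑ lam ∈ nz C.A, ‖C.Y lam x‖ ^ 2 ≤ EY
  ez : ∑ lam ∈ nz C.A', ‖C.Zc lam x‖ ^ 2 ≤ EZ

/-- The values at `g` that enter the estimate. -/
structure GDat (g : G) (b e βX βY βZ : ℝ) : Prop where
  st : C.St g = b
  w : C.W 1 g + C.W (-1) g = e
  hx : 0 ≤ βX
  hy : 0 ≤ βY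
  hz : 0 ≤ βZ
  bx : ∀ lam, -βX ≤ (C.X lam g).re
  bY : ∀ lam, -βY ≤ (C.Y lam g).re
  bz : ∀ lam, -βZ ≤ (C.Zc lam g).re

theorem core {x g : G} {a c EX EY EZ b e βX βY βZ t : ℝ} (ht : t = 2 ^ m) (hx : C.XDat x a c EX EY EZ)
    (hg : C.GDat g b e βX βY βZ) :
    1 + a * b * ((2 * t ^ 2) ^ 2)⁻¹ + c * e * (t * (2 * t ^ 2 - 1))⁻¹ - βX * EX * ((2 * t ^ 2) ^ 2 + 1)⁻¹ / 2 -
      βY * EY * ((2 * t ^ 2 - 2 * t + 1) * (2 * t ^ 2 - 1))⁻¹ / 4 -
      βZ * EZ * ((2 * t ^ 2 + 2 * t + 1) * (2 * t ^ 2 - 1))⁻¹ / 4 ≤ (sqSum x g).re := by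
  have h2 : 2 ≤ t := ht ▸ C.two_le_t
  have p1 : 0 < 2 * t ^ 2 - 1 := by nlinarith
  have p2 : 0 < 2 * t ^ 2 - 2 * t + 1 := by nlinarith
  have htc : (2 : ℂ) ^ m = t := by rw [ht]; push_cast; rfl
  have k := C.sum_irr fun χ => χ x * χ x * conj (χ g) / χ 1
  have kX := re_sum_ge (nz M.H) (fun lam => C.X lam x) (fun lam => C.X lam g) (D := (2 * (2 ^ m) ^ 2) ^ 2 + 1)
    (d := (2 * t ^ 2) ^ 2 + 1) (by rw [htc]; push_cast; rfl) (by positivity) hg.hx (fun lam _ => C.conj_X lam x)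
    (fun lam _ => hg.bx lam) hx.ex
  have kY := re_sum_ge (nz C.A) (fun lam => C.Y lam x) (fun lam => C.Y lam g)
    (D := (2 * (2 ^ m) ^ 2 - 2 * 2 ^ m + 1) * (2 * (2 ^ m) ^ 2 - 1))
    (d := (2 * t ^ 2 - 2 * t + 1) * (2 * t ^ 2 - 1)) (by rw [htc]; push_cast; rfl) (by positivity) hg.hy
    (fun lam _ => C.conj_Y lam x) (fun lam _ => hg.bY lam) hx.ey
  have kZ := re_sum_ge (nz C.A') (fun lam => C.Zc lam x) (fun lam => C.Zc lam g)
    (D := (2 * (2 ^ m) ^ 2 + 2 * 2 ^ m + 1) * (2 * (2 ^ m) ^ 2 - 1))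
    (d := (2 * t ^ 2 + 2 * t + 1) * (2 * t ^ 2 - 1)) (by rw [htc]; push_cast; rfl) (by positivity) hg.hz
    (fun lam _ => C.conj_Zc lam x) (fun lam _ => hg.bz lam) hx.ez
  have e1 : C.St 1 = ((2 * t ^ 2) ^ 2 : ℝ) := by rw [St, C.row_one, htc]; push_cast; rfl
  have e2 : ∀ e, C.W e 1 = (t * (2 * t ^ 2 - 1) : ℝ) := fun e => by rw [W, C.row_one, htc]; push_cast; rfl
  have e3 : ∀ lam, C.X lam 1 = (2 * (2 ^ m) ^ 2) ^ 2 + 1 := fun _ => C.row_one
  have e4 : ∀ lam, C.Y lam 1 = (2 * (2 ^ m) ^ 2 - 2 * 2 ^ m + 1) * (2 * (2 ^ m) ^ 2 - 1) := fun _ => C.row_one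
  have e5 : ∀ lam, C.Zc lam 1 = (2 * (2 ^ m) ^ 2 + 2 * 2 ^ m + 1) * (2 * (2 ^ m) ^ 2 - 1) := fun _ => C.row_one
  simp only [e1, e2, e3, e4, e5, hx.st, hx.w, hx.w', hg.st] at k
  have e6 : (1 : ℂ) * 1 * conj 1 / 1 + a * conj (b : ℂ) / ((2 * t ^ 2) ^ 2 : ℝ) +
      c * conj (C.W 1 g) / (t * (2 * t ^ 2 - 1) : ℝ) + c * conj (C.W (-1) g) / (t * (2 * t ^ 2 - 1) : ℝ) =
      ((1 + a * b * ((2 * t ^ 2) ^ 2)⁻¹ + c * e * (t * (2 * t ^ 2 - 1))⁻¹ : ℝ) : ℂ) := by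
    rw [add_assoc, ← add_div, ← mul_add, ← map_add, hg.w, Complex.conj_ofReal, Complex.conj_ofReal]
    push_cast
    simp [div_eq_mul_inv]
  rw [sqSum, k, e6]
  simp only [Complex.add_re, Complex.ofReal_re, Complex.div_ofNat_re]
  linarith

theorem xdat_four {x : G} (h : orderOf x = 4) :
    C.XDat x 0 (-(2 ^ m) ^ 2) (2 * (2 ^ m) ^ 2 - 2) (2 * (2 ^ m) ^ 2 + 2 * 2 ^ m) (2 * (2 ^ m) ^ 2 - 2 * 2 ^ m) := by
  have := Complex.I_sq
  refine ⟨by simp [St, C.row_four h], ?_, ?_, ?_, ?_, ?_⟩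
  · rcases M.isConj_or_of_orderOf_four C.ordρ h with h | h
    · rw [W, C.row_ρ h]; push_cast; linear_combination ((2 : ℂ) ^ m) ^ 2 * this
    · rw [W, C.row_ρ' h]; push_cast; linear_combination ((2 : ℂ) ^ m) ^ 2 * this
  · rcases M.isConj_or_of_orderOf_four C.ordρ h with h | h
    · rw [W, C.row_ρ h]; push_cast; linear_combination ((2 : ℂ) ^ m) ^ 2 * this
    · rw [W, C.row_ρ' h]; push_cast; linear_combination ((2 : ℂ) ^ m) ^ 2 * this
  · simp only [X, C.row_four h, norm_one, one_pow, Finset.sum_const, nsmul_eq_mul, cast_card_nz C.commH, C.cH]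
    linarith
  · simp only [Y, C.row_four h, norm_neg, norm_one, one_pow, Finset.sum_const, nsmul_eq_mul, cast_card_nz C.commA,
      C.cA]
    linarith
  · simp only [Zc, C.row_four h, norm_neg, norm_one, one_pow, Finset.sum_const, nsmul_eq_mul, cast_card_nz C.commA',
      C.cA']
    linarith

theorem xdat_H {x : G} (h : x ∈ cjInto M.H) : C.XDat x 1 0 (4 * (2 * (2 ^ m) ^ 2 - 2)) 0 0 := by
  refine ⟨by simp [St, C.row_H h], by simp [W, C.row_H h], by simp [W, C.row_H h], ?_, by simp [Y, C.row_H h],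
    by simp [Zc, C.row_H h]⟩
  refine (Finset.sum_le_sum (g := fun _ => (2 : ℝ) ^ 2) fun lam _ => ?_).trans ?_
  · rw [X, C.row_H h]
    exact pow_le_pow_left₀ (norm_nonneg _) (C.norm_linInd_H lam h) 2
  · simp only [Finset.sum_const, nsmul_eq_mul, cast_card_nz C.commH, C.cH]
    linarith

theorem xdat_A {x : G} (h : x ∈ cjInto C.A) : C.XDat x 1 1 0 (4 * (2 * (2 ^ m) ^ 2 + 2 * 2 ^ m - 3)) 0 :=
  ⟨by simp [St, C.row_A h], by simp [W, C.row_A h], by simp [W, C.row_A h], by simp [X, C.row_A h],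
    (C.energy_Y h).le, by simp [Zc, C.row_A h]⟩

theorem xdat_A' {x : G} (h : x ∈ cjInto C.A') : C.XDat x 1 1 0 0 (4 * (2 * (2 ^ m) ^ 2 - 2 * 2 ^ m - 3)) :=
  ⟨by simp [St, C.row_A' h], by simp [W, C.row_A' h], by simp [W, C.row_A' h], by simp [X, C.row_A' h],
    by simp [Y, C.row_A' h], (C.energy_Zc h).le⟩

omit [Finite F] in
theorem gdat_two {g : G} (h : orderOf g = 2) : C.GDat g 0 (-(2 * 2 ^ m)) 0 0 (2 * 2 ^ m + 1) := by
  have h2 := C.two_le_t
  refine ⟨by simp [St, C.row_two h], ?_, le_rfl, le_rfl, by positivity, fun _ => by simp [X, C.row_two h],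
    fun _ => ?_, fun _ => ?_⟩
  · simp only [W, C.row_two h]; push_cast; ring
  · rw [Y, C.row_two h, show (2 * 2 ^ m - 1 : ℂ) = ((2 * 2 ^ m - 1 : ℝ) : ℂ) by push_cast; rfl, Complex.ofReal_re]
    linarith
  · rw [Zc, C.row_two h, show (-(2 * 2 ^ m + 1) : ℂ) = ((-(2 * 2 ^ m + 1) : ℝ) : ℂ) by push_cast; rfl,
      Complex.ofReal_re]

theorem gdat_four {g : G} (h : orderOf g = 4) : C.GDat g 0 0 0 1 1 := by
  refine ⟨by simp [St, C.row_four h], ?_, le_rfl, zero_le_one, zero_le_one, fun _ => by simp [X, C.row_four h],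
    fun _ => by simp [Y, C.row_four h], fun _ => by simp [Zc, C.row_four h]⟩
  rcases M.isConj_or_of_orderOf_four C.ordρ h with h | h
  · simp [W, C.row_ρ h]
  · simp [W, C.row_ρ' h]

theorem gdat_H {g : G} (h : g ∈ cjInto M.H) : C.GDat g 1 0 2 0 0 :=
  ⟨by simp [St, C.row_H h], by simp [W, C.row_H h], zero_le_two, le_rfl, le_rfl,
    fun lam => by rw [X, C.row_H h]; exact neg_le_re_of_norm_le (C.norm_linInd_H lam h),
    fun _ => by simp [Y, C.row_H h], fun _ => by simp [Zc, C.row_H h]⟩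

theorem gdat_A {g : G} (h : g ∈ cjInto C.A) : C.GDat g (-1) 2 0 4 0 :=
  ⟨by simp [St, C.row_A h], by simp only [W, C.row_A h]; norm_num, le_rfl, by norm_num, le_rfl,
    fun _ => by simp [X, C.row_A h],
    fun lam => by
      rw [Y, C.row_A h]; exact neg_le_re_of_norm_le (by rw [Pi.neg_apply, norm_neg]; exact C.norm_linInd_A lam h),
    fun _ => by simp [Zc, C.row_A h]⟩

theorem gdat_A' {g : G} (h : g ∈ cjInto C.A') : C.GDat g (-1) (-2) 0 0 4 :=
  ⟨by simp [St, C.row_A' h], by simp only [W, C.row_A' h]; norm_num, le_rfl, le_rfl, by norm_num,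
    fun _ => by simp [X, C.row_A' h], fun _ => by simp [Y, C.row_A' h],
    fun lam => by
      rw [Zc, C.row_A' h]
      exact neg_le_re_of_norm_le (by rw [Pi.neg_apply, norm_neg]; exact C.norm_linInd_A' lam h)⟩

omit [Finite F] [Fintype G] in
theorem cases' (g : G) : g = 1 ∨ orderOf g = 2 ∨ orderOf g = 4 ∨ g ∈ cjInto M.H ∨ g ∈ cjInto C.A ∨
    g ∈ cjInto C.A' := by
  rcases C.cover g with h | h
  · rcases orderOf_cases_of_pow_four h with h | h | h <;> simp [h]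
  · simp [h]

include C in
theorem sqSum_ge {x g : G} (hx : 2 < orderOf x) (hg : g ≠ 1) :
    1 / 12 ≤ (sqSum x g).re ∧ (orderOf x = 4 → orderOf g = 4 → 3 / 4 ≤ (sqSum x g).re) := by
  obtain ⟨t, ht⟩ : ∃ t : ℝ, t = 2 ^ m := ⟨_, rfl⟩
  have h2 : 2 ≤ t := ht ▸ C.two_le_t
  obtain ⟨b1, b2, b3, b4, b5, b6, b7, b8, b9⟩ := numeric_bounds h2
  have p1 : 0 < 2 * t ^ 2 - 1 := by nlinarith
  have p2 : 0 < 2 * t ^ 2 - 2 * t + 1 := by nlinarith
  have q1 : 0 < ((2 * t ^ 2) ^ 2)⁻¹ := by positivity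
  have q2 : 0 < (t * (2 * t ^ 2 - 1))⁻¹ := by positivity
  have q4 : 0 < ((2 * t ^ 2 - 2 * t + 1) * (2 * t ^ 2 - 1))⁻¹ := by positivity
  have q5 : 0 < ((2 * t ^ 2 + 2 * t + 1) * (2 * t ^ 2 - 1))⁻¹ := by positivity
  have q6 : 0 < t ^ 3 * (t * (2 * t ^ 2 - 1))⁻¹ := by positivity
  have q7 : 0 < t ^ 2 * (t * (2 * t ^ 2 - 1))⁻¹ := by positivity
  have q8 : 0 < t * ((2 * t ^ 2 + 2 * t + 1) * (2 * t ^ 2 - 1))⁻¹ := by positivity
  refine ⟨?_, fun h h' => ?_⟩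
  · rcases C.cases' x with h | h | h | h | h | h
    · simp [h] at hx
    · omega
    all_goals
      first
        | have kx := C.xdat_four h
        | have kx := C.xdat_H h
        | have kx := C.xdat_A h
        | have kx := C.xdat_A' h
      rcases C.cases' g with h' | h' | h' | h' | h' | h'
      · exact absurd h' hg
      all_goals
        first
          | have kg := C.gdat_two h'
          | have kg := C.gdat_four h'
          | have kg := C.gdat_H h'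
          | have kg := C.gdat_A h'
          | have kg := C.gdat_A' h'
        have k := C.core ht kx kg
        rw [← ht] at k
        generalize ((2 * t ^ 2) ^ 2)⁻¹ = i1 at *
        generalize (t * (2 * t ^ 2 - 1))⁻¹ = i2 at *
        generalize ((2 * t ^ 2) ^ 2 + 1)⁻¹ = i3 at *
        generalize ((2 * t ^ 2 - 2 * t + 1) * (2 * t ^ 2 - 1))⁻¹ = i4 at *
        generalize ((2 * t ^ 2 + 2 * t + 1) * (2 * t ^ 2 - 1))⁻¹ = i5 at *
        linarith
  · have k := C.core ht (C.xdat_four h) (C.gdat_four h')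
    rw [← ht] at k
    linarith

end CDat

/-- Every non-identity element is a product of two conjugates of any element of order greater than two. -/
theorem Model.exists_mul_conj {G : Type*} [Group G] {F : Type*} [Field F] [Finite F] (M : Model G F) {m : ℕ}
    (hm : 1 ≤ m) (hq : Nat.card F = 2 ^ (2 * m + 1)) {x g : G} (hx : 2 < orderOf x) (hg : g ≠ 1) :
    ∃ u v : G, g = (u * x * u⁻¹) * (v * x * v⁻¹) := by
  have := M.finite
  have : Fintype G := Fintype.ofFinite G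
  obtain ⟨C⟩ := M.nonempty_cdat hm hq
  have h1 := (C.sqSum_ge hx hg).1
  have h2 := card_pairs_eq x g
  have h3 : (0 : ℝ) < Nat.card G := Nat.cast_pos.2 Nat.card_pos
  have h4 : Nat.card {p : G × G // IsConj x p.1 ∧ IsConj x p.2 ∧ p.1 * p.2 = g} ≠ 0 := fun e => by
    rw [e] at h2
    have : (0 : ℝ) < Nat.card G * (sqSum x g).re := mul_pos h3 (by linarith)
    rw [← h2, Nat.cast_zero, zero_mul] at this
    exact lt_irrefl _ this
  obtain ⟨⟨⟨a, b⟩, ha, hb, hab⟩⟩ := (Nat.card_ne_zero.1 h4).1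
  obtain ⟨u, rfl⟩ := isConj_iff.1 ha
  obtain ⟨v, rfl⟩ := isConj_iff.1 hb
  exact ⟨u, v, hab.symm⟩

end CL.Chev.Sz
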