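/-
Small Ree groups: squares of conjugacy classes, part 1.  General lemmas; every regular semisimple class contains a
product `w * D (±1) * T 0 0 c`.
-/
import Cfsg.Agent.Chev.ReeTr
import Cfsg.Agent.Chev.ReeTorus2
import Cfsg.Agent.Chev.SzChar5
import Cfsg.Agent.Char.GoodClass

set_option autoImplicit false

namespace CL.Chev.Ree

open Subgroup Cfsg CL.Char

theorem class_arith {q N g a b c d m n : ℕ} (hq : 3 < q) (hm : 1 ≤ m) (hn : 1 ≤ n) (e : m + n = 2 * q + 2)
    (c1 : 2 * a = q ^ 3 * ((q + 1) * N) * (q - 3)) (c2 : 6 * b = q ^ 3 * (q - 1) * N * (q - 3))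
    (c3 : c * (6 * m) = g * (m - 1)) (c4 : d * (6 * n) = g * (n - 1)) (c5 : g = q ^ 3 * (q - 1) * ((q + 1) * N)) :
    a * (q - 1) + b * (q + 1) + c * m + d * n = g * (q - 2) := by
  obtain ⟨r, rfl⟩ : ∃ r, q = r + 3 := ⟨q - 3, by omega⟩
  simp only [show r + 3 - 1 = r + 2 from rfl, show r + 3 - 2 = r + 1 from rfl, Nat.add_sub_cancel] at *
  zify [hm, hn] at *
  apply mul_left_cancel₀ (show (6 : ℤ) ≠ 0 by norm_num)
  rw [c5] at c3 c4 ⊢
  linear_combination (3 * (r + 2)) * c1 + (r + 4) * c2 + c3 + c4 + ((r + 3) ^ 3 * (r + 2) * ((r + 4) * N)) * e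

section Group

variable {G : Type*} [Group G]

/-- `g` is a product of two conjugates of `x`. -/
def Sq (x g : G) : Prop := ∃ y z, IsConj x y ∧ IsConj x z ∧ y * z = g

theorem isConj_conj (g x : G) : IsConj x (g * x * g⁻¹) := isConj_iff.2 ⟨g, rfl⟩

theorem Sq.conj {x g g' : G} (h : Sq x g) (hg : IsConj g g') : Sq x g' := by
  obtain ⟨y, z, h1, h2, rfl⟩ := h
  obtain ⟨c, rfl⟩ := isConj_iff.1 hg
  exact ⟨_, _, h1.trans (isConj_conj c y), h2.trans (isConj_conj c z), by group⟩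

theorem isConj_inv_inv {x y : G} (h : IsConj x y) : IsConj x⁻¹ y⁻¹ := by
  obtain ⟨c, rfl⟩ := isConj_iff.1 h
  exact isConj_iff.2 ⟨c, by group⟩

theorem Sq.inv {x g : G} (h : Sq x g) (hx : IsConj x x⁻¹) : Sq x g⁻¹ := by
  obtain ⟨y, z, h1, h2, rfl⟩ := h
  exact ⟨_, _, hx.trans (isConj_inv_inv h2), hx.trans (isConj_inv_inv h1), (mul_inv_rev _ _).symm⟩

theorem sq_mul_self {x s u : G} (hs : s * s = 1) (h : IsConj x (s * u)) : Sq x (u * u) :=
  ⟨u * s, s * u, h.trans (isConj_iff.2 ⟨u, by group⟩), h, by rw [mul_assoc, ← mul_assoc s, hs, one_mul]⟩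

theorem sq_of_degree [Finite G] {x g : G} {d : ℕ} (hd : ∀ χ : IrrCharacter G, (χ : G → ℂ) ≠ 1 → (d : ℝ) ≤ ‖(χ : G → ℂ) 1‖)
    (h : Nat.card (centralizer {x}) ^ 2 * Nat.card (centralizer {g}) < d ^ 2) : Sq x g := by
  classical
  obtain ⟨a, ha⟩ : ∃ a : ℝ, a = Nat.card (centralizer {x}) := ⟨_, rfl⟩
  obtain ⟨b, hb⟩ : ∃ b : ℝ, b = √(Nat.card (centralizer {g}) : ℕ) := ⟨_, rfl⟩
  have hd0 : (0 : ℝ) < d := by
    rcases Nat.eq_zero_or_pos d with rfl | h0
    · simp at h
    · exact_mod_cast h0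
  have hab : a * b < d := by
    refine lt_of_pow_lt_pow_left₀ 2 hd0.le ?_
    rw [mul_pow, hb, Real.sq_sqrt (Nat.cast_nonneg _), ha]
    exact_mod_cast h
  have hb0 : 0 ≤ b := hb ▸ Real.sqrt_nonneg _
  have h1 : ∀ χ : IrrCharacter G, ‖(χ : G → ℂ) g‖ ≤ b := fun χ => hb ▸ Real.le_sqrt_of_sq_le (by
    rw [← sum_irr_norm_sq g]
    exact Finset.single_le_sum (f := fun χ : IrrCharacter G => ‖(χ : G → ℂ) g‖ ^ 2) (fun _ _ => by positivity)
      (Finset.mem_univ χ))
  let o : IrrCharacter G := ⟨1, isIrrCharacter_one'⟩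
  have h2 : ‖∑ χ ∈ Finset.univ.erase o,
      (χ : G → ℂ) x * (χ : G → ℂ) x * (starRingEnd ℂ) ((χ : G → ℂ) g) / (χ : G → ℂ) 1‖ ≤ a * b / d := by
    refine (norm_sum_le _ _).trans ?_
    calc _ ≤ ∑ χ ∈ Finset.univ.erase o, ‖(χ : G → ℂ) x‖ ^ 2 * (b / d) := Finset.sum_le_sum fun χ hχ => by
          rw [norm_div, norm_mul, norm_mul, Complex.norm_conj, ← sq, mul_div_assoc]
          have := hd χ fun e => Finset.ne_of_mem_erase hχ (Subtype.ext e)
          gcongr
          exact h1 χ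
      _ ≤ ∑ χ : IrrCharacter G, ‖(χ : G → ℂ) x‖ ^ 2 * (b / d) :=
          Finset.sum_le_sum_of_subset_of_nonneg (Finset.erase_subset _ _) fun _ _ _ => by positivity
      _ = a * b / d := by rw [← Finset.sum_mul, sum_irr_norm_sq, mul_div_assoc, ha]
  have h3 : 0 < (Sz.sqSum x g).re := by
    rw [Sz.sqSum, ← Finset.add_sum_erase _ _ (Finset.mem_univ o), Complex.add_re]
    have := Sz.neg_le_re_of_norm_le h2
    have h4 : a * b / d < 1 := (div_lt_one hd0).2 hab
    simp only [o, Pi.one_apply, map_one, mul_one, div_one, Complex.one_re] at this ⊢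
    linarith
  have h4 := Sz.card_pairs_eq x g
  have h5 : Nat.card {p : G × G // IsConj x p.1 ∧ IsConj x p.2 ∧ p.1 * p.2 = g} ≠ 0 := fun e => by
    rw [e, Nat.cast_zero, zero_mul] at h4
    have : (0 : ℝ) < Nat.card G := by exact_mod_cast Nat.card_pos
    exact (mul_pos this h3).ne h4
  obtain ⟨⟨p, hp⟩⟩ := (Nat.card_ne_zero.1 h5).1
  exact ⟨p.1, p.2, hp⟩

omit [Group G] in
theorem sum_ite_ncard [Fintype G] (P : G → Prop) [DecidablePred P] (c : ℕ) :
    ∑ g, (if P g then c else 0) = {g | P g}.ncard * c := by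
  rw [← Finset.sum_filter, Finset.sum_const, smul_eq_mul, Set.ncard_eq_toFinset_card', Set.toFinset_ofPred]

/-- Elements of order greater than two and prime to three. -/
def Reg (x : G) : Prop := 2 < orderOf x ∧ ¬ 3 ∣ orderOf x

theorem Reg.conj {x y : G} (h : Reg x) (e : IsConj x y) : Reg y := by
  obtain ⟨c, rfl⟩ := isConj_iff.1 e
  have := orderOf_conj' c⁻¹ x
  rw [inv_inv] at this
  rwa [Reg, this]

theorem Reg.sq_ne {x : G} (h : Reg x) : x * x ≠ 1 := fun e =>
  h.1.not_ge (orderOf_le_of_pow_eq_one two_pos (by rw [sq, e]))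

end Group

namespace Model

variable {G : Type*} [Group G] {F : Type*} [Field F] (M : Model G F)

theorem trace_conj {x y : G} (h : IsConj x y) : (M.ρ x).trace = (M.ρ y).trace := by
  obtain ⟨c, rfl⟩ := isConj_iff.1 h
  rw [map_mul, Matrix.trace_mul_comm, ← map_mul, inv_mul_cancel_left]

variable [Finite F]

include M in
theorem pow_eighteen {y : G} (h : ¬ Reg y) : y ^ 18 = 1 := by
  have := M.finite
  by_cases h3 : 3 ∣ orderOf y
  · obtain ⟨g, hg⟩ := M.exists_mem_conj_B_of_three h3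
    rcases (M.conj g).mem_B_cases' hg with h | ⟨a, b, c, rfl⟩ | h
    · rw [show 18 = 9 * 2 from rfl, pow_mul, (M.conj g).pow_nine_of_mem_U h, one_pow]
    · rw [show 18 = 6 * 3 from rfl, pow_mul, Th₀_pow_six, one_pow]
    · have h1 := M.three_dvd_card_field
      have h2 := h3.trans h
      have h4 := M.three_le_card_field
      omega
  · have h1 : orderOf y ≤ 2 := not_lt.1 fun e => h ⟨e, h3⟩
    have h2 := orderOf_pos y
    refine orderOf_dvd_iff_pow_eq_one.1 ?_
    interval_cases orderOf y <;> norm_num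

theorem trace_of_not_reg {y : G} (h : ¬ Reg y) : (M.ρ y).trace = (M.ρ 1).trace ∨ (M.ρ y).trace = (M.ρ M.w).trace := by
  have := M.toTw.charP
  have := Fact.mk Nat.prime_three
  have h1 := M.pow_eighteen h
  have h2 : y ^ 9 * y ^ 9 = 1 := by rw [← pow_add, h1]
  have h3 : (M.ρ y).trace = (M.ρ (y ^ 9)).trace := by
    have h4 : IsNilpotent (M.ρ y - M.ρ (y ^ 9)) := ⟨3 ^ 2, by
      rw [sub_pow_char_pow_of_commute 3 2 (((Commute.refl y).pow_right 9).map M.ρ), ← map_pow, ← map_pow, ← pow_mul,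
        show 9 * 3 ^ 2 = 18 * 4 + 3 ^ 2 from rfl, pow_add, pow_mul, h1, one_pow, one_mul, sub_self]⟩
    rw [← sub_eq_zero, ← Matrix.trace_sub]
    exact (Matrix.isNilpotent_trace_of_isNilpotent h4).eq_zero
  rw [h3]
  by_cases h5 : y ^ 9 = 1
  · exact Or.inl (by rw [h5])
  · exact Or.inr (M.trace_conj ((M.isConj_h₀ h5 h2).symm.trans M.isConj_h₀_w))

include M in
/-- The centralizers of regular elements. -/
theorem exists_cent_bound (hF : 3 < Nat.card F) : ∃ (P : Fin 4 → G → Prop) (c : Fin 4 → ℕ),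
    (∀ g, Reg g → ∃ i, P i g ∧ Nat.card (centralizer {g}) ≤ c i) ∧ (∀ i, c i ≤ 2 * Nat.card F + 2) ∧
    ∑ i, {g | P i g}.ncard * c i = Nat.card G * (Nat.card F - 2) := by
  have := M.finite
  obtain ⟨X, -, hX, tX⟩ := M.exists_tor_H hF
  obtain ⟨Y, -, hY, tY⟩ := M.exists_tor_K hF
  obtain ⟨C₁, C₂, t1, t2, n1, n2, e1, e2⟩ := M.exists_two_classes hF
  refine ⟨![fun g => ¬ (orderOf g).Coprime ((Nat.card F - 1) / 2), fun g => ¬ (orderOf g).Coprime ((Nat.card F + 1) / 4),
    fun g => ¬ (orderOf g).Coprime (Nat.card C₁), fun g => ¬ (orderOf g).Coprime (Nat.card C₂)],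
    ![Nat.card F - 1, Nat.card F + 1, Nat.card C₁, Nat.card C₂], fun g hg => ?_, fun i => ?_, ?_⟩
  · rcases M.order_cases g with (h | h) | h | h | h
    · have h1 := Nat.le_of_dvd (by norm_num) h
      obtain ⟨h2, h3⟩ := hg
      interval_cases orderOf g <;> simp_all
    · have h1 := Nat.le_of_dvd (by norm_num) h
      obtain ⟨h2, h3⟩ := hg
      interval_cases orderOf g <;> simp_all
    · exact ⟨0, h, M.card_H ▸ Nat.le_of_dvd Nat.card_pos (tX.card_centralizer_dvd (hX ▸ h))⟩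
    · exact ⟨1, h, M.card_K ▸ Nat.le_of_dvd Nat.card_pos (tY.card_centralizer_dvd (hY ▸ h))⟩
    · rw [← e1, Nat.coprime_mul_iff_right, not_and_or] at h
      rcases h with h | h
      · exact ⟨2, h, Nat.le_of_dvd Nat.card_pos (t1.card_centralizer_dvd h)⟩
      · exact ⟨3, h, Nat.le_of_dvd Nat.card_pos (t2.card_centralizer_dvd h)⟩
  · fin_cases i <;> simp <;> omega
  · have c1 := M.count_H hF
    have c2 := M.count_K hF
    have c3 := t1.count_self
    have c4 := t2.count_self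
    have c5 := M.card_G
    have p1 : 1 ≤ Nat.card C₁ := Nat.card_pos
    have p2 : 1 ≤ Nat.card C₂ := Nat.card_pos
    rw [n1] at c3
    rw [n2] at c4
    simp only [Fin.sum_univ_four, Matrix.cons_val_zero, Matrix.cons_val_one, Matrix.cons_val]
    rw [cube_add_one (by omega)] at c1 c5
    exact class_arith hF p1 p2 e2 c1 c2 c3 c4 c5

theorem exists_rep (hF : 3 < Nat.card F) (hT : M.Tr) {x : G} (hx : Reg x) :
    ∃ (k : Fˣ) (c : F), (k = 1 ∨ k = -1) ∧ c ≠ 0 ∧ IsConj x (M.w * M.D k * M.T 0 0 c) := by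
  classical
  have := M.finite
  have := Fintype.ofFinite G
  have := Fintype.ofFinite F
  by_contra hn
  push Not at hn
  choose! k c hk hc ht using hT
  set T := (Finset.univ.erase (M.ρ M.w).trace).erase (M.ρ 1).trace with hT
  have hm : ∀ τ ∈ T, τ ≠ (M.ρ 1).trace ∧ τ ≠ (M.ρ M.w).trace := fun τ h => by simpa [hT] using h
  set S := insert (ConjClasses.mk x) (T.image fun τ => ConjClasses.mk (M.w * M.D (k τ) * M.T 0 0 (c τ))) with hS
  have h1 : Nat.card F - 1 ≤ S.card := by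
    rw [hS, Finset.card_insert_of_notMem, Finset.card_image_of_injOn]
    · have a1 := Finset.pred_card_le_card_erase (s := Finset.univ.erase (M.ρ M.w).trace) (a := (M.ρ 1).trace)
      rw [Finset.card_erase_of_mem (Finset.mem_univ _), Finset.card_univ, ← Nat.card_eq_fintype_card, ← hT] at a1
      omega
    · intro τ h1 τ' h2 e
      rw [← ht τ (hm τ h1).2, ← ht τ' (hm τ' h2).2]
      exact M.trace_conj (ConjClasses.mk_eq_mk_iff_isConj.1 e)
    · intro h
      obtain ⟨τ, h1, e⟩ := Finset.mem_image.1 h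
      exact hn _ _ (hk τ (hm τ h1).2) (hc τ (hm τ h1).2) (ConjClasses.mk_eq_mk_iff_isConj.1 e.symm)
  have h2 : ∀ g, ConjClasses.mk g ∈ S → Reg g := fun g h => by
    rcases Finset.mem_insert.1 h with e | h
    · exact hx.conj (ConjClasses.mk_eq_mk_iff_isConj.1 e.symm)
    · obtain ⟨τ, h1, e⟩ := Finset.mem_image.1 h
      by_contra hg
      have := M.trace_of_not_reg hg
      rw [← M.trace_conj (ConjClasses.mk_eq_mk_iff_isConj.1 e), ht τ (hm τ h1).2] at this
      exact this.elim (hm τ h1).1 (hm τ h1).2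
  obtain ⟨P, b, h3, -, h4⟩ := M.exists_cent_bound hF
  have h5 := good_sum_card_centralizer (G := G) (· ∈ S)
  rw [Nat.card_eq_fintype_card (α := {C // C ∈ S}), Fintype.card_coe, Finset.sum_filter] at h5
  have h6 : Nat.card G * S.card ≤ Nat.card G * (Nat.card F - 2) := by
    rw [← h5, ← h4]
    simp only [← sum_ite_ncard]
    rw [Finset.sum_comm]
    refine Finset.sum_le_sum fun g _ => ?_
    split_ifs with h
    · obtain ⟨i, h7, h8⟩ := h3 g (h2 g h)
      refine h8.trans (le_trans ?_ (Finset.single_le_sum (f := fun i => if P i g then b i else 0)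
        (fun _ _ => Nat.zero_le _) (Finset.mem_univ i)))
      simp [h7]
    · exact Nat.zero_le _
  have := Nat.le_of_mul_le_mul_left h6 Nat.card_pos
  omega

end Model

end CL.Chev.Ree
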