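/-
Small Ree groups: squares of conjugacy classes, part 2.  The square of a regular semisimple class contains every
non-identity element.
-/
import Cfsg.Agent.Chev.ReeSq1
import Cfsg.Agent.Chev.ReeDeg
import Cfsg.Agent.Char.Burnside

set_option autoImplicit false

namespace CL.Chev.Ree

open Subgroup Cfsg CL.Char

theorem card_le_of_subset_range {α β : Type*} [Finite α] {s : Set β} (f : α → β) (h : s ⊆ Set.range f) :
    Nat.card s ≤ Nat.card α :=
  (Nat.card_mono (Set.finite_range f) h).trans (Finite.card_range_le f)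

namespace Model

variable {G : Type*} [Group G] {F : Type*} [Field F] [Finite F] (M : Model G F)

include M in
theorem sq_small (hF : 27 ≤ Nat.card F) {x g : G} (hx : Reg x) (hg : Nat.card (centralizer {g}) ≤ 3 * Nat.card F) :
    Sq x g := by
  have := M.finite
  obtain ⟨ψ, hψ⟩ := CL.LS.exists_psi_complex (F := F)
  obtain ⟨P, b, h1, h2, -⟩ := M.exists_cent_bound (by omega)
  obtain ⟨i, -, h3⟩ := h1 x hx
  refine sq_of_degree (d := Nat.card F ^ 2 - Nat.card F + 1) (fun χ hχ => ?_) ?_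
  · obtain ⟨χ, n, ρ, hρ, rfl⟩ := χ
    have := M.degree_bound (ρ := ρ) (by omega) hψ fun e =>
      hχ (character_eq_one_of_ker_eq_top ρ fun g => MonoidHom.mem_ker.1 (e.ge (mem_top g)))
    change _ ≤ ‖ρ.character 1‖
    rw [Representation.char_one, Complex.norm_natCast]
    exact_mod_cast this
  · refine (Nat.mul_le_mul (Nat.pow_le_pow_left (h3.trans (h2 i)) 2) hg).trans_lt ?_
    obtain ⟨r, hr⟩ : ∃ r, Nat.card F = r + 27 := ⟨Nat.card F - 27, by omega⟩
    rw [hr, show (r + 27) ^ 2 - (r + 27) = (r + 27) * (r + 26) from Nat.sub_eq_of_eq_add (by ring)]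
    nlinarith [Nat.zero_le (r ^ 4), Nat.zero_le (r ^ 3), Nat.zero_le (r ^ 2)]

theorem card_cent_nine {a : F} (ha : a ≠ 0) (b c : F) : Nat.card (centralizer {M.T a b c}) ≤ 3 * Nat.card F := by
  have h3 := M.toTw.three
  refine (card_le_of_subset_range (fun p : Fin 3 × F => M.T (![0, a, -a] p.1) (![0, b, -b - a * M.σ a] p.1) p.2)
    fun g hg => ?_).trans (by simp)
  have h0 : g * M.T a b c = M.T a b c * g := mem_centralizer_singleton_iff.1 hg
  obtain ⟨x, y, z, k, rfl⟩ := M.mem_B_of_comm (M.T_mem_U a b c) (fun e => ha (M.T_eq_one.1 e).1) h0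
  rw [mul_assoc, M.D_mul_T, ← mul_assoc, ← mul_assoc, mul_left_inj, M.T_mul, M.T_mul, T_inj] at h0
  obtain ⟨e1, e2, e3⟩ := h0
  obtain rfl : k = 1 := Units.ext ((mul_eq_right₀ ha).1 (by linear_combination e1))
  simp only [Units.val_one, map_one, one_mul, one_pow] at e2 e3
  have hσ := M.toTw.σ_ne_zero ha
  have e4 : M.σ (x / a) = x / a := by rw [map_div₀, div_eq_div_iff hσ ha]; linear_combination e2
  have e5 : x / a * (x / a - 1) * (x / a + 1) = 0 := by
    have := M.σσ (x / a)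
    rw [e4, e4] at this
    linear_combination -this
  rw [map_one, mul_one]
  rcases mul_eq_zero.1 e5 with e | e
  · rcases mul_eq_zero.1 e with e | e
    · obtain rfl : x = 0 := by simpa [ha] using e
      exact ⟨(0, z), M.T_congr rfl (mul_left_cancel₀ ha (show a * 0 = a * y by rw [map_zero] at e3; linear_combination e3)) rfl⟩
    · obtain rfl : a = x := by field_simp at e; linear_combination -e
      exact ⟨(1, z), M.T_congr rfl (mul_left_cancel₀ ha (show a * b = a * y by linear_combination e3)) rfl⟩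
  · obtain rfl : x = -a := by field_simp at e; linear_combination e
    rw [map_neg] at e3
    exact ⟨(2, z), M.T_congr rfl (mul_left_cancel₀ ha
      (show a * (-b - a * M.σ a) = a * y by linear_combination e3 + a ^ 2 * M.σ a * h3)) rfl⟩

theorem card_cent_six {b : F} (hb : b ≠ 0) : Nat.card (centralizer {M.T 0 b 0 * M.h₀}) ≤ 3 * Nat.card F := by
  refine (card_le_of_subset_range (fun p : Fin 3 × F => M.T 0 p.2 0 * M.D (![1, -1, 1] p.1)) fun g hg => ?_).trans (by simp)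
  have h0 : Commute g (M.T 0 b 0 * M.h₀) := mem_centralizer_singleton_iff.1 hg
  have h1 : Commute g (M.T 0 (-b) 0) := M.Th₀_sq b ▸ h0.mul_right h0
  have h2 : Commute g M.h₀ := by
    have := h1.mul_right h0
    rwa [← mul_assoc, T_mul_T_zero, neg_add_cancel, add_zero, T_zero, one_mul] at this
  have h3 := M.mem_B_of_comm (M.T_mem_U 0 (-b) 0) (fun e => hb (neg_eq_zero.1 (M.T_eq_one.1 e).2.1)) h1
  rcases M.mem_centralizer_h₀.1 (mem_centralizer_singleton_iff.2 h2) with ⟨y, k, rfl⟩ | ⟨y, y', k, rfl⟩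
  · have h4 := M.TD_conj_T_zero 0 y 0 (-b) 0 k
    rw [h1.eq, mul_inv_cancel_right, T_inj] at h4
    rcases M.toTw.unit_cases_of_σ_mul ((mul_eq_right₀ (neg_ne_zero.2 hb)).1 h4.2.1.symm) with rfl | rfl
    exacts [⟨(0, y), rfl⟩, ⟨(1, y), rfl⟩]
  · rw [mul_mem_cancel_right (mul_mem (M.T_mem_B ..) (M.D_mem_B _)), mul_mem_cancel_left (M.T_mem_B ..)] at h3
    exact absurd h3 M.w_not_mem_B

section Rep

variable {x : G} {k : Fˣ} {c : F} (h : IsConj x (M.w * M.D k * M.T 0 0 c))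
include h

omit [Finite F] in
theorem real_of_rep : IsConj x x⁻¹ := by
  refine h.trans (IsConj.trans (isConj_iff.2 ⟨M.w * M.D k * M.h₀, ?_⟩) (isConj_inv_inv h).symm)
  have e1 : M.h₀ * (M.w * M.D k) = M.w * M.D k * M.h₀ := by rw [← mul_assoc, h₀_mul_w, mul_assoc, h₀_mul_D, mul_assoc]
  have e2 : (M.w * M.D k)⁻¹ = M.w * M.D k := inv_eq_of_mul_eq_one_right (M.wD_sq k)
  have e3 := M.wD_sq k
  generalize M.w * M.D k = s at *
  calc s * M.h₀ * (s * M.T 0 0 c) * (s * M.h₀)⁻¹ = s * (M.h₀ * s) * M.T 0 0 c * M.h₀ * s := by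
        rw [mul_inv_rev, e2, h₀_inv]; simp only [mul_assoc]
    _ = s * s * (M.h₀ * M.T 0 0 c * M.h₀) * s := by rw [e1]; simp only [mul_assoc]
    _ = _ := by rw [e3, one_mul, h₀_conj_T, mul_inv_rev, e2, T_zero_inv, neg_zero]

omit [Finite F] in
theorem sq_Z (hc : c ≠ 0) {z : F} (hz : z ≠ 0) : Sq x (M.T 0 0 z) := by
  have h1 := sq_mul_self (M.wD_sq k) h
  rw [T_sq] at h1
  obtain ⟨l, hl⟩ := M.toTw.exists_σ_mul_sq (div_ne_zero hz (neg_ne_zero.2 hc))
  refine h1.conj (isConj_iff.2 ⟨M.D l, ?_⟩)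
  rw [D_conj_T, hl]
  exact M.T_congr (by simp) (by simp) (by field_simp; simp)

theorem sq_involution (hk : k = 1 ∨ k = -1) {t : G} (h1 : t ≠ 1) (h2 : t * t = 1) : Sq x t := by
  have h3 : Sq x (M.w' * M.w) := by
    refine ⟨_, _, h.trans (isConj_conj (M.T 0 1 0) _), (M.real_of_rep h).trans (isConj_inv_inv h), ?_⟩
    have e1 : M.T 0 0 c * (M.T 0 1 0)⁻¹ * (M.T 0 0 c)⁻¹ = (M.T 0 1 0)⁻¹ := by
      rw [mul_inv_eq_iff_eq_mul, T_zero_inv, T_mul_T_zero, T_mul_T_zero]; simp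
    have e2 : M.D k * (M.T 0 1 0)⁻¹ * (M.D k)⁻¹ = (M.T 0 1 0)⁻¹ := by
      rw [T_zero_inv, D_conj_T]
      rcases hk with rfl | rfl <;> simp
    calc _ = M.T 0 1 0 * M.w * (M.D k * (M.T 0 0 c * (M.T 0 1 0)⁻¹ * (M.T 0 0 c)⁻¹) * (M.D k)⁻¹) * M.w⁻¹ := by group
      _ = _ := by rw [e1, e2, w_inv, w']
  refine h3.conj ((M.isConj_h₀ (fun e => M.w_ne_w' ?_) ?_).symm.trans (M.isConj_h₀ h1 h2))
  · rw [← M.w'_inv]; exact eq_inv_of_mul_eq_one_right e
  · rw [mul_assoc, ← mul_assoc M.w, ← w'_mul_w, mul_assoc, M.w_mul_w, mul_one, w'_mul_w']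

end Rep

theorem card_fix_le {t : G} (h1 : t ≠ 1) (h2 : t * t = 1) : Nat.card {p : M.Pt | t • p = p} ≤ Nat.card F + 1 := by
  obtain ⟨g, rfl⟩ := isConj_iff.1 (M.isConj_h₀ h1 h2)
  refine (card_le_of_subset_range (fun o : Option F => g • o.elim M.inf fun y => M.pt 0 y 0) fun p hp => ?_).trans
    (by simp)
  have h3 : M.h₀ • g⁻¹ • p = g⁻¹ • p := by
    rw [eq_inv_smul_iff, ← mul_smul, ← mul_smul]; exact hp
  rcases M.h₀_fix_iff.1 h3 with e | ⟨y, e⟩
  · exact ⟨none, (inv_smul_eq_iff.1 e).symm⟩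
  · exact ⟨some y, (inv_smul_eq_iff.1 e).symm⟩

theorem exists_good_point (hF : 27 ≤ Nat.card F) {y : G} (hy : Reg y) :
    ∃ p : M.Pt, y • p ≠ p ∧ ∀ t, t ≠ 1 → t * t = 1 → t * y * t = y⁻¹ → t • p ≠ p := by
  classical
  have := M.finite
  have := Fintype.ofFinite G
  have := Fintype.ofFinite M.Pt
  obtain ⟨P, b, h1, h2, -⟩ := M.exists_cent_bound (by omega)
  obtain ⟨i, -, h3⟩ := h1 y hy
  set I := Finset.univ.filter fun t : G => t ≠ 1 ∧ t * t = 1 ∧ t * y * t = y⁻¹ with hI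
  have h4 : I.card ≤ 2 * Nat.card F + 2 := by
    rcases I.eq_empty_or_nonempty with e | ⟨s, hs⟩
    · simp [e]
    refine le_trans ?_ (h3.trans (h2 i))
    rw [← Nat.card_eq_finsetCard]
    refine Nat.card_le_card_of_injective (fun t : I => (⟨t.1 * s, mem_centralizer_singleton_iff.2 ?_⟩ : centralizer {y}))
      fun t t' e => Subtype.ext (mul_right_cancel (congrArg Subtype.val e))
    obtain ⟨-, -, a1, a2⟩ := Finset.mem_filter.1 hs
    obtain ⟨-, -, a3, a4⟩ := Finset.mem_filter.1 t.2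
    have a5 : y * t.1 = t.1 * y⁻¹ := by rw [← a4, ← mul_assoc, ← mul_assoc, a3, one_mul]
    rw [← mul_assoc y, a5, ← a2, mul_assoc, mul_assoc, mul_assoc, mul_assoc, a1, mul_one]
  have h5 : (Finset.univ.filter fun p : M.Pt => y • p = p).card ≤ 2 := by
    by_contra hn
    obtain ⟨p, q, r, hp, hq, hr, a1, a2, a3⟩ := Finset.two_lt_card_iff.1 (not_le.1 hn)
    have := Nat.le_of_dvd Nat.card_pos (Subgroup.orderOf_dvd_natCard _ (show y ∈ MulAction.stabilizer G p ⊓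
      MulAction.stabilizer G q ⊓ MulAction.stabilizer G r from
      ⟨⟨(Finset.mem_filter.1 hp).2, (Finset.mem_filter.1 hq).2⟩, (Finset.mem_filter.1 hr).2⟩))
    exact hy.1.not_ge (this.trans (M.card_stabilizer_three_le a1 a2 a3))
  have h6 := Finset.card_biUnion_le_card_mul I (fun t => Finset.univ.filter fun p : M.Pt => t • p = p) (Nat.card F + 1)
    fun t ht => by
      obtain ⟨-, a1, a2, -⟩ := Finset.mem_filter.1 ht
      refine le_trans (le_of_eq ?_) (M.card_fix_le a1 a2)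
      rw [Nat.card_eq_fintype_card, Fintype.card_subtype]; rfl
  obtain ⟨p, -, hp⟩ := Finset.exists_mem_notMem_of_card_lt_card (t := Finset.univ)
    (s := (Finset.univ.filter fun p : M.Pt => y • p = p) ∪ I.biUnion fun t => Finset.univ.filter fun p : M.Pt => t • p = p) (by
      rw [Finset.card_univ, ← Nat.card_eq_fintype_card, card_Pt]
      refine ((Finset.card_union_le _ _).trans (Nat.add_le_add h5 (h6.trans (Nat.mul_le_mul_right _ h4)))).trans_lt ?_
      obtain ⟨r, hr⟩ : ∃ r, Nat.card F = r + 27 := ⟨Nat.card F - 27, by omega⟩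
      rw [hr]
      nlinarith [Nat.zero_le (r ^ 3), Nat.zero_le (r ^ 2)])
  simp only [Finset.mem_union, Finset.mem_filter, Finset.mem_univ, true_and, Finset.mem_biUnion, not_or, not_exists,
    not_and, hI] at hp
  exact ⟨p, hp.1, fun t a1 a2 a3 => hp.2 t ⟨a1, a2, a3⟩⟩

theorem exists_sq_T (hF : 27 ≤ Nat.card F) {y : G} (hy : Reg y) : ∃ b c, b ≠ 0 ∧ Sq y (M.T 0 b c) := by
  obtain ⟨p, h1, h2⟩ := M.exists_good_point hF hy
  obtain ⟨g, rfl, hg⟩ := M.exists_smul_pair h1.symm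
  obtain ⟨a, b, c, k, e⟩ : M.w * (g⁻¹ * y * g) ∈ M.B := by
    rw [mem_B, mul_smul, mul_smul, mul_smul, ← hg, inv_smul_smul, w_smul_zero]
  have e1 : g⁻¹ * y * g = M.w * (M.T a b c * M.D k) := by rw [← e, w_mul_w_mul]
  have e2 : M.D k * (g⁻¹ * y * g) * (M.D k)⁻¹ = M.w * M.D (-k⁻¹) * (M.h₀ * M.T a b c) := by
    rw [e1, ← mul_neg_one, map_mul, ← h₀, mul_assoc M.w, mul_assoc (M.D k⁻¹), ← mul_assoc M.h₀, h₀_mul_h₀, one_mul,
      ← mul_assoc M.w (M.D k⁻¹), ← D_mul_w]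
    group
  have e3 : IsConj y (M.w * M.D (-k⁻¹) * (M.h₀ * M.T a b c)) := isConj_iff.2 ⟨M.D k * g⁻¹, by rw [← e2]; group⟩
  have e4 := sq_mul_self (M.wD_sq _) e3
  have e5 : M.h₀ * M.T a b c * (M.h₀ * M.T a b c) = M.T 0 (-a * M.σ (-a) - b) (-a * (b - -a * M.σ (-a))) := by
    rw [h₀_mul_T, Th₀_mul_self]
  refine ⟨_, _, fun e6 => ?_, e5 ▸ e4⟩
  have e7 : M.h₀ * M.T a b c * (M.h₀ * M.T a b c) = 1 := by
    rw [e5, e6, ← neg_sub (-a * M.σ (-a)), e6, neg_zero, mul_zero, T_zero]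
  have e8 := M.wD_sq (-k⁻¹)
  have e9 : M.h₀ * M.T a b c ≠ 1 := fun e => M.h₀_not_mem_U ((mul_mem_cancel_right (M.T_mem_U a b c)).1 (e ▸ one_mem _))
  have e10 : (M.h₀ * M.T a b c) • M.inf = M.inf := by simp [mul_smul]
  generalize M.w * M.D (-k⁻¹) = s at *
  generalize M.h₀ * M.T a b c = u at *
  have e11 : y = g * (M.D k)⁻¹ * (s * u) * (g * (M.D k)⁻¹)⁻¹ := by rw [← e2]; group
  refine h2 (g * (M.D k)⁻¹ * u * (g * (M.D k)⁻¹)⁻¹) (fun e => e9 (conj_eq_one_iff.1 e)) (by rw [conj_mul, e7]; group) ?_ ?_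
  · rw [e11, conj_mul, conj_mul, conj_inv, mul_inv_rev s u, inv_eq_of_mul_eq_one_right e7, inv_eq_of_mul_eq_one_right e8,
      mul_assoc u, mul_assoc s, e7, mul_one]
  · rw [mul_inv_rev, inv_inv, mul_smul, mul_smul (M.D k), inv_smul_smul, D_smul_inf, mul_smul, e10, mul_smul, ← map_inv,
      D_smul_inf]

theorem sq_T (hF : 27 ≤ Nat.card F) {y : G} (hy : Reg y) (hr : IsConj y y⁻¹) {b : F} (hb : b ≠ 0) (c : F) :
    Sq y (M.T 0 b c) := by
  obtain ⟨b', c', h1, h2⟩ := M.exists_sq_T hF hy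
  have key : ∀ {u v : F} (l : Fˣ), Sq y (M.T 0 u v) → M.σ l * l * u = b → Sq y (M.T 0 b c) := fun {u v} l h e =>
    h.conj (isConj_iff.2 ⟨M.T ((c - M.σ l * l ^ 2 * v) / b) 0 0 * M.D l, by
      rw [TD_conj_T_zero, e]; exact M.T_congr rfl rfl (by field_simp; ring)⟩)
  obtain ⟨l, e | e⟩ := M.toTw.exists_σ_mul_or (div_ne_zero hb h1)
  · exact key l h2 (by rw [e]; field_simp)
  · exact key l (M.T_zero_inv b' c' ▸ h2.inv hr) (by rw [e]; field_simp)

theorem sq_of_reg (hF : 27 ≤ Nat.card F) (hT : M.Tr) {x g : G} (hx : Reg x) (hg : g ≠ 1) : Sq x g := by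
  have := M.finite
  obtain ⟨k, c, hk, hc, h⟩ := M.exists_rep (by omega) hT hx
  by_cases h2 : g * g = 1
  · exact M.sq_involution h hk hg h2
  by_cases h3 : 3 ∣ orderOf g
  · obtain ⟨n, hn⟩ := M.exists_mem_conj_B_of_three h3
    rw [mem_conj_B] at hn
    have e : IsConj (n⁻¹ * g * n) g := isConj_iff.2 ⟨n, by group⟩
    rw [← orderOf_conj' n] at h3
    rw [← conj_sq_eq_one (g := n)] at h2
    refine Sq.conj ?_ e
    generalize n⁻¹ * g * n = g' at *
    rcases M.mem_B_cases hn with ⟨a, b, c', rfl⟩ | ⟨u, -, b, rfl⟩ | ⟨u, -, l, -, -, rfl⟩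
    · by_cases ha : a = 0
      · subst ha
        by_cases hb : b = 0
        · subst hb
          exact M.sq_Z h hc fun e => h2 (by simp [e])
        · exact M.sq_T hF hx (M.real_of_rep h) hb c'
      · exact M.sq_small hF hx (M.card_cent_nine ha b c')
    · exact (M.sq_small hF hx (M.card_cent_six fun e => h2 (by rw [conj_mul, Th₀_sq, e]; simp))).conj (isConj_conj u _)
    · rw [← inv_inv u, inv_inv u⁻¹, orderOf_conj'] at h3
      have h4 := h3.trans (M.H.orderOf_dvd_natCard (M.D_mem_H l))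
      have h5 := M.three_dvd_card_field
      rw [card_H] at h4
      omega
  · have h4 : Reg g := ⟨by
      by_contra h5
      have h6 := orderOf_pos g
      refine h2 (sq g ▸ orderOf_dvd_iff_pow_eq_one.1 ?_)
      have h7 := not_lt.1 h5
      interval_cases orderOf g <;> norm_num, h3⟩
    obtain ⟨P, b, h5, h6, -⟩ := M.exists_cent_bound (by omega)
    obtain ⟨i, -, h7⟩ := h5 g h4
    exact M.sq_small hF hx (by have := h6 i; omega)

theorem exists_mul_conj {m : ℕ} (hm : 1 ≤ m) (hq : Nat.card F = 3 ^ (2 * m + 1)) (hT : M.Tr) {x g : G}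
    (h2 : 2 < orderOf x) (h3 : ¬ 3 ∣ orderOf x) (hg : g ≠ 1) : ∃ u v : G, g = (u * x * u⁻¹) * (v * x * v⁻¹) := by
  obtain ⟨y, z, a1, a2, rfl⟩ := M.sq_of_reg (hq ▸ Nat.pow_le_pow_right (n := 3) (i := 3) (by norm_num) (by omega)) hT ⟨h2, h3⟩ hg
  obtain ⟨u, rfl⟩ := isConj_iff.1 a1
  obtain ⟨v, rfl⟩ := isConj_iff.1 a2
  exact ⟨u, v, rfl⟩

end Model

end CL.Chev.Ree
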