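/-
Suzuki groups: the character degrees.
-/
import Cfsg.Agent.Chev.SzChar3

set_option autoImplicit false

namespace CL.Chev.Sz

open Subgroup Cfsg CL.Char

theorem mem_charDegrees_iff' {G : Type*} [Group G] {d : ℕ} :
    d ∈ charDegrees G ↔ ∃ χ, IsIrrCharacter G χ ∧ χ 1 = d :=
  ⟨fun ⟨χ, h⟩ => ⟨χ, χ.2, h ▸ χ.2.cast_charDegree.symm⟩,
    fun ⟨χ, h1, h2⟩ => ⟨⟨χ, h1⟩, CL.Char.charDegree_eq_of_eq h2⟩⟩

theorem exists_mem_nz {K : Type*} [Group K] [Finite K] (hK : ∀ a b : K, a * b = b * a) (h : 2 ≤ Nat.card K) :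
    ∃ lam : K →* ℂˣ, lam ≠ 1 := by
  have := card_nz hK
  obtain ⟨lam, hl⟩ := Finset.card_pos.1 (by omega : 0 < (nz K).card)
  exact ⟨lam, mem_nz.1 hl⟩

/-- The character degrees of a Suzuki group. -/
theorem Model.mem_charDegrees {G : Type*} [Group G] {F : Type*} [Field F] [Finite F] (M : Model G F) {m : ℕ}
    (hm : 1 ≤ m) (hq : Nat.card F = 2 ^ (2 * m + 1)) {d : ℕ} :
    d ∈ charDegrees G ↔ d = 1 ∨ d = (2 ^ (2 * m + 1)) ^ 2 ∨ d = 2 ^ m * (2 ^ (2 * m + 1) - 1) ∨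
      d = (2 ^ (2 * m + 1)) ^ 2 + 1 ∨ d = (2 ^ (2 * m + 1) - 2 ^ (m + 1) + 1) * (2 ^ (2 * m + 1) - 1) ∨
      d = (2 ^ (2 * m + 1) + 2 ^ (m + 1) + 1) * (2 ^ (2 * m + 1) - 1) := by
  have := M.finite
  have : Fintype G := Fintype.ofFinite G
  obtain ⟨C⟩ := M.nonempty_cdat hm hq
  have hH : Nat.card M.H = 2 ^ (2 * m + 1) - 1 := by rw [M.card_H, hq]
  have e1 : C.St 1 = ((2 ^ (2 * m + 1)) ^ 2 : ℕ) := by rw [CDat.St, C.row_one, ← hq, ← M.card_U, C.cU]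
  have e2 : ∀ e, C.W e 1 = (2 ^ m * (2 ^ (2 * m + 1) - 1) : ℕ) := fun e => by
    rw [CDat.W, C.row_one, ← hH, Nat.cast_mul, C.cH]; simp
  have e3 : ∀ lam, C.X lam 1 = ((2 ^ (2 * m + 1)) ^ 2 + 1 : ℕ) := fun lam => by
    rw [CDat.X, C.row_one, ← hq, ← M.card_U, Nat.cast_add, C.cU]; simp
  have e4 : ∀ lam, C.Y lam 1 = ((2 ^ (2 * m + 1) - 2 ^ (m + 1) + 1) * (2 ^ (2 * m + 1) - 1) : ℕ) := fun lam => by
    rw [CDat.Y, C.row_one, ← hH, ← C.cardA', Nat.cast_mul, C.cH, C.cA']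
  have e5 : ∀ lam, C.Zc lam 1 = ((2 ^ (2 * m + 1) + 2 ^ (m + 1) + 1) * (2 ^ (2 * m + 1) - 1) : ℕ) := fun lam => by
    rw [CDat.Zc, C.row_one, ← hH, ← C.cardA, Nat.cast_mul, C.cH, C.cA]
  rw [mem_charDegrees_iff']
  constructor
  · rintro ⟨χ, hχ, hd⟩
    rcases C.irr_cases hχ with rfl | rfl | rfl | rfl | ⟨_, -, rfl⟩ | ⟨_, -, rfl⟩ | ⟨_, -, rfl⟩
    · exact Or.inl (Nat.cast_injective (R := ℂ) (hd.symm.trans Nat.cast_one.symm))
    · exact Or.inr (Or.inl (Nat.cast_injective (R := ℂ) (hd.symm.trans e1)))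
    · exact Or.inr (Or.inr (Or.inl (Nat.cast_injective (R := ℂ) (hd.symm.trans (e2 _)))))
    · exact Or.inr (Or.inr (Or.inl (Nat.cast_injective (R := ℂ) (hd.symm.trans (e2 _)))))
    · exact Or.inr (Or.inr (Or.inr (Or.inl (Nat.cast_injective (R := ℂ) (hd.symm.trans (e3 _))))))
    · exact Or.inr (Or.inr (Or.inr (Or.inr (Or.inl (Nat.cast_injective (R := ℂ) (hd.symm.trans (e4 _)))))))
    · exact Or.inr (Or.inr (Or.inr (Or.inr (Or.inr (Nat.cast_injective (R := ℂ) (hd.symm.trans (e5 _)))))))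
  · have two : ∀ {K : Subgroup G}, IsTorus m K → 2 ≤ Nat.card K := fun h =>
      le_trans (by norm_num) (five_le_of_mem_torusOrders hm h.2)
    rintro (rfl | rfl | rfl | rfl | rfl | rfl)
    · exact ⟨_, isIrrCharacter_one, by simp⟩
    · exact ⟨_, C.irr_St, e1⟩
    · exact ⟨_, C.irr_W (Or.inl rfl), e2 _⟩
    · obtain ⟨lam, h⟩ := exists_mem_nz C.commH (two C.tH)
      exact ⟨_, C.irr_X h, e3 _⟩
    · obtain ⟨lam, h⟩ := exists_mem_nz C.commA (two C.tA)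
      exact ⟨_, C.irr_Y h, e4 _⟩
    · obtain ⟨lam, h⟩ := exists_mem_nz C.commA' (two C.tA')
      exact ⟨_, C.irr_Zc h, e5 _⟩

end CL.Chev.Sz
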