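import Cfsg.Agent.Chev.TwOverReal

/-!
# The subfield points of `³D₄(q)` form a maximal subgroup
-/

set_option autoImplicit false

namespace CL.Chev

open Cfsg Cfsg.Lie Cert CL.Cox
open scoped commutatorElement

theorem StSys.GAut.Dbl.mem_cof_triality {ι Φ : Type} [Fintype ι] [DecidableEq ι] {R : RS ι Φ} {F : Type*} [Field F]
    {G : Type*} [Group G] {S : StSys R F G} [Finite Φ] {κ : Type*} {A : S.GAut} {α : G ≃* G} {θ : F ≃+* F}
    {wd : κ → List ι} {top : Φ} (h : A.Dbl α θ wd top) {H : Subgroup G} (hM : fixSub A.σ ⊓ fixSub α ≤ H)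
    (hH : H ≤ fixSub A.σ) {r : Φ} (hr : R.Pos r) (hl : ∀ s ∈ R.later r, h.ρ s = s ∨ s = h.ρ r ∨ s = h.ρ (h.ρ r))
    (e : R.pair top r = 1) (L : List κ) {k : κ} {a b c d : ι} (hk : wd k = [a, b, c])
    (hw : wprod R.sperm (L.flatMap wd) (R.simple c) = r) (hθ : ∀ t, θ (θ (θ t)) = t) (pa : A.π a = b) (pb : A.π b = c)
    (pc : A.π c = a) (pd : A.π d = d) (hd : ∀ i ∈ wd k, R.cartan d i = -1) {r₁ r₂ : Φ}
    (l1 : S.Lead (R.simple a) (R.simple d) r₁ (-1 : ℤ)) (l2 : S.Lead (R.simple b) (R.simple d) r₂ (1 : ℤ))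
    (l3 : S.Lead r₁ (R.simple b) r (-1 : ℤ)) (l4 : S.Lead r₂ (R.simple a) r (1 : ℤ))
    (h0 : ∀ s, R.root r ≠ R.root s + R.root (R.simple c))
    (h1 : ∀ i ∈ [a, b], R.root r ≠ R.root (R.sref d (R.simple c)) + R.root (R.simple i))
    {u : G} (hu : u ∈ H) {t : F} (ht : θ t ≠ t) (hc : S.Co (R.simple a) t u) (x : F) : x ∈ S.cof H hr := by
  have hs := R.pos_simple
  have cm : ∀ {H : Subgroup G} {u y}, u ∈ H → y ∈ H → ⁅u, y⁆ ∈ H := fun hu hy =>
    mul_mem (mul_mem (mul_mem hu hy) (inv_mem hu)) (inv_mem hy)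
  have g1 : S.x (R.simple d) 1 ∈ H := hM (h.x_mem (by rw [(A.isSym _).simple, pd]) (map_one θ))
  have p1 := (R.comb_of_add l1.add).pos (hs a) (hs d)
  have p2 := (R.comb_of_add l2.add).pos (hs b) (hs d)
  have t2 : R.ht r₂ = 2 := by
    rw [R.ht_of_root_eq (i := 1) (j := 1) (by simpa using l2.add), R.ht_simple, R.ht_simple]; rfl
  have t3 : R.ht r = 3 := by rw [R.ht_of_root_eq (i := 1) (j := 1) (by simpa using l4.add), R.ht_simple, t2]; rfl
  have hn := h.nodup k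
  have ho := h.orth k
  simp only [hk, List.nodup_cons, List.mem_cons, List.not_mem_nil, or_false, not_or, forall_eq_or_imp, forall_eq] at hn ho hd
  have e1 := hc.comm (hs a) (hs d) l1 1
  have e2 := (pa ▸ h.co_simple hH hc hu).comm (hs b) (hs d) l2 1
  have h5 : θ t + t ∈ S.cof H hr := ⟨_, cm (cm hu g1) (hM (h.prod_mem k)), by
    simpa [hk] using (e2.comm p2 (hs a) l4 1).comm_mul ((e1.comm p1 (hs b) l3 1).comm_mul (e2.comm_zero p2 (hs c)
      (by rw [t2, t3, R.ht_simple]; rfl) h0 1) hr (S.x_mem_U (hs b) 1)) hr (S.x_mem_U (hs a) 1)⟩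
  have h4 : θ (θ t + t) ≠ θ t + t := fun e => ht (by
    rw [map_add, add_comm, add_right_inj] at e; rw [← e, hθ, e])
  generalize θ t + t = t at h4 h5
  refine mem_of_cubic hθ (fun c t => h.mul_mem_cof hM _ e) (h.one_mem_cof hM hH _ hl e L (k := k) (by simp [hk]) hw) h5 h4 ?_ x
  have hy := (h.mem_iff_cof hM hH _ hl e L (k := k) (by simp [hk]) hw (mul_mem (mul_mem
    (S.x_simple_mem_XP (by simp [hk]) _) (S.x_simple_mem_XP (by simp [hk]) _)) (S.x_simple_mem_XP (by simp [hk]) _))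
    (A.fix_triple (ho.1.2.1 hn.1.1) (ho.1.2.2 hn.1.2) pa pb pc (t := θ t) (t' := θ (θ t)) (by rw [h.φ_eq]) (by rw [h.φ_eq, hθ])
      (by rw [h.φ_eq])) (StSys.co_Ui (mul_mem (S.x_mem_XS (And.intro (hs _) (R.simple_inj.ne hn.1.2)) _)
        (S.x_mem_XS (And.intro (hs _) (R.simple_inj.ne hn.2.1)) _)) t)).2 h5
  have hn : S.nS d ∈ H := hM ⟨(A.map_nS _).trans (congrArg _ pd), h.B.map_nS _⟩
  have cA := fun i (hi : R.cartan d i = -1) =>
    h.faithful.uFaithful.commutator_A2 h.len (hs i) ((R.pair_simple_simple _ _).trans hi)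
  have d0 : ⁅S.x (R.simple c) t, S.x (R.simple d) 1⁆ ∈ S.XS {R.sref d (R.simple c)} := by
    rw [← commutatorElement_inv, cA _ hd.2.2]
    exact inv_mem ((S.induces_nS d).conj_mem_XS (by simp) (S.x_mem_X _ t))
  have d1 := (((S.co_x _ (θ (θ t))).comm (hs _) (hs _) l2 1).comm p2 (hs _) l4 (θ t)).conj_U hr
    (cm (S.x_mem_U (hs c) t) (S.x_mem_U (hs d) 1))
  have d2 : ∀ i ∈ [a, b], ∀ v, S.Co r 0 ⁅⁅S.x (R.simple c) t, S.x (R.simple d) 1⁆, S.x (R.simple i) v⁆ := fun i hi =>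
    co_comm_zero d0 (hs i) (by
      rintro _ rfl
      refine ⟨(hs c).sref ?_, by rw [R.ht_sref, R.pair_simple_simple, hd.2.2, t3, R.ht_simple, R.ht_simple]; rfl, h1 i hi⟩
      intro e'; rw [R.simple_inj e', R.cartan_self] at hd; omega)
  refine ⟨_, mul_mem (inv_mem (mul_mem (mul_mem hn hy) (inv_mem hn))) (cm g1 hy), ?_⟩
  convert d1.mul ((d2 a (by simp) (θ t)).comm_mul (d2 b (by simp) (θ (θ t))) hr (S.x_mem_U (hs a) _)) hr using 1
  · simp [mul_comm]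
  · rw [show ∀ n a b c : G, n * (a * b * c) * n⁻¹ = n * a * n⁻¹ * (n * b * n⁻¹) * (n * c * n⁻¹) by intros; group,
      ← cA _ hd.1, ← cA _ hd.2.1, ← cA _ hd.2.2]
    simp only [commutatorElement_def]
    group

def ovWD4 : Fin 2 → List (Fin chevD4.rank) := wD4
def ovND4 (i : Fin 4) : Fin chevD4.rank := i
def ovRD4 (i : Fin 24) : Fin chevD4.nroots := i

theorem maximal_D4 (E : Real chevD4) {K : Type*} [Field K] [Fintype K] {q : ℕ} (hq : IsPrimePow q)
    (hK : Fintype.card K = q ^ 3) {M : Subgroup (GL chevD4.Idx K)} (hM : ∀ g, g ∈ M ↔ g ∈ twistedD4 K q ∧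
      ∀ i j, (g : Matrix chevD4.Idx chevD4.Idx K) i j ^ q = (g : Matrix chevD4.Idx chevD4.Idx K) i j) :
    M ≠ twistedD4 K q ∧ ∀ H, M ≤ H → H ≤ twistedD4 K q → H = M ∨ H = twistedD4 K q := by
  have hT := isTwD4 E hq hK
  obtain ⟨A, θ, h1, hθ, hD⟩ : ∃ (A : (E.S K).res.GAut) (θ : K ≃+* K), StSys.GAut.IsD4 (R := E.R) A θ ∧ (∀ t, θ t = t ^ q) ∧
    A.TwData jD4 ((twistedD4 K q).subgroupOf (E.S K).grp) := hT.ex'
  obtain ⟨α, hα⟩ := (E.faithful K).exists_fieldAut (E.adjoint K) E.tSpec (E.commFormula K) θ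
  have hπ : ∀ i, (A.π i : ℕ) = dig 0x312 4 i := fun i =>
    (congrArg (fun π : Equiv.Perm (Fin 4) => (π i : ℕ)) h1.π_eq).trans
      ((by decide : ∀ i : Fin 4, (piD4 i : ℕ) = dig 0x312 4 i) i)
  have hρ := tabD4.ρ_val E nCheckD4 graphCheckD4_2130 A (E.faithful K).res hπ
  have hD' : A.TwData (fun k => {i | i ∈ ovWD4 k}) _ := (funext fun k => Set.ext (mem_jD4 k) : jD4 = _) ▸ hD
  have h := tabD4.dbl E (wd := ovWD4) (E.faithful K).res h1.adjoint (StSys.res_grp _) h1.len_eq hα h1.φ_eq topChkD4 hρ hπ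
    hD'.orbit (ovND4 1) (fun _ => ovRD4 14) (fun _ => ovRD4 22) (by decide +kernel)
    (by decide +kernel) (by decide +kernel) (by decide +kernel) (by decide +kernel)
  have hp : E.R.Pos (ovRD4 21) := by rw [← tabD4.pos_iff' E]; decide +kernel
  have hS := (E.commFormula K).restrict _ (E.S K).x_mem_grp
  have p : ∀ i : Fin 4, A.π (ovND4 i) = ovND4 (piD4 i) := fun i => congrArg (fun π : Equiv.Perm (Fin 4) => π i) h1.π_eq
  refine E.twisted_maximal hθ hT.le hD' (fun k hk e => ?_) h ?_ (fun H a1 a2 i hi u hu t ht e => ?_) hM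
  · obtain ⟨c, hc, rfl⟩ := h1.exists_torus hk e
    exact h1.torus_mem hD c hc
  · obtain ⟨t, ht⟩ := exists_pow_ne hq.one_lt (by omega) hT.card
    have hs := E.R.pos_simple
    exact ⟨_, hD.fixU 1 _ ((StSys.mem_XP_triple (h1.ca 0 2) (h1.ca 0 3) (h1.ca 2 3)).2 ⟨θ t, θ (θ t), t, rfl⟩)
      (A.fix_triple (h1.ca 0 2) (h1.ca 0 3) (p 0) (p 2) (p 3) (by rw [h1.φ_eq]) (by rw [h1.φ_eq, h1.cube])
        (by rw [h1.φ_eq])), ovND4 3, t, hθ t ▸ ht, StSys.co_Ui (mul_mem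
      ((E.S K).res.x_mem_XS (And.intro (hs _) (E.R.simple_inj.ne (by decide : ovND4 0 ≠ ovND4 3))) _)
      ((E.S K).res.x_mem_XS (And.intro (hs _) (E.R.simple_inj.ne (by decide : ovND4 2 ≠ ovND4 3))) _)) t⟩
  have hl : ∀ s ∈ E.R.later (ovRD4 21), h.ρ s = s ∨ s = h.ρ (ovRD4 21) ∨ s = h.ρ (h.ρ (ovRD4 21)) := fun s => by
    simp only [RS.later, Set.mem_ofPred_eq, tabD4.ht E, Fin.ext_iff, hρ]
    exact fun h => (by clear * -; decide +kernel +revert : _ → _ → _) h.2.1 h.2.2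
  have key : ∀ t, θ t ≠ t → (E.S K).res.Co (E.R.simple (ovND4 0)) t u → (twistedD4 K q).subgroupOf (E.S K).grp ≤ H :=
    fun t ht e => h.le_of_cof a1 a2 hp hl (h.mem_cof_triality a1 a2 hp hl (by rw [tabD4.pair E]; decide +kernel) [1, 0]
      (k := 1) (a := ovND4 0) (b := ovND4 2) (c := ovND4 3) (d := ovND4 1) rfl
      (Fin.ext (by rw [tabD4.wprod_sperm_val E, tabD4.simple E]; decide +kernel)) h1.cube (p 0) (p 2) (p 3) (p 1)
      (by simp only [tabD4.cartan E]; decide +kernel) (r₁ := ovRD4 19) (r₂ := ovRD4 16)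
      (tabD4.lead E hS (by simp only [tabD4.simple E]; decide +kernel))
      (tabD4.lead E hS (by simp only [tabD4.simple E]; decide +kernel))
      (tabD4.lead E hS (by simp only [tabD4.simple E]; decide +kernel))
      (tabD4.lead E hS (by simp only [tabD4.simple E]; decide +kernel))
      (tabD4.root_ne E (by rw [tabD4.simple E]; decide +kernel))
      (by simp only [funext_iff, ne_eq, Pi.add_apply, tabD4.root E, tabD4.sref E, tabD4.simple E]; decide +kernel) hu ht e)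
      (fun k => ⟨![[0, 1], [1, 0]] k, by
        simp only [tabD4.ht E, tabD4.wprod_sperm_val E, tabD4.simple E]; clear * -; decide +kernel +revert⟩) hD'
  have e' := h.co_simple a2 e hu
  obtain rfl | rfl | rfl | rfl := (by decide : ∀ i : Fin chevD4.rank, i = ovND4 0 ∨ i = ovND4 1 ∨ i = ovND4 2 ∨ i = ovND4 3) i
  exacts [key t ht e, absurd (p 1) hi, key _ (θ.injective.ne (θ.injective.ne ht)) (p 3 ▸ h.co_simple a2 (p 2 ▸ e') hu),
    key _ (θ.injective.ne ht) (p 3 ▸ e')]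

end CL.Chev
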