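import Cfsg.Agent.Chev.TwOver2
import Cfsg.Agent.Chev.TwReal
import Cfsg.Agent.Chev.Fold
import Cfsg.Agent.Chev.StFix

/-!
# The subfield points of `²E₆(q)` and `³D₄(q)` form a maximal subgroup
-/

set_option autoImplicit false

namespace CL.Chev

open Cfsg Cfsg.Lie Cert CL.Cox
open scoped commutatorElement

def Cert.Aux.noSub (A : Aux) (k s : ℕ) : Bool := allLt A.n fun a => anyLt A.l fun i => !beqZ (A.rt k i) (A.rt a i + A.rt s i)

namespace Tab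

variable {D : ChevalleyDatum} {A : Aux} (T : Tab D A) (E : Real D) {F : Type*} [Field F]
include T

theorem lead {G : Type*} [Group G] {S : StSys E.R F G} (hS : S.CommFormula (datT D)) {r s k : Fin D.nroots} {c : ℤ}
    (h : (A.ent s r).head? = some (k.1, -c)) : S.Lead r s k c := by
  rw [List.head?_eq_getElem?] at h
  obtain ⟨h5, e⟩ := List.getElem?_eq_some_iff.1 h
  obtain ⟨-, -, h7⟩ := T.ch.ent s (T.lt_n s) r (T.lt_n r) 0 h5
  have := E.lead hS (r := r) (s := s) (k := k) (funext fun i => by simpa [T.root E, e, add_comm] using h7 i (T.lt_l i))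
  rw [ChevalleyDatum.chainM, T.ag.entry s (T.lt_n s) r (T.lt_n r), h] at this
  simpa using this

theorem root_ne {k s : Fin D.nroots} (h : A.noSub k s = true) (a : Fin D.nroots) :
    E.R.root k ≠ E.R.root a + E.R.root s := fun e => by
  simp only [Aux.noSub, allLt_iff, anyLt_iff, Bool.not_eq_true', ← Bool.not_eq_true, beqZ_iff] at h
  obtain ⟨i, hi, h⟩ := h a (T.lt_n a)
  exact h (by simpa [T.root E] using congrFun e ⟨i, T.lt_rank hi⟩)

theorem wprod_sperm_val (l : List (Fin D.rank)) (r : Fin D.nroots) :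
    (wprod E.R.sperm l r : ℕ) = l.foldr (fun (i : Fin D.rank) r => A.w i r) r := by
  induction l with
  | nil => rfl
  | cons i l ih => rw [wprod_cons, Equiv.Perm.mul_apply, RS.sperm_apply, T.sref, ih, List.foldr_cons]

theorem ρ_val (hn : A.nCheck = true) {p : ℤ} {q πT ρT cT : ℕ} (h : A.graphCheck p q πT ρT cT = true) {G : Type*} [Group G]
    {S : StSys E.R F G} (B : S.GAut) (hS : S.Faithful) (hπ : ∀ i, (B.π i : ℕ) = dig πT 4 i) (r : Fin D.nroots) :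
    (B.ρ hS r : ℕ) = dig ρT 8 r := by
  obtain ⟨ρ, π, -, h1, h2, -, h3, -⟩ := T.exists_graph.{0} hn E h
  obtain rfl : B.π = π := Equiv.ext fun i => Fin.ext ((hπ i).trans (h2 i).symm)
  rw [(B.isSym hS).unique h3.toIsSym, h1]

theorem dbl {G : Type*} [Group G] {S : StSys E.R F G} {B : S.GAut} {α : G ≃* G} {θ : F ≃+* F} {κ : Type*}
    {wd : κ → List (Fin D.rank)} (hS : S.Faithful) (hA : S.Adjoint) (hG : S.grp = ⊤) (hl : ∀ r s, E.R.len r = E.R.len s)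
    (h1 : ∀ r t, α (S.x r t) = S.x r (θ t)) (h2 : ∀ i, B.φ i = θ) (ht : A.topChk = true) {ρ π : ℕ → ℕ}
    (hρ : ∀ r, (B.ρ hS r : ℕ) = ρ r) (hπ : ∀ i, (B.π i : ℕ) = π i) (ho : ∀ k, IsOrbit B.π {i | i ∈ wd k}) (i₀ : Fin D.rank)
    (a b : κ → Fin D.nroots) (c1 : ∀ i j : Fin D.rank, A.ca (π i) (A.sim (π j)) = A.ca i (A.sim j)) (c2 : ∀ i, ∃ k, i ∈ wd k)
    (c3 : ∀ k, (wd k).Nodup ∧ ∀ i ∈ wd k, A.pos ((wd k).foldr (fun (i : Fin D.rank) r => A.w i r) (A.sim i)) = false ∧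
      ∀ j ∈ wd k, i ≠ j → A.ca i (A.sim j) = 0) (c4 : π i₀ = i₀ ∧ A.ca i₀ (A.ng 0) = 1)
    (c5 : ∀ k, ∀ i ∈ wd k, A.pr (A.ng 0) (A.sim i) = 0 → (ρ (a k) = a k ∧ ρ (b k) = b k ∧ 0 < A.pr (A.ng 0) (a k) ∧
      0 < A.pr (A.ng 0) (b k) ∧ A.htA (a k) < A.htA (b k)) ∧
        ∀ j : Fin D.rank, A.rt (a k) j ≤ A.rt (b k) j ∧ (j ∉ wd k → A.rt (a k) j = A.rt (b k) j)) : B.Dbl α θ wd T.top :=
  ⟨hS, hA, hG, E.irred, hl, h1, h2, fun i j => by rw [T.cartan, T.cartan, hπ, hπ, c1], ho, c2, fun k => (c3 k).1,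
    fun k i hi j hj e => (T.cartan E i j).trans (((c3 k).2 i hi).2 j hj e),
    fun k => (E.R.eq_w0J (wprod_mem fun i hi => E.R.sperm_mem_WJ hi) fun j hj => by
      rw [← T.pos_iff' E, T.wprod_sperm_val, T.simple, ((c3 k).2 j hj).1]; simp).symm, T.highest E ht,
    ⟨i₀, Fin.ext ((hπ _).trans c4.1), (T.pair_simple E _ _).trans c4.2⟩, fun k i hi e => ⟨a k, b k, by
      simp only [Fin.ext_iff, hρ, T.pair E, T.ht E, T.root E, T.simple E, ← and_assoc] at e c5 ⊢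
      exact c5 k i hi e⟩⟩

end Tab

theorem Real.twisted_maximal {D : ChevalleyDatum} (E : Real D) {K : Type*} [Field K] {θ : K ≃+* K} {q : ℕ}
    (hθ : ∀ t, θ t = t ^ q) {A : (E.S K).res.GAut} {κ : Type*} {wd : κ → List (Fin D.rank)} {top : Fin D.nroots}
    {T : Subgroup (GL D.Idx K)} (hT : T ≤ (E.S K).grp) (hD : A.TwData (fun k => {i | i ∈ wd k}) (T.subgroupOf (E.S K).grp))
    (hH : ∀ k ∈ (E.S K).res.H, A.σ k = k → k ∈ T.subgroupOf (E.S K).grp) {α : (E.S K).grp ≃* (E.S K).grp}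
    (h : A.Dbl α θ wd top) (hne : ∃ y ∈ T.subgroupOf (E.S K).grp, ∃ i t, θ t ≠ t ∧ (E.S K).res.Co (E.R.simple i) t y)
    (main : ∀ H, fixSub A.σ ⊓ fixSub α ≤ H → H ≤ fixSub A.σ → ∀ i, A.π i ≠ i → ∀ u ∈ H, ∀ t, θ t ≠ t →
      (E.S K).res.Co (E.R.simple i) t u → T.subgroupOf (E.S K).grp ≤ H) {M : Subgroup (GL D.Idx K)}
    (hM : ∀ g, g ∈ M ↔ g ∈ T ∧ ∀ i j, (g : Matrix D.Idx D.Idx K) i j ^ q = (g : Matrix D.Idx D.Idx K) i j) :
    M ≠ T ∧ ∀ H, M ≤ H → H ≤ T → H = M ∨ H = T := by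
  have h1 : ∀ g : (E.S K).grp, α g = g ↔ ∀ i j, (g.1 : Matrix D.Idx D.Idx K) i j ^ q = (g.1 : Matrix D.Idx D.Idx K) i j :=
    fun g => by
      have : (α g : GL D.Idx K) = Matrix.GeneralLinearGroup.map (θ : K →+* K) g :=
        ((E.S K).res.XS_le_iff (K := ((E.S K).grp.subtype.comp α.toMonoidHom).eqLocus
          ((Matrix.GeneralLinearGroup.map (θ : K →+* K)).comp (E.S K).grp.subtype))).2 (fun r _ t =>
            (congrArg Subtype.val (h.frob r t)).trans (E.map_x (θ : K →+* K) r t).symm) (h.mem_grp g)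
      rw [Subtype.ext_iff, this, Units.ext_iff, ← Matrix.ext_iff]
      simp [hθ]
  refine ⟨?_, fun H h2 h3 => ?_⟩
  · rintro rfl
    obtain ⟨y, hy, i, t, ht, e⟩ := hne
    have := h.co_α e
    rw [(h1 y).2 ((hM _).1 hy).2] at this
    exact ht (this.unique e h.faithful (E.R.pos_simple i))
  have h4 : fixSub A.σ ⊓ fixSub α ≤ H.subgroupOf (E.S K).grp := fun g hg =>
    h2 ((hM _).2 ⟨hD.mem_of_fixed h.faithful h.grp hH hg.1, (h1 g).1 hg.2⟩)
  have h5 : H.subgroupOf (E.S K).grp ≤ fixSub A.σ := fun g hg => hD.fix g (h3 hg)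
  rcases h.dichotomy h4 h5 with e | ⟨i, hi, u, hu, t, ht, e⟩
  · exact Or.inl (le_antisymm (fun g hg => (hM g).2 ⟨h3 hg, (h1 ⟨g, hT (h3 hg)⟩).1 (e hg)⟩) h2)
  · exact Or.inr (le_antisymm h3 fun g hg => main _ h4 h5 i hi u hu t ht e (x := ⟨g, hT hg⟩) hg)

theorem exists_pow_ne {K : Type*} [Field K] [Finite K] {q n : ℕ} (hq : 1 < q) (hn : 1 < n) (hK : Nat.card K = q ^ n) :
    ∃ t : K, t ^ q ≠ t := by
  by_contra! hc
  have := card_fixed hq.le hK
  rw [Nat.card_congr (Equiv.subtypeUnivEquiv hc), hK] at this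
  exact (Nat.pow_lt_pow_right hq hn).ne' (by simpa using this)

def vE6 : Fin 4 → List (Fin chevE6.rank) := wE6
def nE6 (i : Fin 6) : Fin chevE6.rank := i
def rE6 (i : Fin 72) : Fin chevE6.nroots := i

theorem maximal_E6 (E : Real chevE6) {K : Type*} [Field K] [Fintype K] {q : ℕ} (hq : IsPrimePow q)
    (hK : Fintype.card K = q ^ 2) {M : Subgroup (GL chevE6.Idx K)} (hM : ∀ g, g ∈ M ↔ g ∈ twistedE6 K q ∧
      ∀ i j, (g : Matrix chevE6.Idx chevE6.Idx K) i j ^ q = (g : Matrix chevE6.Idx chevE6.Idx K) i j) :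
    M ≠ twistedE6 K q ∧ ∀ H, M ≤ H → H ≤ twistedE6 K q → H = M ∨ H = twistedE6 K q := by
  have hT := isTwE6 E hq hK
  obtain ⟨A, θ, h1, hθ, hD⟩ : ∃ (A : (E.S K).res.GAut) (θ : K ≃+* K), StSys.GAut.IsE6 (R := E.R) A θ ∧ (∀ t, θ t = t ^ q) ∧
    A.TwData jE6 ((twistedE6 K q).subgroupOf (E.S K).grp) := hT.ex'
  obtain ⟨α, hα⟩ := (E.faithful K).exists_fieldAut (E.adjoint K) E.tSpec (E.commFormula K) θ
  have hπ : ∀ i, (A.π i : ℕ) = dig 0x23415 4 i := fun i =>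
    (congrArg (fun π : Equiv.Perm (Fin 6) => (π i : ℕ)) h1.π_eq).trans
      ((by decide : ∀ i : Fin 6, (piE6 i : ℕ) = dig 0x23415 4 i) i)
  have hρ := tabE6.ρ_val E nCheckE6 graphCheckE6 A (E.faithful K).res hπ
  have hD' : A.TwData (fun k => {i | i ∈ vE6 k}) _ := (funext fun k => Set.ext (mem_jE6 k) : jE6 = _) ▸ hD
  have h := tabE6.dbl E (wd := vE6) (E.faithful K).res h1.adjoint (StSys.res_grp _) h1.len_eq hα h1.φ_eq topChkE6 hρ hπ
    hD'.orbit (nE6 1) (fun k => rE6 (![46, 46, 47, 51] k)) (fun k => rE6 (![47, 47, 51, 63] k)) (by decide +kernel)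
    (by decide +kernel) (by decide +kernel) (by decide +kernel) (by decide +kernel)
  have hp : ∀ r : Fin 72, 36 ≤ (r : ℕ) → E.R.Pos (rE6 r) := fun r => by
    rw [← tabE6.pos_iff' E]; clear * -; decide +kernel +revert
  have hs := E.R.pos_simple
  have hS := (E.commFormula K).restrict _ (E.S K).x_mem_grp
  have p : ∀ i : Fin 6, A.π (nE6 i) = nE6 (piE6 i) := fun i => congrArg (fun π : Equiv.Perm (Fin 6) => π i) h1.π_eq
  refine E.twisted_maximal hθ hT.le hD' (fun k hk e => ?_) h ?_ (fun H a1 a2 i hi u hu t ht e => ?_) hM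
  · obtain ⟨c, hc, rfl⟩ := h1.exists_torus hk e
    exact h1.torus_mem hD c hc
  · obtain ⟨t, ht⟩ := exists_pow_ne hq.one_lt one_lt_two hT.card
    refine ⟨_, hD.fixU 3 _ ((StSys.mem_XP_pair (h1.ca 0 5)).2 ⟨t, θ t, rfl⟩) (A.fix_pair (h1.ca 0 5) (p 0) (p 5)
      (by rw [h1.φ_eq]) (by rw [h1.φ_eq, h1.sq])), nE6 0, t, hθ t ▸ ht, ?_⟩
    have := ((E.S K).res.co_x _ t).mul (StSys.co_zero_simple.2 ((E.S K).res.x_mem_XS
      (And.intro (hs (nE6 5)) (E.R.simple_inj.ne (by decide : nE6 5 ≠ nE6 0))) (θ t))) (hs (nE6 0))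
    rwa [add_zero] at this
  have hl : ∀ s ∈ E.R.later (rE6 68), h.ρ s = s ∨ s = h.ρ (rE6 68) ∨ s = h.ρ (h.ρ (rE6 68)) := fun s => by
    simp only [RS.later, Set.mem_ofPred_eq, tabE6.ht E, Fin.ext_iff, hρ]
    exact fun h => (by clear * -; decide +kernel +revert : _ → _) h.2.2
  have h2 : E.R.pair tabE6.top (rE6 68) = 1 := by rw [tabE6.pair E]; decide +kernel
  refine h.le_of_cof a1 a2 (hp 68 (by decide)) hl (fun x => ?_) (fun k => ⟨![[0, 1, 2, 3, 1, 2, 1], [0, 1, 2, 3, 1, 2, 0],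
    [3, 2, 1, 2, 3, 0, 1], [3, 2, 1, 2, 0, 1, 2]] k, by
      simp only [tabE6.ht E, tabE6.wprod_sperm_val E, tabE6.simple E]; clear * -; decide +kernel +revert⟩) hD'
  suffices ∃ t, θ t ≠ t ∧ t ∈ (E.S K).res.cof H (hp 68 (by decide)) by
    obtain ⟨t, h3, h4⟩ := this
    exact mem_of_quadratic h1.sq (fun c t => h.mul_mem_cof a1 _ h2) (h.one_mem_cof a1 a2 _ hl h2 [3, 2, 1, 2, 0, 1, 2] (k := 3)
      (i := nE6 0) (by decide) (Fin.ext (by rw [tabE6.wprod_sperm_val E, tabE6.simple E]; decide +kernel))) h4 h3 x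
  have cm : ∀ {u y}, u ∈ H → y ∈ fixSub A.σ ⊓ fixSub α → ⁅u, y⁆ ∈ H := fun hu hy =>
    mul_mem (mul_mem (mul_mem hu (a1 hy)) (inv_mem hu)) (inv_mem (a1 hy))
  have fx : ∀ r : Fin 72, dig _ 8 r = (r : ℕ) → (E.S K).res.x (rE6 r) 1 ∈ fixSub A.σ ⊓ fixSub α := fun r hr =>
    h.x_mem (Fin.ext ((hρ _).trans hr)) (map_one θ)
  have b2 : ∀ t, θ t ≠ t → (E.S K).res.Co (E.R.simple (nE6 2)) t u → ∃ t, θ t ≠ t ∧ t ∈ (E.S K).res.cof H (hp 68 (by decide)) :=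
    fun t ht e => ⟨t, ht, _, cm hu (fx 65 (by decide +kernel)), by
      simpa using e.comm (hs _) (hp 65 (by decide)) (tabE6.lead E hS (c := 1) (by rw [tabE6.simple E]; decide +kernel)) 1⟩
  have b0 : ∀ t, θ t ≠ t → (E.S K).res.Co (E.R.simple (nE6 0)) t u → ∃ t, θ t ≠ t ∧ t ∈ (E.S K).res.cof H (hp 68 (by decide)) :=
    fun t ht e => by
      have e1 := e.comm (hs _) (hp 53 (by decide)) (tabE6.lead E hS (k := rE6 64) (c := -1)
        (by rw [tabE6.simple E]; decide +kernel)) 1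
      have e2 := (e1.comm (hp 64 (by decide)) (hs (nE6 2)) (tabE6.lead E hS (k := rE6 67) (c := -1)
        (by rw [tabE6.simple E]; decide +kernel)) 1).comm_mul (e1.comm_zero (hp 64 (by decide)) (hs (nE6 4))
        (by simp only [tabE6.ht E, tabE6.simple E]; decide +kernel)
        (tabE6.root_ne E (by rw [tabE6.simple E]; decide +kernel)) 1) (hp 67 (by decide)) ((E.S K).res.x_mem_U (hs _) _)
      have e3 := (e2.comm_zero (hp 67 (by decide)) (hs (nE6 0)) (by simp only [tabE6.ht E, tabE6.simple E]; decide +kernel)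
        (tabE6.root_ne E (by rw [tabE6.simple E]; decide +kernel)) 1).comm_mul (e2.comm (hp 67 (by decide)) (hs (nE6 5))
        (tabE6.lead E hS (k := rE6 68) (c := -1) (by rw [tabE6.simple E]; decide +kernel)) 1) (hp 68 (by decide))
        ((E.S K).res.x_mem_U (hs _) _)
      have m : ∀ k a b, vE6 k = [a, b] → (E.S K).res.x (E.R.simple a) 1 * (E.S K).res.x (E.R.simple b) 1 ∈
        fixSub A.σ ⊓ fixSub α := fun k a b e => by simpa [e] using h.prod_mem k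
      exact ⟨-t, by simpa, _, cm (cm (cm hu (fx 53 (by decide +kernel))) (m 2 (nE6 2) (nE6 4) rfl)) (m 3 (nE6 0) (nE6 5) rfl), by simpa using e3⟩
  have ht' : θ (θ t) ≠ θ t := θ.injective.ne ht
  have e' := h.co_simple a2 e hu
  obtain rfl | rfl | rfl | rfl | rfl | rfl := (by decide : ∀ i : Fin chevE6.rank,
    i = nE6 0 ∨ i = nE6 1 ∨ i = nE6 2 ∨ i = nE6 3 ∨ i = nE6 4 ∨ i = nE6 5) i
  exacts [b0 t ht e, absurd (p 1) hi, b2 t ht e, absurd (p 3) hi, b2 _ ht' (p 4 ▸ e'), b0 _ ht' (p 5 ▸ e')]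

end CL.Chev
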